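import Mathlib

/-! Orders of abelian subgroups of symmetric and alternating groups: upper bounds `AP.le_f`, `AP.le_g`, examples `AP.Q`. -/

set_option autoImplicit false

namespace H2.AP
open Equiv Equiv.Perm Subgroup MulAction

variable {α : Type*} [Fintype α] [DecidableEq α]

theorem step (A : Subgroup (Perm α)) [IsMulCommutative A] {S : Finset α} (hS : ∀ a ∈ A, a.support ⊆ S) {x : α}
    (hx : x ∈ S) : ∃ (B : Subgroup (Perm α)) (T : Finset α), B ≤ A ∧ (∀ a ∈ B, a.support ⊆ T) ∧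
      0 < (orbit A x).ncard ∧ S.card = T.card + (orbit A x).ncard ∧ Nat.card A = (orbit A x).ncard * Nat.card B := by
  classical
  have h : (orbit A x).toFinset ⊆ S := fun y hy => by
    obtain ⟨a, rfl⟩ := Set.mem_toFinset.1 hy
    by_cases e : a.1 x = x
    · exact (congrArg (· ∈ S) e).mpr hx
    · exact hS a a.2 (apply_mem_support.2 (mem_support.2 e))
  refine ⟨(stabilizer A x).map A.subtype, S \ (orbit A x).toFinset, map_subtype_le _, ?_,
    (Set.ncard_pos (Set.toFinite _)).2 ⟨x, mem_orbit_self x⟩, ?_, ?_⟩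
  · rintro _ ⟨b, hb, rfl⟩ y hy
    refine Finset.mem_sdiff.2 ⟨hS _ b.2 hy, fun h => mem_support.1 hy ?_⟩
    obtain ⟨a, rfl⟩ := Set.mem_toFinset.1 h
    change b • a • x = a • x
    rw [← mul_smul, mul_comm' b a, mul_smul, mem_stabilizer_iff.1 hb]
  · rw [Set.ncard_eq_toFinset_card', Finset.card_sdiff_add_card_eq_card h]
  · rw [card_map_of_injective A.subtype_injective, ← index_stabilizer, index_mul_card]

theorem bd (f : ℕ → ℕ) (M : ℕ) (h0 : 1 ≤ f 0) (hf : ∀ m n, 0 < m → m ≤ M → m * f n ≤ f (n + m)) (n : ℕ) :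
    ∀ (A : Subgroup (Perm α)) [IsMulCommutative A] (S : Finset α), S.card = n → (∀ a ∈ A, a.support ⊆ S) →
      (∀ x : α, (orbit A x).ncard ≤ M) → Nat.card A ≤ f n := by
  induction n using Nat.strong_induction_on with | _ n ih => ?_
  rintro A _ S rfl hS hM
  rcases S.eq_empty_or_nonempty with rfl | ⟨x, hx⟩
  · rw [(eq_bot_iff_forall A).2 fun a ha => by simpa using hS a ha]; simpa using h0
  obtain ⟨B, T, h1, h2, h3, h4, h5⟩ := step A hS hx
  have : IsMulCommutative B := ⟨⟨fun a b => Subtype.ext (setLike_mul_comm (h1 a.2) (h1 b.2))⟩⟩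
  rw [h5, h4]
  refine (Nat.mul_le_mul_left _ (ih _ (by omega) B T rfl h2 fun y => le_trans (Set.ncard_le_ncard ?_) (hM y))).trans
    (hf _ _ h3 (hM x))
  rintro _ ⟨b, rfl⟩; exact ⟨⟨b, h1 b.2⟩, rfl⟩

def f : ℕ → ℕ
  | 0 => 1 | 1 => 1 | 2 => 2 | 3 => 3 | 4 => 4
  | n + 5 => 3 * f (n + 2)

def g : ℕ → ℕ
  | 0 => 1 | 1 => 1 | 2 => 1 | 3 => 3 | 4 => 4 | 5 => 5 | 6 => 9 | 7 => 12 | 8 => 16
  | n + 9 => 3 * g (n + 6)

theorem f_base : ∀ n, f n ≤ f (n + 1) ∧ 2 * f n ≤ f (n + 2) ∧ 3 * f n ≤ f (n + 3) ∧ 4 * f n ≤ f (n + 4)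
  | 0 | 1 | 2 | 3 | 4 => by decide
  | n + 5 => by have := f_base (n + 2); simp only [f] at *; omega

theorem f_mul : ∀ m n, 0 < m → m * f n ≤ f (n + m)
  | 1, n, _ => by simpa using (f_base n).1
  | 2, n, _ => (f_base n).2.1
  | 3, n, _ => (f_base n).2.2.1
  | 4, n, _ => (f_base n).2.2.2
  | m + 5, n, _ => by
    have := f_mul (m + 2) n (by omega)
    have := (f_base (n + (m + 2))).2.2.1
    rw [show n + (m + 5) = n + (m + 2) + 3 by omega]; nlinarith

theorem g_base : ∀ n, 3 * g n ≤ g (n + 3) ∧ 4 * g n ≤ g (n + 4) ∧ 5 * g n ≤ g (n + 5)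
  | 0 | 1 | 2 | 3 | 4 | 5 | 6 | 7 | 8 => by decide
  | n + 9 => by have := g_base (n + 6); simp only [g] at *; omega

theorem g_mul : ∀ m n, 2 < m → m * g n ≤ g (n + m)
  | 3, n, _ => (g_base n).1
  | 4, n, _ => (g_base n).2.1
  | 5, n, _ => (g_base n).2.2
  | m + 6, n, _ => by
    have := g_mul (m + 3) n (by omega)
    have := (g_base (n + (m + 3))).1
    rw [show n + (m + 6) = n + (m + 3) + 3 by omega]; nlinarith

theorem g_two : ∀ n, n ≠ 2 → 2 ^ (n / 2) ≤ g n
  | 0, _ | 1, _ | 3, _ | 4, _ | 5, _ | 6, _ | 7, _ | 8, _ => by decide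
  | n + 9, _ => by
    have := g_two (n + 3) (by omega)
    have := (g_base (n + 3)).1
    rw [g, show (n + 9) / 2 = (n + 3) / 2 + 3 by omega, pow_add, show n + 6 = n + 3 + 3 from rfl]; omega

theorem le_f (A : Subgroup (Perm α)) [IsMulCommutative A] : Nat.card A ≤ f (Fintype.card α) :=
  bd f (Nat.card α) le_rfl (fun m n h _ => f_mul m n h) _ A Finset.univ rfl (fun _ _ => Finset.subset_univ _)
    fun _ => Set.ncard_le_card _

theorem le_g' (n : ℕ) : ∀ (A : Subgroup (Perm α)) [IsMulCommutative A] (S : Finset α), S.card = n →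
    (∀ a ∈ A, a.support ⊆ S) → A ≤ alternatingGroup α → Nat.card A ≤ g n := by
  induction n using Nat.strong_induction_on with | _ n ih => ?_
  rintro A _ S rfl hS hA
  by_cases h : ∃ x : α, 2 < (orbit A x).ncard
  · obtain ⟨x, hx⟩ := h
    obtain ⟨B, T, h1, h2, h3, h4, h5⟩ := step A hS (x := x) (by
      by_contra e
      have := (Set.ncard_le_one (Set.toFinite _)).2 (subsingleton_orbit_iff_mem_fixedPoints.2 fun a : A =>
        by_contra fun e' => e (hS a a.2 (mem_support.2 e')))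
      omega)
    have : IsMulCommutative B := ⟨⟨fun a b => Subtype.ext (setLike_mul_comm (h1 a.2) (h1 b.2))⟩⟩
    rw [h5, h4]
    exact (Nat.mul_le_mul_left _ (ih _ (by omega) B T rfl h2 (h1.trans hA))).trans (g_mul _ _ hx)
  by_cases h2 : S.card = 2
  · rw [(eq_bot_iff_forall A).2 fun a ha => by_contra fun e => ?_, h2]; · simp [g]
    have := (card_support_eq_two.1 (le_antisymm (h2 ▸ Finset.card_le_card (hS a ha))
      (two_le_card_support_of_ne_one e))).sign_eq
    rw [mem_alternatingGroup.1 (hA ha)] at this; exact absurd this (by decide)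
  refine (bd (fun n => 2 ^ (n / 2)) 2 le_rfl (fun m n h1 h2 => ?_) _ A S rfl hS (by simpa using h)).trans (g_two _ h2)
  interval_cases m
  · rw [one_mul]; gcongr <;> omega
  · rw [Nat.add_div_right _ two_pos, pow_succ']

theorem le_g (A : Subgroup (alternatingGroup α)) [IsMulCommutative A] : Nat.card A ≤ g (Fintype.card α) := by
  rw [← card_map_of_injective (alternatingGroup α).subtype_injective]
  exact le_g' _ _ Finset.univ rfl (fun _ _ => Finset.subset_univ _) (map_subtype_le _)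

def Q (e : Prop) (n c : ℕ) : Prop :=
  ∃ A : Subgroup (Perm (Fin n)), IsMulCommutative A ∧ Nat.card A = c ∧ (e → A ≤ alternatingGroup _)

theorem Q.add {e : Prop} {n m c d : ℕ} (h : Q e n c) (k : Q e m d) : Q e (n + m) (c * d) := by
  obtain ⟨A, h1, h2, h3⟩ := h
  obtain ⟨B, k1, k2, k3⟩ := k
  have : IsMulCommutative (A.prod B) := ⟨⟨fun a b => Subtype.ext (Prod.ext
    (setLike_mul_comm a.2.1 b.2.1) (setLike_mul_comm a.2.2 b.2.2))⟩⟩
  refine ⟨(A.prod B).map (finSumFinEquiv.permCongrHom.toMonoidHom.comp (sumCongrHom _ _)), inferInstance, ?_, ?_⟩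
  · rw [card_map_of_injective (by exact finSumFinEquiv.permCongrHom.injective.comp sumCongrHom_injective),
      Nat.card_congr (Subgroup.prodEquiv A B).toEquiv, Nat.card_prod, h2, k2]
  · rintro he _ ⟨⟨a, b⟩, ⟨ha, hb⟩, rfl⟩
    simp [mem_alternatingGroup.1 (h3 he ha), mem_alternatingGroup.1 (k3 he hb)]

theorem Q.three {e : Prop} {n c : ℕ} (h : Q e n c) (k : ℕ) : Q e (3 * k + n) (c * 3 ^ k) := by
  induction k with
  | zero => simpa using h
  | succ k ih =>
    rw [show 3 * (k + 1) + n = 3 * k + n + 3 by ring, pow_succ, ← mul_assoc]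
    exact ih.add ⟨zpowers (finRotate 3), inferInstance, by
      rw [Nat.card_zpowers]; exact orderOf_eq_prime (by decide) (by decide), fun _ => zpowers_le.2 (mem_alternatingGroup.2 (by decide))⟩

theorem Q0 {e : Prop} : Q e 0 1 := ⟨⊥, inferInstance, by simp, fun _ => bot_le⟩
theorem Q2 : Q False 2 2 := ⟨zpowers (finRotate 2), inferInstance, by
  rw [Nat.card_zpowers]; exact orderOf_eq_prime (by decide) (by decide), False.elim⟩
theorem Q4 {e : Prop} : Q e 4 4 := by
  let V : Subgroup (Perm (Fin 4)) := ⟨⟨⟨{g | g * g = 1 ∧ sign g = 1}, by decide +revert +kernel⟩, by decide⟩,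
    by decide +revert +kernel⟩
  refine ⟨V, ⟨⟨fun a b => Subtype.ext ?_⟩⟩, ?_, fun _ _ h => h.2⟩
  · exact (by decide +kernel : ∀ a b : Perm (Fin 4), a * a = 1 ∧ sign a = 1 → b * b = 1 ∧ sign b = 1 → a * b = b * a)
      _ _ a.2 b.2
  · change Nat.card {g : Perm (Fin 4) // g * g = 1 ∧ sign g = 1} = 4
    rw [Nat.card_eq_fintype_card]; decide +kernel

theorem Q.alt {n c : ℕ} (h : Q True n c) :
    ∃ A : Subgroup (alternatingGroup (Fin n)), IsMulCommutative A ∧ Nat.card A = c := by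
  obtain ⟨A, h1, h2, h3⟩ := h
  exact ⟨A.subgroupOf _, inferInstance, (Nat.card_congr (subgroupOfEquivOfLe (h3 trivial)).toEquiv).trans h2⟩

theorem f_three (k n : ℕ) : f (3 * k + (n + 2)) = f (n + 2) * 3 ^ k := by
  induction k with
  | zero => simp
  | succ k ih => rw [show 3 * (k + 1) + (n + 2) = 3 * k + n + 5 by ring, f, add_assoc, ih]; ring

theorem g_three (k n : ℕ) : g (3 * k + (n + 6)) = g (n + 6) * 3 ^ k := by
  induction k with
  | zero => simp
  | succ k ih => rw [show 3 * (k + 1) + (n + 6) = 3 * k + n + 9 by ring, g, add_assoc, ih]; ring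

end H2.AP
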