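import Cfsg.Agent.H3.Cb2
import Cfsg.Agent.H19.ZD

/-! Cubic action of an element of order three on a `2`-group `R = ⁅R, b⁆` (`H3.Cb.Hy`): signs on lines (`Cu.inv3`,
`Cu.sgn`), `Cu.four`, `Cu.cT`, `Cu.zinv` and the normal abelian subgroup `Q₁ × ⟨z⟩` (`Cu.exA`). -/

set_option autoImplicit false
set_option linter.unusedSectionVars false

namespace H2.Cu

open Subgroup Cfsg H18 H1 H3 H3.Cb
open scoped commutatorElement

variable {G : Type*} [Group G] [Finite G] {V R Q T X L E M : Subgroup G} {b s t x y z w : G}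

theorem inv3 (hL : Nat.card L = 3) (hx : x ∈ N(L)) (k : x ∉ C(L)) (hw : w ∈ L) : x * w * x⁻¹ = w⁻¹ := by
  by_cases w1 : w = 1
  · simp [w1]
  have o : orderOf w = 3 := orderOf_eq_prime (hL ▸ (by
    have := pow_card_eq_one' (G := L) (x := ⟨w, hw⟩); exact congrArg Subtype.val this)) w1
  have e : zpowers w = L := eq_of_card_eq (zpowers_le.2 hw) (by rw [card_zpowers', o, hL])
  have m := conj_mem_N hx hw
  rw [← e, ← mem_powers_iff_mem_zpowers] at m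
  obtain ⟨n, hn⟩ := m
  have hn : w ^ (n % 3) = x * w * x⁻¹ := by rw [← o, pow_mod_orderOf]; exact hn
  have w3 : w ^ 3 = 1 := o ▸ pow_orderOf_eq_one w
  obtain h | h | h : n % 3 = 0 ∨ n % 3 = 1 ∨ n % 3 = 2 := by omega
  · rw [h, pow_zero] at hn; exact (w1 (conj_eq_one_iff'.1 hn.symm)).elim
  · rw [h, pow_one] at hn
    exact (k (by rw [← e, C_zpowers]; exact mem_C1.2 (mul_inv_eq_iff_eq_mul.1 hn.symm))).elim
  · rw [h] at hn; rw [← hn]; exact eq_inv_of_mul_eq_one_left (by rw [← pow_succ, w3])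

theorem sgn (hL : Nat.card L = 3) (hx : x ∈ N(L)) (hy : y ∈ N(L)) (k : x ∉ C(L)) (l : y ∉ C(L)) : x * y ∈ C(L) :=
  mem_C.2 fun w hw => by
    have : x * y * w * (x * y)⁻¹ = w := by
      rw [show x * y * w * (x * y)⁻¹ = x * (y * w * y⁻¹) * x⁻¹ by group, inv3 hL hy l hw, inv3 hL hx k (inv_mem hw), inv_inv]
    exact (mul_inv_eq_iff_eq_mul.1 this).symm

theorem der3 (hL : Nat.card L = 3) (hM : M ≤ N(L)) : ⁅M, M⁆ ≤ C(L) := commutator_le.2 fun x hx y hy => by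
  rw [commutatorElement_def]
  by_cases k : x ∈ C(L)
  · rw [mul_assoc, mul_assoc, ← mul_assoc y]
    exact mul_mem k (conj_mem (norm_C hM) hy (inv_mem k))
  by_cases l : y ∈ C(L)
  · exact mul_mem (conj_mem (norm_C hM) hx l) (inv_mem l)
  · rw [mul_assoc (x * y), ← mul_inv_rev]
    exact mul_mem (sgn hL (hM hx) (hM hy) k l) (inv_mem (sgn hL (hM hy) (hM hx) l k))

/-- the line of `s` -/
abbrev Ln (V T : Subgroup G) (s : G) : Subgroup G := ⁅V, T⁆ ⊓ C1(s)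

theorem nLn (h : Hy V R b) (hs : s ∈ T) (hM : M ≤ R) (hc : M ≤ C(T)) : M ≤ N(Ln V T s) :=
  norm_inf (norm_comm (hM.trans h.nR) (cent_norm hc)) (norm_C1 fun m hm => mem_C1.2 (mem_C.1 (hc hm) s hs).symm)

theorem oddV (h : Hy V R b) (hX : X ≤ V) : Odd (Nat.card X) := (h.piV.of_le hX).odd_of_ne (by norm_num)

theorem gen (h : Hy V R b) (hT : T ≤ R) (f : Fg T b) (hs : s ∈ T) (s1 : s ≠ 1) (h1 : Ln V T s ≤ X)
    (h2 : Ln V T (b * s * b⁻¹) ≤ X) (h3 : Ln V T (b⁻¹ * s * b) ≤ X) : ⁅V, T⁆ ≤ X := by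
  have m := conj_mem_N f.nb hs
  exact H19.four_gen (oddV h (h.cV hT)) (f.sq hs) (f.sq m) s1 (mt conj_eq_one_iff'.1 s1)
    (fun e => s1 (f.fix h.ord hs e.symm)) (comm_of_cent f.el.abel hs m) (norm_comm_right hs) (norm_comm_right m) h1 h2
    (f.prod h.ord hs ▸ h3)

/-- conjugation by `b` moves the centralizer of the line of `s` -/
theorem cLn (h : Hy V R b) (f : Fg T b) {g : G} (hg : g ∈ zpowers b) (hx : x ∈ C(Ln V T s)) :
    g * x * g⁻¹ ∈ C(Ln V T (g * s * g⁻¹)) := mem_C.2 fun w hw => by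
  have n : g ∈ N((⁅V, T⁆ : Subgroup G)) := zpowers_le.2 (h.nc f.nb) hg
  have := mem_C.1 hx (g⁻¹ * w * g) ⟨conj_mem_N' n hw.1, mem_C1.2 (by
    have := mem_C1.1 hw.2
    calc g⁻¹ * w * g * s = g⁻¹ * (w * (g * s * g⁻¹)) * g := by group
      _ = _ := by rw [this]; group)⟩
  calc w * (g * x * g⁻¹) = g * (g⁻¹ * w * g * x) * g⁻¹ := by group
    _ = _ := by rw [this]; group

theorem triv (h : Hy V R b) (hT : T ≤ R) (hx : x ∈ R) (h1 : x ∈ C((⁅V, T⁆ : Subgroup G)))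
    (h2 : x ∈ C((V ⊓ C(T) : Subgroup G))) : x = 1 :=
  h.triv hx (by rw [← (h.copV hT le_rfl (hT.trans h.nR)).comm_sup, C_sup]; exact ⟨h1, h2⟩)

theorem cW (h : Hy V R b) (hT : T ≤ R) (f : Fg T b) (hs : s ∈ T) (s1 : s ≠ 1) (h1 : x ∈ C(Ln V T s))
    (h2 : x ∈ C(Ln V T (b * s * b⁻¹))) (h3 : x ∈ C(Ln V T (b⁻¹ * s * b))) : x ∈ C((⁅V, T⁆ : Subgroup G)) :=
  cent_symm (gen h hT f hs s1 (cent_symm (zpowers_le.2 h1)) (cent_symm (zpowers_le.2 h2))
    (cent_symm (zpowers_le.2 h3))) (mem_zpowers x)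

/-- the statement that lines have order three -/
def Line (V T : Subgroup G) : Prop := ∀ s ∈ T, s ≠ 1 → Nat.card (Ln V T s) = 3

theorem ncL (h : Hy V R b) (hT : T ≤ R) (f : Fg T b) (l : Line V T) (hs : s ∈ T) (ht : t ∈ T) (s1 : s ≠ 1) (t1 : t ≠ 1)
    (k : s ≠ t) : t ∉ C(Ln V T s) := fun c => by
  have : Ln V T s ≤ ⊥ := by
    rw [← h.dis hT]
    refine le_inf inf_le_left (cent_symm ?_)
    rw [← f.gen hs ht s1 t1 k]
    exact sup_le (zpowers_le_C_iff.2 inf_le_right) (zpowers_le.2 (by rwa [f.gen hs ht s1 t1 k]))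
  have e := l s hs s1
  rw [le_bot_iff.1 this, card_bot] at e
  omega

theorem exs (f : Fg T b) : ∃ s ∈ T, s ≠ 1 := exists_mem_ne_one' fun e => by
  have := f.card; rw [e, card_bot] at this; omega

theorem four (h : Hy V R b) (hT : T ≤ E) (f : Fg T b) (l : Line V T) (hE : E ≤ R) (a : Abel E) (n : b ∈ N(E))
    (e : ⁅E, zpowers b⁆ = E) : E ≤ T := by
  obtain ⟨s, hs, s1⟩ := exs f
  have hTR := hT.trans hE
  have cT : E ≤ C(T) := cent_mono a le_rfl hT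
  have m := conj_mem_N f.nb hs
  have m1 : b * s * b⁻¹ ≠ 1 := mt conj_eq_one_iff'.1 s1
  have ne : s ≠ b * s * b⁻¹ := fun e => s1 (f.fix h.ord hs e.symm)
  have b3 : b * b * b = 1 := by rw [← pow_three', h.b3]
  have bb : b * b = b⁻¹ := eq_inv_of_mul_eq_one_left b3
  have d : E ⊓ C(zpowers b) = ⊥ := by
    have := abel_comm_inf_cent a (zpowers_le.2 n) (h.copB hE n).cop
    rwa [e] at this
  have U : E ≤ C((V ⊓ C(T) : Subgroup G)) := e.ge.trans ((comm_mono le_rfl (zpowers_le.2 (h.lemB hTR f.nb f.nc).2)).trans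
    (comm_le_right (norm_C (norm_inf (hE.trans h.nR) (norm_C (cent_norm cT))))))
  have key : ∀ x ∈ E, x ∈ C(Ln V T s) → x ∈ C(Ln V T (b * s * b⁻¹)) → x = 1 := fun x hx h1 h2 => by
    have x1 := conj_mem_N n hx
    have x2 := conj_mem_N' n hx
    have p : x * (b * x * b⁻¹) * (b⁻¹ * x * b) = 1 := eq_one_of_eq_bot d ⟨mul_mem (mul_mem hx x1) x2, by
      rw [C_zpowers]
      refine mem_C1.2 (mul_inv_eq_iff_eq_mul.1 ?_).symm
      rw [show b * (x * (b * x * b⁻¹) * (b⁻¹ * x * b)) * b⁻¹ = b * x * b⁻¹ * (b * b * x * (b * b)⁻¹) * x by group, bb,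
        inv_inv, ← comm_of_cent a hx (mul_mem x1 x2), mul_assoc x]⟩
    refine triv h hTR (hE hx) (cW h hTR f hs s1 h1 h2 ?_) (U hx)
    rw [mul_assoc, mul_eq_one_iff_eq_inv] at p
    rw [p]
    refine inv_mem (mul_mem ?_ ?_)
    · have := cLn h f (mem_zpowers b) h2
      rwa [show b * (b * s * b⁻¹) * b⁻¹ = b * b * s * (b * b)⁻¹ by group, bb, inv_inv] at this
    · simpa using cLn h f (inv_mem (mem_zpowers b)) h1
  have c1 : s ∈ C(Ln V T s) := zpowers_le_C_iff.2 inf_le_right (mem_zpowers s)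
  have c2 : b * s * b⁻¹ ∈ C(Ln V T (b * s * b⁻¹)) := zpowers_le_C_iff.2 inf_le_right (mem_zpowers _)
  have st : ∀ x ∈ E, x ∈ C(Ln V T s) → x ∈ T := fun x hx h1 => by
    by_cases h2 : x ∈ C(Ln V T (b * s * b⁻¹))
    · exact key x hx h1 h2 ▸ one_mem _
    · have := key _ (mul_mem hx (hT hs)) (mul_mem h1 c1) (sgn (l _ m m1) (nLn h m hE cT hx) (nLn h m hE cT (hT hs)) h2
        (ncL h hTR f l m hs m1 s1 ne.symm))
      rw [mul_eq_one_iff_eq_inv.1 this]; exact inv_mem hs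
  intro x hx
  by_cases h1 : x ∈ C(Ln V T s)
  · exact st x hx h1
  · have := st _ (mul_mem hx (hT m)) (sgn (l _ hs s1) (nLn h hs hE cT hx) (nLn h hs hE cT (hT m)) h1
      (ncL h hTR f l hs m s1 m1 ne))
    exact (mul_mem_cancel_right m).1 this

theorem cT (h : Hy V R b) (hT : T ≤ R) (f : Fg T b) (l : Line V T) (hM : M ≤ R) (c : M ≤ C(T)) (n : b ∈ N(M)) :
    ⁅M, zpowers b⁆ ≤ T := by
  obtain ⟨s, hs, s1⟩ := exs f
  have l1 := comm_le_left (zpowers_le.2 n)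
  have U : ⁅M, zpowers b⁆ ≤ C((V ⊓ C(T) : Subgroup G)) :=
    (comm_mono le_rfl (zpowers_le.2 (h.lemB hT f.nb f.nc).2)).trans
      (comm_le_right (norm_C (norm_inf (hM.trans h.nR) (norm_C (cent_norm c)))))
  have m := conj_mem_N f.nb hs
  have m' := conj_mem_N' f.nb hs
  have a : Abel ⁅M, zpowers b⁆ := abel_iff_der.2 (eq_bot_iff.2 fun x hx => by
    have hx' := comm_mono l1 l1 hx
    exact triv h hT (hM (der_le hx')) (cW h hT f hs s1 (der3 (l _ hs s1) (nLn h hs hM c) hx')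
      (der3 (l _ m (mt conj_eq_one_iff'.1 s1)) (nLn h m hM c) hx')
      (der3 (l _ m' (fun e => s1 (by simpa [mul_eq_one_iff_eq_inv, mul_assoc] using e))) (nLn h m' hM c) hx'))
      (U (der_le hx)))
  have nb : zpowers b ≤ N((⁅M, zpowers b⁆ ⊔ T : Subgroup G)) := norm_sup norm_comm_right (zpowers_le.2 f.nb)
  refine le_sup_left.trans (four h le_sup_right f l (sup_le (l1.trans hM) hT) (a.sup f.el.abel (l1.trans c))
    (zpowers_le.1 nb) (le_antisymm (comm_le_left nb) (sup_le ?_ ?_)))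
  · exact (h.copB hM n).comm_comm.ge.trans (comm_mono le_sup_left le_rfl)
  · exact (f.cm h.ord).ge.trans (comm_mono le_sup_right le_rfl)

theorem zinv (h : Hy V R b) (hT : T ≤ R) (f : Fg T b) (hz : z ∈ R) (c : z ∈ C((R ⊔ zpowers b : Subgroup G))) (z1 : z ≠ 1)
    (hs : s ∈ T) (s1 : s ≠ 1) : z ∉ C(Ln V T s) := fun k => by
  have zb : ∀ g ∈ zpowers b, g * z * g⁻¹ = z := fun g hg => by
    rw [mem_C.1 c g (mem_sup_right hg), mul_inv_cancel_right]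
  have cw : z ∈ C((⁅V, T⁆ : Subgroup G)) := cW h hT f hs s1 k (zb _ (mem_zpowers b) ▸ cLn h f (mem_zpowers b) k)
    (by simpa [zb _ (inv_mem (mem_zpowers b))] using
      (zb _ (inv_mem (mem_zpowers b)) ▸ cLn h f (inv_mem (mem_zpowers b)) k :))
  have zR := zpowers_le.2 hz
  have nz : R ⊔ zpowers b ≤ N(zpowers z) := cent_norm (cent_symm (zpowers_le.2 c))
  have nU : zpowers z ≤ N((V ⊓ C(T) : Subgroup G)) :=
    norm_inf (zR.trans h.nR) (norm_C (cent_norm (zpowers_le.2 (C_anti (hT.trans le_sup_left) c))))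
  have l : ⁅V, zpowers z⁆ ≤ V ⊓ C(T) := by
    rw [← (h.copV hT le_rfl (hT.trans h.nR)).comm_sup]
    refine comm_sup_le ((comm_eq_bot_iff.2 (cent_symm (zpowers_le.2 cw))).le.trans bot_le) ?_ ?_ ?_
    · rw [(h.copV hT le_rfl (hT.trans h.nR)).comm_sup]; exact comm_le_left nU
    · rw [(h.copV hT le_rfl (hT.trans h.nR)).comm_sup]; exact (h.cV hT).trans (h.el.abel.norm inf_le_left)
    · rw [(h.copV hT le_rfl (hT.trans h.nR)).comm_sup]; exact le_N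
  have := h.cen (norm_comm h.nR (le_sup_left.trans nz)) (C_anti l (h.lemB hT f.nb f.nc).2)
  exact z1 (h.triv hz (cent_symm ((h.copV zR le_rfl (zR.trans h.nR)).cent_of_comm_cent (cent_symm (zR.trans this)))
    (mem_zpowers z)))

theorem exM (h : Hy V R b) (h2 : PiGrp {2} R) (hX : X ≤ R) (n : R ⊔ zpowers b ≤ N(X)) (k : b ∉ C(X)) :
    ∃ M ≤ X, b ∈ N(M) ∧ R ≤ N(M) ∧ b ∉ C(M) ∧ ⁅M, R⁆ ≤ C((R ⊔ zpowers b : Subgroup G)) := by
  obtain ⟨M, hM, ⟨n1, k1⟩, m⟩ := exists_minimal_sub (fun Y => R ⊔ zpowers b ≤ N(Y) ∧ b ∉ C(Y)) ⟨n, k⟩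
  have nR : R ⊔ zpowers b ≤ N(R) := sup_le le_N (zpowers_le.2 h.nbR)
  have c : b ∈ C((⁅M, R⁆ : Subgroup G)) := by
    by_contra c
    have e := m _ ⟨norm_comm n1 nR, c⟩ (comm_le_left (le_sup_left.trans n1))
    exact k1 (by rw [h2.nil.eq_bot_of_le_comm (hM.trans hX) le_rfl e.ge]; simp)
  exact ⟨M, hM, n1 (mem_sup_right (mem_zpowers b)), le_sup_left.trans n1, k1,
    cent_symm (sup_le (h.cen (le_sup_left.trans (norm_comm n1 nR)) c) (zpowers_le.2 c))⟩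

theorem exFg (h : Hy V R b) (h2 : PiGrp {2} R) (hE : E ≤ R) (a : Abel E) (n : b ∈ N(E))
    (e : ⁅E, zpowers b⁆ = E) (ne : E ≠ ⊥) : ∃ T ≤ E, Fg T b := by
  have d : E ⊓ C(zpowers b) = ⊥ := by
    have := abel_comm_inf_cent a (zpowers_le.2 n) (h.copB hE n).cop
    rwa [e] at this
  obtain ⟨t, ht, o⟩ := exists_prime_order ne
  have o2 : orderOf t = 2 := h2.of_le hE _ o ((E.orderOf_dvd_natCard ht))
  have t1 : t ≠ 1 := fun e => by simp [e] at o2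
  have t2 : t * t = 1 := by rw [← pow_two, ← o2, pow_orderOf_eq_one]
  have fx : ∀ x ∈ E, b * x * b⁻¹ = x → x = 1 := fun x hx k => eq_one_of_eq_bot d ⟨hx, by
    rw [C_zpowers]; exact mem_C1.2 (mul_inv_eq_iff_eq_mul.1 k).symm⟩
  have x1 := conj_mem_N n ht
  have x2 := conj_mem_N' n ht
  have bb : b * b = b⁻¹ := eq_inv_of_mul_eq_one_left (by rw [← pow_three', h.b3])
  have p : t * (b * t * b⁻¹) * (b⁻¹ * t * b) = 1 := fx _ (mul_mem (mul_mem ht x1) x2) (by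
    rw [show b * (t * (b * t * b⁻¹) * (b⁻¹ * t * b)) * b⁻¹ = b * t * b⁻¹ * (b * b * t * (b * b)⁻¹) * t by group, bb,
      inv_inv, ← comm_of_cent a ht (mul_mem x1 x2), mul_assoc t])
  have u2 : b * t * b⁻¹ * (b * t * b⁻¹) = 1 := by
    rw [show b * t * b⁻¹ * (b * t * b⁻¹) = b * (t * t) * b⁻¹ by group, t2]; simp
  have le : zpowers t ⊔ zpowers (b * t * b⁻¹) ≤ E := sup_le (zpowers_le.2 ht) (zpowers_le.2 x1)
  have cc : zpowers t ≤ C(zpowers (b * t * b⁻¹)) := cent_mono a (zpowers_le.2 ht) (zpowers_le.2 x1)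
  have ne : b * t * b⁻¹ ≠ t := fun e => t1 (fx t ht e)
  refine ⟨_, le, ⟨a.mono le, fun x hx => ?_⟩, ?_, ?_, fun c => ne ?_⟩
  · obtain ⟨y, hy, w, hw, rfl⟩ := (mem_sup_of_cent cc).1 hx
    rw [(show Commute y w from comm_of_cent cc hy hw).mul_pow]
    rcases mem2 t2 hy with rfl | rfl <;> rcases mem2 u2 hw with rfl | rfl <;> simp only [pow_two, t2, u2, mul_one]
  · rw [card_sup_of_cent cc (eq_bot_iff.2 fun y hy => (mem2 t2 hy.1).elim id fun e =>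
      (mem2 u2 hy.2).resolve_right fun e' => ne (e'.symm.trans e)), card_zpowers', card_zpowers', o2,
      orderOf_eq_prime (p := 2) (by rw [pow_two, u2]) (mt conj_eq_one_iff'.1 t1)]
  · refine mem_N_of_finite fun x hx => ?_
    have : zpowers t ⊔ zpowers (b * t * b⁻¹) ≤ (zpowers t ⊔ zpowers (b * t * b⁻¹)).comap (MulAut.conj b).toMonoidHom := by
      refine sup_le (zpowers_le.2 (mem_sup_right (mem_zpowers _))) (zpowers_le.2 ?_)
      show b * (b * t * b⁻¹) * b⁻¹ ∈ zpowers t ⊔ zpowers (b * t * b⁻¹)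
      rw [show b * (b * t * b⁻¹) * b⁻¹ = b * b * t * (b * b)⁻¹ by group, bb, inv_inv, ← inv_mem_iff,
        ← eq_inv_of_mul_eq_one_left p]
      exact mul_mem (mem_sup_left (mem_zpowers _)) (mem_sup_right (mem_zpowers _))
    exact this hx
  · rw [← mem_C.1 c t (mem_sup_left (mem_zpowers _)), mul_inv_cancel_right]

theorem exA (h : Hy V R b) (h2 : PiGrp {2} R) (hQ : Q ≤ R) (f : Fg Q b) :
    (Elem 2 R ∧ Nat.card R = 4) ∨ ∃ Q1 z, Q1 ≤ R ∧ Fg Q1 b ∧ z ∈ R ∧ orderOf z = 2 ∧ z ∉ Q1 ∧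
      z ∈ C((R ⊔ zpowers b : Subgroup G)) ∧ ⁅Q1, R⁆ = zpowers z ∧ V ⊓ C1(z) ≤ C((R ⊔ zpowers b : Subgroup G)) ∧
      ∀ w ∈ ⁅V, Q1⁆, z * w * z⁻¹ = w⁻¹ := by
  have nR : R ⊔ zpowers b ≤ N(R) := sup_le le_N (zpowers_le.2 h.nbR)
  obtain ⟨M, hM, n, nM, k, a, c⟩ : ∃ M ≤ R, b ∈ N(M) ∧ R ≤ N(M) ∧ b ∉ C(M) ∧ Abel M ∧
      ⁅M, R⁆ ≤ C((R ⊔ zpowers b : Subgroup G)) := by
    by_cases k : b ∈ C((⁅R, R⁆ : Subgroup G))
    · have c := h.cen (norm_der le_N) k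
      obtain ⟨M, l, h1, h3, h4, h5⟩ := exM h h2 (X := Q ⊔ ⁅R, R⁆) (sup_le hQ der_le)
        (sup_le (norm_of_der_le le_sup_right (sup_le hQ der_le))
          (norm_sup (zpowers_le.2 f.nb) (norm_der (zpowers_le.2 h.nbR)))) fun c => f.nc (C_anti le_sup_left c)
      exact ⟨M, l.trans (sup_le hQ der_le), h1, h3, h4, (f.el.abel.sup (der_le.trans c) (hQ.trans c)).mono l, h5⟩
    · obtain ⟨M, l, h1, h3, h4, h5⟩ := exM h h2 der_le (norm_der nR) k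
      have e : ⁅⁅M, R⁆, R⁆ = ⊥ := comm_eq_bot_iff.2 (h5.trans (C_anti le_sup_left))
      exact ⟨M, l.trans der_le, h1, h3, h4,
        l.trans (comm_eq_bot_iff.1 (three_subgroup (by rwa [H18.comm_comm (A := R)]) e)), h5⟩
  have l1 := comm_le_left (zpowers_le.2 n)
  obtain ⟨T, hT, g⟩ := exFg h h2 (l1.trans hM) (a.mono l1) (norm_comm_right (mem_zpowers b)) (h.copB hM n).comm_comm
    fun e => k (cent_symm (comm_eq_bot_iff.1 e) (mem_zpowers b))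
  have TM := hT.trans l1
  have TR := TM.trans hM
  have l : Line V T := fun s hs s1 => h.line TR g hs s1
  obtain ⟨s, hs, s1⟩ := exs g
  by_cases e : ⁅T, R⁆ = ⊥
  · have := le_antisymm (h.cm.ge.trans (cT h TR g l le_rfl (cent_symm (comm_eq_bot_iff.1 e)) h.nbR)) TR
    exact Or.inl (this ▸ ⟨g.el, g.card⟩)
  have cz : ⁅T, R⁆ ≤ C((R ⊔ zpowers b : Subgroup G)) := (comm_mono TM le_rfl).trans c
  have zR : ⁅T, R⁆ ≤ R := (comm_mono TR le_rfl).trans der_le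
  obtain ⟨z, hz, z1⟩ := exists_mem_ne_one' e
  have nl : ∀ {s}, s ∈ T → ⁅T, R⁆ ≤ N(Ln V T s) := fun hs => nLn h hs zR (cz.trans (C_anti (TR.trans le_sup_left)))
  have mul : ∀ y ∈ ⁅T, R⁆, y ≠ 1 → y * z = 1 := fun y hy y1 => by
    by_contra c
    exact zinv h TR g (zR (mul_mem hy hz)) (cz (mul_mem hy hz)) c hs s1 (sgn (l s hs s1) (nl hs hy) (nl hs hz)
      (zinv h TR g (zR hy) (cz hy) y1 hs s1) (zinv h TR g (zR hz) (cz hz) z1 hs s1))
  have iv : ∀ w ∈ ⁅V, T⁆, z * w * z⁻¹ = w⁻¹ := by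
    let I : Subgroup G := ⟨⟨⟨{w | w ∈ V ∧ z * w * z⁻¹ = w⁻¹}, fun {x y} hx hy => ⟨mul_mem hx.1 hy.1, by
      rw [show z * (x * y) * z⁻¹ = z * x * z⁻¹ * (z * y * z⁻¹) by group, hx.2, hy.2, ← mul_inv_rev,
        comm_of_cent h.el.abel hx.1 hy.1]⟩⟩, one_mem _, by simp⟩, fun {x} hx => ⟨inv_mem hx.1, by
      rw [show z * x⁻¹ * z⁻¹ = (z * x * z⁻¹)⁻¹ by group, hx.2]⟩⟩
    have i : ∀ {t}, t ∈ T → t ≠ 1 → Ln V T t ≤ I := fun ht t1 w hw => ⟨h.cV TR hw.1,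
      inv3 (l _ ht t1) (nl ht hz) (zinv h TR g (zR hz) (cz hz) z1 ht t1) hw⟩
    exact fun w hw => (gen h TR g hs s1 (i hs s1) (i (conj_mem_N g.nb hs) (mt conj_eq_one_iff'.1 s1))
      (i (conj_mem_N' g.nb hs) fun e => s1 (by simpa [mul_eq_one_iff_eq_inv, mul_assoc] using e)) hw).2
  have z2 := mul z hz z1
  refine Or.inr ⟨T, z, TR, g, zR hz, orderOf_eq_prime (by rw [pow_two, z2]) z1, fun m => z1 (g.fix h.ord m ?_), cz hz,
    le_antisymm (fun y hy => ?_) (zpowers_le.2 hz), ?_, iv⟩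
  · rw [mem_C.1 (cz hz) b (mem_sup_right (mem_zpowers b)), mul_inv_cancel_right]
  · by_cases y1 : y = 1
    · exact y1 ▸ one_mem _
    · rw [eq_inv_of_mul_eq_one_left (mul y hy y1)]; exact inv_mem (mem_zpowers z)
  have nX : R ≤ N((V ⊓ C1(z) : Subgroup G)) :=
    norm_inf h.nR (norm_C1 fun r hr => mem_C1.2 (mem_C.1 (cz hz) r (mem_sup_left hr)))
  have cX : V ⊓ C1(z) ≤ C(T) := comm_eq_bot_iff.1 (eq_bot_iff.2 fun w hw => by
    have h1 := iv w (comm_mono inf_le_left le_rfl hw)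
    have h3 := comm_le_left (TR.trans nX) hw
    rw [← mem_C1.1 h3.2, mul_inv_cancel_right] at h1
    have h4 := h.el.pow w h3.1
    have : w * w = 1 := by nth_rw 1 [h1]; simp
    rw [pow_three', this, one_mul] at h4
    exact h4)
  have cb : b ∈ C((V ⊓ C1(z) : Subgroup G)) := C_anti (le_inf inf_le_left cX) (h.lemB TR g.nb g.nc).2
  exact cent_symm (sup_le (h.cen nX cb) (zpowers_le.2 cb))

end H2.Cu
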