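import Cfsg.Agent.H2.GWe
import Cfsg.Agent.H7.Klein

/-! The principal `2`-block of a group with dihedral Sylow `2`-subgroups of order `≥ 8` (`principal_mem`,
`principal_formula`); `dih_of_equiv`, `dih_of_gen`, `dih_change_x` build `H22.Dih` structures. -/

set_option autoImplicit false
set_option linter.unusedSectionVars false
open H5 Cfsg H18 H19 H22 Subgroup
open scoped ComplexConjugate Classical commutatorElement

namespace H2

variable {G : Type*} [Group G] {S L : Subgroup G} {t x v y : G} {m : ℕ}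

theorem dih_of_gen [Finite G] (hS : Hall {2} S L) (hx : orderOf x = m) (hm : 2 < m) (h2 : 2 ∣ m) (hv : v * v = 1)
    (hi : v * x * v⁻¹ = x⁻¹) (hg : closure {x, v} = S) : Dih L S (x ^ (m / 2)) x v m := by
  refine ⟨hS, hx, pow_mem (mem_zpowers x) _, hx ▸ H9.orderOf_pow_half (hx ▸ even_iff_two_dvd.2 h2),
    hg ▸ subset_closure (by simp), hg ▸ subset_closure (by simp), fun e => ?_, hv, hi, fun g hg' => ?_⟩
  · rw [comm_of_cent (abel_zpowers (x := x)) e (mem_zpowers x), mul_inv_cancel_right] at hi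
    have : m ∣ 2 := hx ▸ orderOf_dvd_of_pow_eq_one (by rw [pow_two]; nth_rewrite 1 [hi]; exact inv_mul_cancel x)
    exact absurd (Nat.le_of_dvd two_pos this) (by omega)
  · rw [← hg, Set.pair_comm, H9.mem_closure_of_inverts_iff hi (hv ▸ one_mem _)] at hg'
    obtain ⟨k, rfl | rfl⟩ := hg'
    · exact Or.inl (zpow_mem_zpowers x k)
    · right
      rw [show v * x ^ k * v = v * x ^ k * v⁻¹ by rw [inv_of_sq hv], H9.conj_zpow_of_inverts hi]
      exact inv_mem (zpow_mem_zpowers x k)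

theorem cd_of_equiv (e : S ≃* DihedralGroup m) : CD S := by
  refine ⟨e.symm (.r 1), (e.symm _).2, fun g hg hg' => ?_⟩
  have key : ∀ g (hg : g ∈ S), g ∉ zpowers (e.symm (.r 1) : G) → ∃ i, g = e.symm (.sr i) := fun g hg hg' => by
    rcases h : e ⟨g, hg⟩ with i | i
    · obtain ⟨k, rfl⟩ := ZMod.intCast_surjective i
      exact (hg' ⟨k, by simp only; rw [← coe_zpow, ← map_zpow, DihedralGroup.r_one_zpow, ← h, e.symm_apply_apply]⟩).elim
    · exact ⟨i, by rw [← h, e.symm_apply_apply]⟩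
  obtain ⟨i, rfl⟩ := key g hg hg'
  refine ⟨by rw [← coe_mul, ← map_mul]; simp, fun g' h1 h2 => ?_⟩
  obtain ⟨j, rfl⟩ := key g' h1 h2
  obtain ⟨k, hk⟩ := ZMod.intCast_surjective (j - i)
  exact ⟨k, by simp only; rw [← coe_zpow, ← map_zpow, DihedralGroup.r_one_zpow, hk, ← coe_mul, ← map_mul]; rfl⟩

theorem dih_of_equiv [Finite G] (hS : Hall {2} S L) (e : S ≃* DihedralGroup m) (hm : 2 ≤ m) :
    ∃ t x v, Dih L S t x v m := by
  obtain ⟨t, x, v, k, h⟩ := exists_dih hS (cd_of_equiv e) fun hc => by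
    have := DihedralGroup.isCyclic_iff.1 (isCyclic_of_surjective _ (hH := hc) e.surjective)
    omega
  have := h.card
  rw [Nat.card_congr e.toEquiv, DihedralGroup.nat_card] at this
  exact ⟨t, x, v, (by omega : k = m) ▸ h⟩

theorem dih_change_x [Finite G] (h : Dih L S t x v m) (hm : 4 ≤ m) (hy : y ∈ S) (ho : orderOf y = m) :
    Dih L S t y v m := by
  have h1 : y ∈ zpowers x := h.mem_zp_of_sq_ne hy fun e => by
    have : m ∣ 2 := ho ▸ orderOf_dvd_of_pow_eq_one (by rw [pow_two, e])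
    exact absurd (Nat.le_of_dvd two_pos this) (by omega)
  have e : zpowers y = zpowers x := eq_of_card_eq (zpowers_le.2 h1) (by rw [card_zpowers', card_zpowers', ho, h.ord])
  exact ⟨h.syl, ho, e ▸ h.tx, h.ht, hy, h.vS, e ▸ h.vx, h.vv, h.inv_zp h1, e ▸ h.cases⟩

variable [Fintype G] {l ε a b c d : G → ℂ}

theorem vchar_invol (ha : a ∈ vchar (⊤ : Subgroup G)) (ht : orderOf t = 2) : ∃ n : ℤ, a t = n ∧ 2 ∣ dg a - n := by
  obtain ⟨k, hk⟩ := ip_int (res_mem_vchar (le_top (a := zpowers t)) ha) (triv_mem_vchar _)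
  have e1 : els (zpowers t) = {1, t} := by ext; simp [mem_zp_sq (sq1 ht)]
  rw [ip_eq_sum_els (res_supp _ a), e1, Finset.sum_pair (ne1 ht).symm, card_zpowers', ht, res_one, triv_one,
    res_of_mem _ (mem_zpowers t), triv_of_mem (mem_zpowers t), vchar_apply_one ha] at hk
  exact ⟨2 * k - dg a, by simp only [map_one] at hk; push_cast at hk ⊢; linear_combination 2 * hk, dg a - k, by ring⟩

theorem dirr_exists_irr (ha : Dirr ⊤ a) : ∃ (χ : IrrCharacter G) (δ : ℤ), (δ = 1 ∨ δ = -1) ∧ (χ : G → ℂ) = δ • a := by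
  rcases ha with ha | ha
  exacts [⟨⟨a, mem_irr_top.1 ha⟩, 1, Or.inl rfl, by simp⟩, ⟨⟨-a, mem_irr_top.1 ha⟩, -1, Or.inr rfl, by simp⟩]

theorem irr_ne_of_ipr {χ ψ : G → ℂ} {δ δ' : ℤ} (hχ : IsIrrCharacter G χ) (e : χ = δ • a) (e' : ψ = δ' • b)
    (h : ipr ⊤ a b = 0) : χ ≠ ψ := fun e'' => by
  have := ipr_irr_self (mem_irr_top.2 hχ)
  nth_rewrite 2 [e''] at this
  simp [e, e', h] at this

section Dih
variable (h : Dih ⊤ S t x v m) (M : Ideal AlgInt) [H7.PM 2 M]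
include h

local notation "GG" => GLin v (KK t x) (UU t)
local notation "T" => TT (KK t x) (triv C1(t))

theorem mem_principal (hl : GG l) {χ : IrrCharacter G} {δ : ℤ} (e : (χ : G → ℂ) = δ • a) (hδ : δ = 1 ∨ δ = -1)
    (h1 : ipr ⊤ (T l) a ≠ 0) : χ ∈ principalBlock M G := by
  by_contra e'
  have := ipr_of_ip_zero (ip_TT_bad h hl (lh_triv t) (cf_of_irr (mem_irr_top.2 χ.2)) ((dich_principal h M χ).2 e'))
  rcases hδ with rfl | rfl <;> simp [e, h1] at this

theorem principal_formula (h1 : IsConj t v) (h2 : IsConj t (x * v)) (hm : 4 ≤ m) {χ : IrrCharacter G}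
    (hχ : χ ∈ principalBlock M G) (hn : (χ : G → ℂ) ≠ fun _ => 1) {δ : ℤ} (hδ : δ = 1 ∨ δ = -1)
    (hv : ∀ g ∈ zpowers x, g ≠ 1 → (χ : G → ℂ) g = δ) : (C1(t).index : ℤ) * (dg (χ : G → ℂ) - δ) ^ 2 =
      2 * (kk t v + kk t (x * v) : ℤ) ^ 2 * (dg (χ : G → ℂ) * (dg (χ : G → ℂ) + δ)) := by
  obtain ⟨η, hη, eη⟩ := exists_eta h
  have nη := nonreal_of h hm hη eη
  have hi := mem_irr_top.2 χ.2
  have δ2 : δ * δ = 1 := by rcases hδ with rfl | rfl <;> rfl
  have hv' : ∀ g ∈ zpowers x, g ≠ 1 → (δ • (χ : G → ℂ)) g = 1 := fun g hg g1 => by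
    rw [Pi.smul_apply, hv g hg g1, zsmul_eq_mul]; exact_mod_cast δ2
  have f := lam_nr h h1 h2 (dih_tis h) hη nη eη (lh_triv t) (dirr_of_irr (triv_mem_irr ⊤)) ((dirr_of_irr hi).sign hδ)
    (by rw [ipr_zsmul_right, ipr_irr_ne (triv_mem_irr ⊤) hi (by rw [triv_top]; exact hn.symm), mul_zero])
    (triv_of_mem (mem_top t)) (hv' t h.tx h.t1) ((dih_tis h).ip_TT_triv hη (ne_triv_of_star nη)) (by
      rw [ipr_zsmul_right, ip_TT_good h hη (lh_triv t) (cf_of_irr hi) ((dich_principal h M χ).1 hχ),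
        ← ipr_zsmul_right, ipr, ip_congr _ (ψ' := triv (zpowers x)) fun g hg => ?_, ip_sub_left, ip_triv_triv,
        ip_irr_ne (gl_res h hη) (triv_mem_irr _) (gl_res_ne_triv h hη (ne_triv_of_star nη))]
      · simp
      have : g ∈ zpowers x := by by_contra e; simp [triv_of_not_mem e, res_of_not_mem _ e] at hg
      rw [hv' g this (by rintro rfl; simp [hη.one] at hg), triv_of_mem this])
  rw [dg_triv, dg_eq_of_eq (χ := δ • (χ : G → ℂ)) (n := δ * dg (χ : G → ℂ)) (by simp [irr_apply_one hi])] at f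
  rcases hδ with rfl | rfl <;> linear_combination f

/-- A character of the principal block which vanishes on `⟨x⟩#` cannot exist. -/
theorem principal_not_vanish (hε : GG ε) (e : ε x = -1) (P : Piv t x v (triv C1(t)) ε a b c d) {χ : IrrCharacter G}
    (hχ : χ ∈ principalBlock M G) (hv : ∀ g ∈ zpowers x, g ≠ 1 → (χ : G → ℂ) g = 0) : False := by
  obtain ⟨g, g2, hg⟩ := H7.exists_ne_zero_of_defect (p := 2) H7.isPBlock_principalBlock (by
    rw [H7.blockDefect_principal]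
    exact (Nat.prime_two.factorization_pos_of_dvd Nat.card_pos.ne' (h.ht ▸ orderOf_dvd_natCard t)).ne') hχ
  have hi := mem_irr_top.2 χ.2
  obtain ⟨n, hn⟩ := H7.isPE_pp (p := 2) g
  obtain ⟨k, -, hk⟩ := sylow_le_cj Nat.prime_two h.syl (PiElt.zpowers (x := H7.pp 2 g) (by
    rw [PiElt, hn]; exact piNat_pow_self Nat.prime_two n)) le_top
  rw [cj_zpowers, zpowers_le, ← H7.pp_conj] at hk
  rw [← cf_conj (cf_of_irr hi) (mem_top k)] at hg
  rw [← H7.orderOf_conj' k] at g2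
  by_cases hc : ∃ g : G, 2 ∣ orderOf g ∧ (χ : G → ℂ) g ≠ 0 ∧ H7.pp 2 g ∈ zpowers x
  · obtain ⟨g, g2, hg, hk⟩ := hc
    have w1 : H7.pp 2 g ≠ 1 := fun e => H7.pp_eq_one_iff.1 e g2
    have wU : H7.pp 2 g ∉ UU t := fun e => w1 (dih_eq_one h e (h.zp_le hk))
    have hC := dih_C1_pp h (mem_sup_right hk) wU
    rw [H7.pp_of_isPE (H7.isPE_pp g)] at hC
    refine hg ?_
    rw [← H7.pr_mul_pp (p := 2) g, (dich_principal h M χ).1 hχ _ (mem_sup_right hk) wU _ ((dih_mem_U h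
      (hC (mem_C1.2 (H7.commute_pp_pr g).symm))).2 (H7.not_dvd_orderOf_pr g)), hv _ hk w1, mul_zero]
  generalize k * g * k⁻¹ = g at *
  have w0 : H7.pp 2 g ∉ zpowers x := fun e => hc ⟨g, g2, hg, e⟩
  have w2 := h.refl_ord hk w0
  rw [H7.apply_section (dih_pnil h w2) hχ (IsConj.refl _)] at hg
  generalize H7.pp 2 g = w at *
  have mu := H7.mu_principal_of_pnil (M := M) ⟨1, w2⟩ (dih_pnil h w2)
  obtain ⟨Q, hQ, wQ⟩ := H7.exists_sylIn_le (p := 2) (H := C1(w)) (pi2_of_sq (sq1 w2)).zpowers.isPGroup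
    (zpowers_le.2 C1_self)
  have c4 : Nat.card Q ≤ 4 := by
    obtain ⟨k, -, hk⟩ := sylow_le_cj Nat.prime_two h.syl (piGrp_of_isPGroup Nat.prime_two hQ.isPGroup) le_top
    have k1 := hk (conj_mem_cj (wQ (mem_zpowers w)))
    have k2 : k * w * k⁻¹ ∉ zpowers x := fun e => hc ⟨k * w * k⁻¹, (ord2_conj w2 k).symm.dvd, by
      rwa [cf_conj (cf_of_irr hi) (mem_top k)], by rwa [H7.pp_of_isPE ⟨1, ord2_conj w2 k⟩]⟩
    rw [← card_cj (g := k), ← (h.change k1 k2).card_V4, ← (h.change k1 k2).inf_C1]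
    exact card_le_of_le (le_inf hk (by rw [← cj_C1]; exact cj_mono hQ.le))
  choose n hn hn' using fun ψ : IrrCharacter G => vchar_invol (vchar_of_irr (mem_irr_top.2 ψ.2)) w2
  have s4 : ∑ ψ ∈ Finset.univ.filter (· ∈ principalBlock M G), n ψ ^ 2 ≤ 4 := by
    simp only [H7.mu_eq, hn, map_intCast, ← sq, ← Finset.sum_filter, ← hQ.card] at mu
    have : ∑ ψ ∈ Finset.univ.filter (· ∈ principalBlock M G), n ψ ^ 2 = Nat.card Q := by exact_mod_cast mu
    omega
  have key : ∀ a, Dirr ⊤ a → ipr ⊤ (T ε) a = 1 → a t ^ 2 = 1 → ∃ (ψ : IrrCharacter G) (δ : ℤ),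
      (ψ : G → ℂ) = δ • a ∧ ψ ∈ principalBlock M G ∧ 1 ≤ n ψ ^ 2 ∧ χ ≠ ψ := fun a ha e1 e2 => by
    obtain ⟨ψ, δ, hδ, e3⟩ := dirr_exists_irr ha
    have e4 : (ψ : G → ℂ) t ^ 2 = 1 := by rcases hδ with rfl | rfl <;> simp [e3, e2]
    refine ⟨ψ, δ, e3, mem_principal h M hε e3 hδ (by rw [e1]; norm_num), ?_, ?_⟩
    · obtain ⟨k, k1, k2⟩ := vchar_invol (vchar_of_irr (mem_irr_top.2 ψ.2)) h.ht
      rw [k1] at e4
      have := mul_self_eq_one_iff.1 (by rw [sq] at e4; exact_mod_cast e4 : k * k = 1)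
      have := hn' ψ
      exact (one_le_sq_iff_one_le_abs _).2 (Int.one_le_abs (by omega))
    · rintro rfl; simp [hv t h.tx h.t1] at e4
  have L := lh_triv t
  have et : ε t ^ 2 = 1 := by rcases gl_t h hε with e | e <;> simp [e]
  obtain ⟨ψ1, δ1, a1, a2, a3, a4⟩ := key a P.four.da P.four.ia (by rw [P.va h hε e L (dich_triv h) t h.tx h.t1]; simp)
  obtain ⟨ψ2, δ2, b1, b2, b3, b4⟩ := key b P.four.db P.four.ib (by
    rw [P.s1.va h hε e L (dich_triv h) t h.tx h.t1]; simp)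
  obtain ⟨ψ3, δ3, c1, c2, c3, c4⟩ := key c P.four.dc P.four.ic (by
    rw [P.vc h hε e L (dich_triv h) t h.tx h.t1]; simp [res_of_mem _ h.tx, et])
  obtain ⟨ψ4, δ4, d1, d2, d3, d4⟩ := key d P.four.dd P.four.id (by
    rw [P.s3.vc h hε e L (dich_triv h) t h.tx h.t1]; simp [res_of_mem _ h.tx, et])
  have ne : ∀ {ψ ψ' : IrrCharacter G} {δ δ' : ℤ} {a b : G → ℂ}, (ψ : G → ℂ) = δ • a → (ψ' : G → ℂ) = δ' • b →
      ipr ⊤ a b = 0 → ψ ≠ ψ' := fun e1 e2 e3 e4 => irr_ne_of_ipr (Subtype.prop _) e1 e2 e3 (congrArg _ e4)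
  have := Finset.sum_le_sum_of_subset_of_nonneg (s := {χ, ψ1, ψ2, ψ3, ψ4})
    (t := Finset.univ.filter (· ∈ principalBlock M G)) (f := fun ψ => n ψ ^ 2)
    (by simp [Finset.insert_subset_iff, hχ, a2, b2, c2, d2]) fun _ _ _ => sq_nonneg _
  rw [Finset.sum_insert (by simp [a4, b4, c4, d4]), Finset.sum_insert (by
    simp [ne a1 b1 P.four.ab, ne a1 c1 P.four.ac, ne a1 d1 P.four.ad]), Finset.sum_insert (by
    simp [ne b1 c1 P.four.bc, ne b1 d1 P.four.bd]), Finset.sum_pair (ne c1 d1 P.four.cd)] at this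
  exact hg (by rw [hn, pow_eq_zero_iff two_ne_zero |>.1 (le_antisymm (by linarith) (sq_nonneg (n χ))), Int.cast_zero])

theorem piv_dirr (P : Piv t x v (triv C1(t)) ε a b c d) (hl : GG l) (hn : star l ≠ l) : Dirr ⊤ (a + b - T l) := by
  have H := dih_tis h
  obtain ⟨e1, e2, -, -⟩ := P.nr l hl hn
  exact dirr_of_ipr (sub_mem (add_mem P.four.da.vchar P.four.db.vchar) (H.TT_v hl (lh_triv t))) (by
    simp [P.four.da.ipr_self, P.four.db.ipr_self, P.four.ab, ipr_symm0 P.four.ab, H.norm3 hl hn (lh_triv t), e1, e2,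
      ipr_comm ⊤ a (T l), ipr_comm ⊤ b (T l)]; norm_num)

theorem principal_mem (hε : GG ε) (e : ε x = -1) (P : Piv t x v (triv C1(t)) ε a b c d) {χ : IrrCharacter G}
    (hχ : χ ∈ principalBlock M G) : ∃ z, ((χ : G → ℂ) = z ∨ (χ : G → ℂ) = -z) ∧
      (z = a ∨ z = b ∨ z = c ∨ z = d ∨ ∃ l, GG l ∧ star l ≠ l ∧ z = a + b - T l) := by
  have hi := dirr_of_irr (mem_irr_top.2 χ.2)
  by_contra! hc
  have key : ∀ z, Dirr ⊤ z → (z = a ∨ z = b ∨ z = c ∨ z = d ∨ ∃ l, GG l ∧ star l ≠ l ∧ z = a + b - T l) →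
      ipr ⊤ z χ = 0 := fun z hz e => by
    have := fun e' => hc z e'
    rcases hi.ipr_cases hz with e' | e' | e'
    · grind
    · grind
    · exact ipr_symm0 e'
  have ka := key a P.four.da (by simp)
  have kb := key b P.four.db (by simp)
  refine principal_not_vanish h M hε e P hχ (good_val h (lh_triv t) hi.vchar ((dich_principal h M χ).1 hχ)
    (zero_mem _) fun l hl h1 => ?_)
  refine Eq.trans ?_ (ipr_zero_right _ _).symm
  by_cases hn : star l = l
  · rw [(gl_real_cases h hε e hl hn).resolve_left h1, P.four.eq]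
    simp [ka, kb, key c P.four.dc (by simp), key d P.four.dd (by simp)]
  · simpa [ka, kb] using key _ (piv_dirr h P hl hn) (by simp only [← or_assoc]; exact Or.inr ⟨l, hl, hn, rfl⟩)

end Dih

end H2
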