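import Mathlib

/-! Local fusion graphs of symmetric groups, part 1: odd order is kept when two fixed points are
inserted into a cycle (`O.ins`), the predicate `Good`, and the explicit-model lemma. -/

namespace H2.Lfg
open Equiv Equiv.Perm

variable {α : Type*} [Fintype α] [DecidableEq α]

/-- odd order -/
def O (σ : Perm α) : Prop := Odd (orderOf σ)

omit [DecidableEq α] in
theorem O.of_pow {σ : Perm α} {N : ℕ} (hN : Odd N) (h : σ ^ N = 1) : O σ :=
  Odd.of_dvd_nat hN (orderOf_dvd_of_pow_eq_one h)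

omit [Fintype α] [DecidableEq α] in
theorem O.comm {a b : Perm α} (h : O (a * b)) : O (b * a) := by
  unfold O at *
  have : b * a = b * (a * b) * b⁻¹ := by group
  rw [this]
  have h2 := (MulAut.conj b).orderOf_eq (a * b)
  simp only [MulAut.conj_apply] at h2
  rwa [h2]

omit [Fintype α] [DecidableEq α] in
theorem O.one : O (1 : Perm α) := by simp [O]

theorem O.ins {σ : Perm α} (h : O σ) {a b c : α} (hb : σ b = b) (hc : σ c = c)
    (hab : a ≠ b) (hac : a ≠ c) (hbc : b ≠ c) : O (swap a b * swap a c * σ) := by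
  set τ := swap a b * swap a c * σ with hτ
  set L := Function.minimalPeriod σ a with hL
  have hiff : ∀ i : ℕ, Function.IsPeriodicPt σ i a ↔ (σ ^ i) a = a := by
    intro i
    rw [Function.IsPeriodicPt, Function.IsFixedPt, Perm.coe_pow]
  have hper0 : Function.IsPeriodicPt σ (orderOf σ) a := by
    rw [hiff, pow_orderOf_eq_one]; rfl
  have hper : a ∈ Function.periodicPts σ := ⟨orderOf σ, orderOf_pos σ, hper0⟩
  have hLpos : 0 < L := Function.minimalPeriod_pos_of_mem_periodicPts hper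
  have hLdvd : L ∣ orderOf σ := hper0.minimalPeriod_dvd
  have hLodd : Odd L := Odd.of_dvd_nat h hLdvd
  have hLa : (σ ^ L) a = a := (hiff L).1 (Function.isPeriodicPt_minimalPeriod σ a)
  have hpb : ∀ i : ℕ, (σ ^ i) b = b := fun i => Perm.pow_apply_eq_self_of_apply_eq_self hb i
  have hpc : ∀ i : ℕ, (σ ^ i) c = c := fun i => Perm.pow_apply_eq_self_of_apply_eq_self hc i
  have hτv : ∀ u, σ u ≠ a → σ u ≠ b → σ u ≠ c → τ u = σ u := by
    intro u h1 h2 h3
    simp [hτ, swap_apply_of_ne_of_ne h1 h3, swap_apply_of_ne_of_ne h1 h2]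
  have h1 : ∀ i : ℕ, i < L → (τ ^ i) a = (σ ^ i) a := by
    intro i
    induction i with
    | zero => simp
    | succ i ih =>
      intro hi
      rw [pow_succ', pow_succ', Perm.mul_apply, Perm.mul_apply, ih (by omega)]
      apply hτv
      · intro he
        have : Function.IsPeriodicPt σ (i + 1) a := by
          rw [hiff, pow_succ', Perm.mul_apply, he]
        have := this.minimalPeriod_le (by omega)
        omega
      · intro he
        have : (σ ^ (i + 1)) a = (σ ^ (i + 1)) b := by rw [hpb, pow_succ', Perm.mul_apply, he]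
        exact hab ((σ ^ (i + 1)).injective this)
      · intro he
        have : (σ ^ (i + 1)) a = (σ ^ (i + 1)) c := by rw [hpc, pow_succ', Perm.mul_apply, he]
        exact hac ((σ ^ (i + 1)).injective this)
  have h2 : (τ ^ L) a = c := by
    obtain ⟨k, hk⟩ : ∃ k, L = k + 1 := ⟨L - 1, by omega⟩
    have h3 : σ ((σ ^ k) a) = a := by rw [← Perm.mul_apply, ← pow_succ', ← hk, hLa]
    rw [hk, pow_succ', Perm.mul_apply, h1 k (by omega)]
    simp [hτ, h3, swap_apply_of_ne_of_ne hac.symm hbc.symm]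
  have h3 : (τ ^ (L + 1)) a = b := by
    rw [pow_succ', Perm.mul_apply, h2]; simp [hτ, hc]
  have h4 : (τ ^ (L + 2)) a = a := by
    rw [pow_succ', Perm.mul_apply, h3]
    simp [hτ, hb, swap_apply_of_ne_of_ne hab.symm hbc]
  have h5 : ∀ j : ℕ, (τ ^ (L + 2)) ((τ ^ j) a) = (τ ^ j) a := by
    intro j
    rw [← Perm.mul_apply, ← pow_add, add_comm, pow_add, Perm.mul_apply, h4]
  refine O.of_pow (N := (L + 2) * orderOf σ) (Odd.mul (by
    obtain ⟨k, hk⟩ := hLodd; exact ⟨k + 1, by omega⟩) h) ?_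
  ext t
  by_cases ht : ∃ j : ℕ, (τ ^ j) a = t
  · obtain ⟨j, rfl⟩ := ht
    rw [pow_mul]
    exact Perm.pow_apply_eq_self_of_apply_eq_self (h5 j) _
  · have htb : t ≠ b := fun e => ht ⟨L + 1, h3.trans e.symm⟩
    have htc : t ≠ c := fun e => ht ⟨L, h2.trans e.symm⟩
    have hta : ∀ i : ℕ, (σ ^ i) t ≠ a := by
      intro i he
      apply ht
      have hs0 : σ.SameCycle t a := ⟨(i : ℤ), by rw [zpow_natCast]; exact he⟩
      have hs : σ.SameCycle a t := Perm.SameCycle.symm hs0
      obtain ⟨j, -, hj⟩ := hs.exists_pow_eq'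
      refine ⟨j % L, ?_⟩
      rw [h1 _ (Nat.mod_lt _ hLpos), ← hj]
      conv_rhs => rw [← Nat.mod_add_div j L, pow_add, pow_mul, Perm.mul_apply,
        Perm.pow_apply_eq_self_of_apply_eq_self hLa]
    have h6 : ∀ i : ℕ, (τ ^ i) t = (σ ^ i) t := by
      intro i
      induction i with
      | zero => simp
      | succ i ih =>
        rw [pow_succ', pow_succ', Perm.mul_apply, Perm.mul_apply, ih]
        apply hτv
        · have := hta (i + 1); rwa [pow_succ', Perm.mul_apply] at this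
        · intro he
          have : (σ ^ (i + 1)) t = (σ ^ (i + 1)) b := by rw [hpb, pow_succ', Perm.mul_apply, he]
          exact htb ((σ ^ (i + 1)).injective this)
        · intro he
          have : (σ ^ (i + 1)) t = (σ ^ (i + 1)) c := by rw [hpc, pow_succ', Perm.mul_apply, he]
          exact htc ((σ ^ (i + 1)).injective this)
    rw [h6, mul_comm, pow_mul, pow_orderOf_eq_one, one_pow]

theorem O.insR {σ : Perm α} (h : O σ) {a b c : α} (hb : σ b = b) (hc : σ c = c)
    (hab : a ≠ b) (hac : a ≠ c) (hbc : b ≠ c) : O (σ * (swap a b * swap a c)) :=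
  (h.ins hb hc hab hac hbc).comm

/-- there is a common odd neighbour agreeing with `x` off `T` -/
def Good (T : Finset α) (x y : Perm α) : Prop :=
  ∃ z : Perm α, IsConj x z ∧ (∀ t, t ∉ T → z t = x t) ∧ O (x * z) ∧ O (y * z)

/-- the standing hypotheses -/
structure Hyp (T : Finset α) (x y : Perm α) : Prop where
  hx : ∀ t, x (x t) = t
  hy : ∀ t, y (y t) = t
  hc : IsConj x y
  hT : ∀ t ∈ T, x t ∈ T
  off : ∀ t, t ∉ T → x t = y t

/-- the exceptional configuration -/
def Exc (T : Finset α) (x y : Perm α) : Prop :=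
  T.card = 4 ∧ ∀ t ∈ T, x t ≠ t ∧ y t ≠ t ∧ x t ≠ y t

omit [Fintype α] [DecidableEq α] in
theorem Hyp.hT' {T : Finset α} {x y : Perm α} (h : Hyp T x y) : ∀ t ∈ T, y t ∈ T := by
  intro t ht
  by_contra hn
  have h1 := h.off _ hn
  rw [h.hy] at h1
  have : y t = x t := by
    have h2 := h.hx (y t)
    rw [h1] at h2; exact h2.symm
  exact hn (this ▸ h.hT t ht)

omit [Fintype α] [DecidableEq α] in
theorem Hyp.symm {T : Finset α} {x y : Perm α} (h : Hyp T x y) : Hyp T y x :=
  ⟨h.hy, h.hx, h.hc.symm, h.hT', fun t ht => (h.off t ht).symm⟩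

omit [Fintype α] [DecidableEq α] in
theorem Hyp.mem {T : Finset α} {x y : Perm α} (h : Hyp T x y) {t : α} (ht : x t ≠ y t) : t ∈ T := by
  by_contra hn; exact ht (h.off t hn)

omit [Fintype α] [DecidableEq α] in
theorem Good.symm {T : Finset α} {x y : Perm α} (h : Hyp T x y) (g : Good T y x) : Good T x y := by
  obtain ⟨z, h1, h2, h3, h4⟩ := g
  exact ⟨z, h.hc.trans h1, fun t ht => (h2 t ht).trans (h.off t ht).symm, h4, h3⟩

omit [Fintype α] [DecidableEq α] in
theorem Exc.symm {T : Finset α} {x y : Perm α} (h : Exc T x y) : Exc T y x :=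
  ⟨h.1, fun t ht => ⟨(h.2 t ht).2.1, (h.2 t ht).1, (h.2 t ht).2.2.symm⟩⟩

omit [Fintype α] in
theorem Exc.sq {T : Finset α} {x y : Perm α} (h : Hyp T x y) (e : Exc T x y) {b : α} (hb : b ∈ T) :
    x (y b) = y (x b) ∧ ∀ t ∈ T, t = b ∨ t = x b ∨ t = y b ∨ t = x (y b) := by
  obtain ⟨h1, h2, h3⟩ := e.2 b hb
  have hyb := h.hT' b hb
  have hxb := h.hT b hb
  obtain ⟨k1, k2, k3⟩ := e.2 _ hyb
  obtain ⟨l1, l2, l3⟩ := e.2 _ hxb
  rw [h.hy] at k3
  rw [h.hx] at l3
  have k4 : x (y b) ≠ x b := fun q => h2 (x.injective q)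
  have hsub : ({b, x b, y b, x (y b)} : Finset α) ⊆ T := by
    intro t ht
    simp only [Finset.mem_insert, Finset.mem_singleton] at ht
    rcases ht with rfl | rfl | rfl | rfl
    exacts [hb, hxb, hyb, h.hT _ hyb]
  have hcard : ({b, x b, y b, x (y b)} : Finset α).card = 4 := by
    rw [Finset.card_insert_of_notMem, Finset.card_insert_of_notMem, Finset.card_pair k1.symm]
    · simp [h3, k4.symm]
    · simp [h1.symm, h2.symm, k3.symm]
  have heq := Finset.eq_of_subset_of_card_le hsub (by rw [hcard, e.1])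
  have hall : ∀ t ∈ T, t = b ∨ t = x b ∨ t = y b ∨ t = x (y b) := by
    intro t ht
    rw [← heq] at ht
    simpa using ht
  refine ⟨?_, hall⟩
  rcases hall _ (h.hT' _ hxb) with q | q | q | q
  · exact absurd q.symm l3
  · exact absurd q l2
  · exact absurd (y.injective q) h1
  · exact q.symm

theorem good_of_model {m : ℕ} {T : Finset α} {x y : Perm α} (h : Hyp T x y)
    (x0 y0 g0 : Perm (Fin m)) (hx0 : (x0 * (g0 * x0 * g0⁻¹)) ^ 3 = 1)
    (hy0 : (y0 * (g0 * x0 * g0⁻¹)) ^ 3 = 1) (e : Fin m → α) (he : Function.Injective e)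
    (heT : ∀ i, e i ∈ T) (hx : ∀ i, x (e i) = e (x0 i)) (hy : ∀ i, y (e i) = e (y0 i))
    (hoff : ∀ t, t ∉ Set.range e → x t = y t) : Good T x y := by
  set G : Perm α := g0.viaEmbedding ⟨e, he⟩ with hG
  have hG1 : ∀ i, G (e i) = e (g0 i) := fun i => viaEmbedding_apply g0 ⟨e, he⟩ i
  have hG2 : ∀ t, t ∉ Set.range e → G t = t := fun t ht =>
    viaEmbedding_apply_of_notMem g0 ⟨e, he⟩ t ht
  have hG3 : ∀ i, G⁻¹ (e i) = e (g0⁻¹ i) := by
    intro i
    rw [Perm.inv_eq_iff_eq, hG1]; simp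
  have hG4 : ∀ t, t ∉ Set.range e → G⁻¹ t = t := by
    intro t ht
    rw [Perm.inv_eq_iff_eq, hG2 t ht]
  have hxo : ∀ t, t ∉ Set.range e → x t ∉ Set.range e := by
    rintro t ht ⟨i, hi⟩
    exact ht ⟨x0 i, by rw [← hx, hi, h.hx]⟩
  have hz1 : ∀ i, (G * x * G⁻¹) (e i) = e ((g0 * x0 * g0⁻¹) i) := by
    intro i
    simp only [Perm.mul_apply, hG3, hx, hG1]
  have hz2 : ∀ t, t ∉ Set.range e → (G * x * G⁻¹) t = x t := by
    intro t ht
    simp only [Perm.mul_apply, hG4 t ht, hG2 _ (hxo t ht)]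
  have key : ∀ (u : Perm α) (u0 : Perm (Fin m)), (∀ i, u (e i) = e (u0 i)) →
      (∀ t, t ∉ Set.range e → x t = u t) → (u0 * (g0 * x0 * g0⁻¹)) ^ 3 = 1 →
      O (u * (G * x * G⁻¹)) := by
    intro u u0 hu huo h3
    refine O.of_pow (N := 3) (by decide) ?_
    ext t
    by_cases ht : t ∈ Set.range e
    · obtain ⟨i, rfl⟩ := ht
      have hs : ∀ i, (u * (G * x * G⁻¹)) (e i) = e ((u0 * (g0 * x0 * g0⁻¹)) i) := by
        intro i
        rw [Perm.mul_apply, hz1, hu, Perm.mul_apply u0]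
      have h4 := congrArg (fun f : Perm (Fin m) => e (f i)) h3
      simp only [pow_succ, pow_zero, one_mul, Perm.mul_apply (u0 * _ * _),
        Perm.mul_apply (u0 * _) (u0 * _), Perm.one_apply] at h4
      simp only [pow_succ, pow_zero, one_mul, Perm.mul_apply (u * _ * _),
        Perm.mul_apply (u * _) (u * _), Perm.one_apply, hs]
      exact h4
    · apply Perm.pow_apply_eq_self_of_apply_eq_self
      rw [Perm.mul_apply, hz2 t ht, ← huo _ (hxo t ht), h.hx]
  refine ⟨G * x * G⁻¹, isConj_iff.2 ⟨G, rfl⟩, ?_, key x x0 hx (fun _ _ => rfl) hx0,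
    key y y0 hy hoff hy0⟩
  intro t ht
  exact hz2 t (by rintro ⟨i, rfl⟩; exact ht (heT i))

end H2.Lfg
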