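import Cfsg.Agent.H2.Lfg1

/-! Local fusion graphs of symmetric groups, part 2: reduction steps. -/

namespace H2.Lfg
open Equiv Equiv.Perm

variable {α : Type*} [Fintype α] [DecidableEq α]

omit [Fintype α] in
theorem Hyp.reduce {T : Finset α} {x y : Perm α} (h : Hyp T x y) (g : Perm α) (U : Finset α)
    (hg : ∀ t, t ∉ T → g t = t) (hU : ∀ t ∈ U, x t ∈ U)
    (hag : ∀ t ∈ U, x t = (g * y * g⁻¹) t) : Hyp (T \ U) x (g * y * g⁻¹) := by
  refine ⟨h.hx, ?_, h.hc.trans (isConj_iff.2 ⟨g, rfl⟩), ?_, ?_⟩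
  · intro t; simp [h.hy]
  · intro t ht
    rw [Finset.mem_sdiff] at ht ⊢
    refine ⟨h.hT t ht.1, fun hm => ht.2 ?_⟩
    have := hU _ hm
    rwa [h.hx] at this
  · intro t ht
    by_cases hu : t ∈ U
    · exact hag t hu
    · have htT : t ∉ T := fun q => ht (Finset.mem_sdiff.2 ⟨q, hu⟩)
      have h1 : g⁻¹ t = t := by rw [Perm.inv_eq_iff_eq, hg t htT]
      have h2 : y t ∉ T := fun q => htT (by simpa [h.hy] using h.hT' _ q)
      rw [Perm.mul_apply, Perm.mul_apply, h1, hg _ h2, h.off t htT]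

/-- the induction hypothesis -/
def IH (T : Finset α) : Prop :=
  ∀ (T' : Finset α) (x y : Perm α), T'.card < T.card → Hyp T' x y → ¬ Exc T' x y → Good T' x y

omit [Fintype α] in
theorem card_lt {T U : Finset α} {a : α} (haT : a ∈ T) (haU : a ∈ U) : (T \ U).card < T.card :=
  Finset.card_lt_card ⟨Finset.sdiff_subset, fun q => (Finset.mem_sdiff.1 (q haT)).2 haU⟩

omit [Fintype α] [DecidableEq α] in
theorem inv_of_conj {x z : Perm α} (hx : ∀ t, x (x t) = t) (h : IsConj x z) : ∀ t, z (z t) = t := by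
  obtain ⟨g, rfl⟩ := isConj_iff.1 h
  intro t; simp [hx]

theorem stepB {T : Finset α} {x y : Perm α} (h : Hyp T x y) (ih : IH T) {a0 : α}
    (h0 : y a0 = a0) (h1 : x a0 ≠ a0) (h2 : y (x a0) ≠ x a0) : Good T x y := by
  have hx := h.hx
  have hy := h.hy
  obtain ⟨a1, e1⟩ : ∃ a1, x a0 = a1 := ⟨_, rfl⟩
  obtain ⟨a2, e2⟩ : ∃ a2, y a1 = a2 := ⟨_, rfl⟩
  have e1' : x a1 = a0 := by rw [← e1, hx]
  have e2' : y a2 = a1 := by rw [← e2, hy]
  have n01 : a0 ≠ a1 := by grind
  have n12 : a1 ≠ a2 := by grind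
  have n02 : a0 ≠ a2 := by grind
  have m0 : a0 ∈ T := h.mem (by grind)
  have m1 : a1 ∈ T := e1 ▸ h.hT _ m0
  have m2 : a2 ∈ T := e2 ▸ h.hT' _ m1
  have H := h.reduce (swap a0 a2) {a0, a1} (by intro t ht; rw [swap_apply_def]; grind)
    (by intro t ht; grind) (by
      intro t ht
      simp only [Perm.mul_apply, swap_inv, swap_apply_def]; grind)
  obtain ⟨z, z1, z2, z3, z4⟩ := ih _ _ _ (card_lt m0 (by simp)) H (by
    intro e
    have := (e.2 a2 (by grind)).2.1
    simp only [Perm.mul_apply, swap_inv, swap_apply_def] at this; grind)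
  have za0 : z a0 = a1 := by rw [z2 _ (by simp), e1]
  have za1 : z a1 = a0 := by rw [z2 _ (by simp), e1']
  refine ⟨z, z1, fun t ht => z2 t (by grind), z3, ?_⟩
  have := z4.ins (a := a2) (b := a0) (c := a1)
    (by simp only [Perm.mul_apply, swap_inv, swap_apply_def]; grind)
    (by simp only [Perm.mul_apply, swap_inv, swap_apply_def]; grind) n02.symm n12.symm n01
  have e : y = swap a2 a0 * swap a2 a1 * (swap a0 a2 * y * (swap a0 a2)⁻¹) := by
    ext t
    simp only [Perm.mul_apply, swap_inv, swap_apply_def]; grind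
  rw [e, mul_assoc (swap a2 a0 * swap a2 a1)]
  exact this

/-- `b` lies on a square -/
def Sq (x y : Perm α) (b : α) : Prop := x b ≠ b ∧ y b ≠ b ∧ x b ≠ y b ∧ x (y b) = y (x b)

omit [Fintype α] in
theorem stepA {T : Finset α} {x y : Perm α} (h : Hyp T x y) (ih : IH T) (hs : ∀ b, ¬ Sq x y b)
    {a : α} (ha : a ∈ T) (h0 : x a = y a) : Good T x y := by
  have hx := h.hx
  have hy := h.hy
  have H := h.reduce 1 {a, x a} (by simp) (by intro t ht; grind) (by
      intro t ht
      simp only [Perm.mul_apply, inv_one, Perm.one_apply]; grind)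
  simp only [one_mul, inv_one, mul_one] at H
  obtain ⟨z, z1, z2, z3, z4⟩ := ih _ _ _ (card_lt ha (by simp)) H (by
    intro e
    obtain ⟨b, hb⟩ : (T \ {a, x a}).Nonempty := by rw [← Finset.card_pos, e.1]; omega
    exact hs b ⟨(e.2 b hb).1, (e.2 b hb).2.1, (e.2 b hb).2.2, (e.sq H hb).1⟩)
  exact ⟨z, z1, fun t ht => z2 t (by grind), z3, z4⟩

theorem stepD {T : Finset α} {x y : Perm α} (h : Hyp T x y) (ih : IH T) (hs : ∀ b, ¬ Sq x y b)
    {a c : α} (h0 : y a = a) (h1 : x a ≠ a) (h2 : y (x a) = x a)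
    (k0 : x c = c) (k1 : y c ≠ c) (k2 : x (y c) = y c) : Good T x y := by
  have hx := h.hx
  have hy := h.hy
  obtain ⟨b, e1⟩ : ∃ b, x a = b := ⟨_, rfl⟩
  obtain ⟨d, e2⟩ : ∃ d, y c = d := ⟨_, rfl⟩
  have e1' : x b = a := by rw [← e1, hx]
  have e2' : y d = c := by rw [← e2, hy]
  rw [e1] at h1 h2
  rw [e2] at k1 k2
  have nac : a ≠ c := by grind
  have nad : a ≠ d := by grind
  have nbc : b ≠ c := by grind
  have nbd : b ≠ d := by grind
  have ma : a ∈ T := h.mem (by grind)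
  have mb : b ∈ T := h.mem (by grind)
  have mc : c ∈ T := h.mem (by grind)
  have md : d ∈ T := h.mem (by grind)
  have H := h.reduce (swap a c * swap b d) {a, b, c, d}
    (by intro t ht; simp only [Perm.mul_apply, swap_apply_def]; grind)
    (by intro t ht; grind) (by
      intro t ht
      simp only [Perm.mul_apply, mul_inv_rev, swap_inv, swap_apply_def]; grind)
  set y' := swap a c * swap b d * y * (swap a c * swap b d)⁻¹ with hy'
  have y1 : ∀ t, t ≠ a → t ≠ b → t ≠ c → t ≠ d → y' t = y t := by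
    intro t _ _ _ _
    simp only [hy', Perm.mul_apply, mul_inv_rev, swap_inv, swap_apply_def]; grind
  have ya : y' a = b := by rw [← H.off _ (by simp), e1]
  have yb : y' b = a := by rw [← H.off _ (by simp), e1']
  have yc : y' c = c := by rw [← H.off _ (by simp), k0]
  have yd : y' d = d := by rw [← H.off _ (by simp), k2]
  clear_value y'
  obtain ⟨z, z1, z2, z3, z4⟩ := ih _ _ _ (card_lt ma (by simp)) H (by
    intro e
    obtain ⟨u, hu⟩ : (T \ {a, b, c, d}).Nonempty := by rw [← Finset.card_pos, e.1]; omega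
    have q1 := e.2 u hu
    have q2 := (e.sq H hu).1
    have q3 := H.hT u hu
    simp only [Finset.mem_sdiff, Finset.mem_insert, Finset.mem_singleton, not_or] at hu q3
    rw [y1 u hu.2.1 hu.2.2.1 hu.2.2.2.1 hu.2.2.2.2] at q1 q2
    rw [y1 _ q3.2.1 q3.2.2.1 q3.2.2.2.1 q3.2.2.2.2] at q2
    exact hs u ⟨q1.1, q1.2.1, q1.2.2, q2⟩)
  have hz := inv_of_conj hx z1
  have za : z a = b := by rw [z2 _ (by simp), e1]
  have zb : z b = a := by rw [z2 _ (by simp), e1']
  have zc : z c = c := by rw [z2 _ (by simp), k0]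
  have zd : z d = d := by rw [z2 _ (by simp), k2]
  refine ⟨swap a c * z * (swap a c)⁻¹, z1.trans (isConj_iff.2 ⟨_, rfl⟩), ?_, ?_, ?_⟩
  · intro t ht
    have := z2 t (by grind)
    have := h.hT (x t)
    simp only [Perm.mul_apply, swap_inv, swap_apply_def]; grind
  · have := z3.insR (a := c) (b := b) (c := a) (by simp [zb, e1]) (by simp [za, e1'])
      nbc.symm nac.symm h1
    convert this using 1
    ext t
    simp only [Perm.mul_apply, swap_inv, swap_apply_def]; grind
  · have := z4.insR (a := c) (b := d) (c := b) (by simp [zd, yd]) (by simp [zb, ya])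
      k1.symm nbc.symm nbd.symm
    convert this using 1
    ext t
    have := y1 (z t)
    simp only [Perm.mul_apply, swap_inv, swap_apply_def]; grind

theorem stepC {T : Finset α} {x y : Perm α} (h : Hyp T x y) (ih : IH T) (hs : ∀ b, ¬ Sq x y b)
    (hf : ∀ t ∈ T, x t ≠ t ∧ y t ≠ t ∧ x t ≠ y t) {a0 : α} (m0 : a0 ∈ T) : Good T x y := by
  have hx := h.hx
  have hy := h.hy
  obtain ⟨a1, e1⟩ : ∃ a, y a0 = a := ⟨_, rfl⟩
  obtain ⟨a2, e2⟩ : ∃ a, x a1 = a := ⟨_, rfl⟩
  obtain ⟨a3, e3⟩ : ∃ a, y a2 = a := ⟨_, rfl⟩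
  obtain ⟨a4, e4⟩ : ∃ a, x a3 = a := ⟨_, rfl⟩
  obtain ⟨a5, e5⟩ : ∃ a, y a4 = a := ⟨_, rfl⟩
  have e1' : y a1 = a0 := by rw [← e1, hy]
  have e2' : x a2 = a1 := by rw [← e2, hx]
  have e3' : y a3 = a2 := by rw [← e3, hy]
  have e4' : x a4 = a3 := by rw [← e4, hx]
  have e5' : y a5 = a4 := by rw [← e5, hy]
  have m1 : a1 ∈ T := e1 ▸ h.hT' _ m0
  have m2 : a2 ∈ T := e2 ▸ h.hT _ m1
  have m3 : a3 ∈ T := e3 ▸ h.hT' _ m2
  have m4 : a4 ∈ T := e4 ▸ h.hT _ m3
  have m5 : a5 ∈ T := e5 ▸ h.hT' _ m4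
  have f0 := hf _ m0
  have f1 := hf _ m1
  have f2 := hf _ m2
  have f3 := hf _ m3
  have f4 := hf _ m4
  have s0 := hs a0
  unfold Sq at s0
  have n01 : a0 ≠ a1 := by grind
  have n02 : a0 ≠ a2 := by grind
  have n03 : a0 ≠ a3 := by grind
  have n04 : a0 ≠ a4 := by grind
  have n05 : a0 ≠ a5 := by grind
  have n12 : a1 ≠ a2 := by grind
  have n13 : a1 ≠ a3 := by grind
  have n14 : a1 ≠ a4 := by grind
  have n15 : a1 ≠ a5 := by grind
  have n23 : a2 ≠ a3 := by grind
  have n24 : a2 ≠ a4 := by grind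
  have n25 : a2 ≠ a5 := by grind
  have n34 : a3 ≠ a4 := by grind
  have n35 : a3 ≠ a5 := by grind
  have n45 : a4 ≠ a5 := by grind
  have H := h.reduce (swap a1 a3 * swap a1 a5) {a1, a2, a3, a4}
    (by intro t ht; simp only [Perm.mul_apply, swap_apply_def]; grind)
    (by intro t ht; grind) (by
      intro t ht
      simp only [Perm.mul_apply, mul_inv_rev, swap_inv, swap_apply_def]; grind)
  set y' := swap a1 a3 * swap a1 a5 * y * (swap a1 a3 * swap a1 a5)⁻¹ with hy'
  have y1 : ∀ t, t ≠ a0 → t ≠ a1 → t ≠ a2 → t ≠ a3 → t ≠ a4 → t ≠ a5 → y' t = y t := by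
    intro t _ _ _ _ _ _
    simp only [hy', Perm.mul_apply, mul_inv_rev, swap_inv, swap_apply_def]; grind
  have ya0 : y' a0 = a5 := by
    simp only [hy', Perm.mul_apply, mul_inv_rev, swap_inv, swap_apply_def]; grind
  have ya5 : y' a5 = a0 := by rw [← ya0, H.hy]
  have ya1 : y' a1 = a2 := by rw [← H.off _ (by simp), e2]
  have ya2 : y' a2 = a1 := by rw [← H.off _ (by simp), e2']
  have ya3 : y' a3 = a4 := by rw [← H.off _ (by simp), e4]
  have ya4 : y' a4 = a3 := by rw [← H.off _ (by simp), e4']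
  clear_value y'
  have m0' : a0 ∈ T \ {a1, a2, a3, a4} := by simp [m0, n01, n02, n03, n04]
  by_cases e : Exc (T \ {a1, a2, a3, a4}) x y'
  · obtain ⟨q1, q2⟩ := e.sq H m0'
    rw [ya0] at q1 q2
    obtain ⟨a6, e6⟩ : ∃ a, x a5 = a := ⟨_, rfl⟩
    obtain ⟨a7, e7⟩ : ∃ a, x a0 = a := ⟨_, rfl⟩
    have e6' : x a6 = a5 := by rw [← e6, hx]
    have e7' : x a7 = a0 := by rw [← e7, hx]
    rw [e6, e7] at q1 q2
    have g0 := e.2 _ m0'
    rw [ya0, e7] at g0
    have n07 : a0 ≠ a7 := by grind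
    have n17 : a1 ≠ a7 := by grind
    have n27 : a2 ≠ a7 := by grind
    have n37 : a3 ≠ a7 := by grind
    have n47 : a4 ≠ a7 := by grind
    have n57 : a5 ≠ a7 := by grind
    rw [y1 a7 n07.symm n17.symm n27.symm n37.symm n47.symm n57.symm] at q1
    have e8 : y a6 = a7 := by rw [q1, hy]
    have n06 : a0 ≠ a6 := by grind
    have n16 : a1 ≠ a6 := by grind
    have n26 : a2 ≠ a6 := by grind
    have n36 : a3 ≠ a6 := by grind
    have n46 : a4 ≠ a6 := by grind
    have n56 : a5 ≠ a6 := by grind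
    have n67 : a6 ≠ a7 := by grind
    have m6 : a6 ∈ T := e6 ▸ h.hT _ m5
    have m7 : a7 ∈ T := e7 ▸ h.hT _ m0
    refine good_of_model h (swap 1 2 * swap 3 4 * swap 5 6 * swap 7 0)
      (swap 0 1 * swap 2 3 * swap 4 5 * swap 6 7) (swap 2 3 * swap 2 0) (by decide +kernel) (by decide +kernel)
      ![a0, a1, a2, a3, a4, a5, a6, a7] ?_ ?_ ?_ ?_ ?_
    · intro i j hij
      fin_cases i <;> fin_cases j <;> first | rfl | (exfalso; simp at hij; grind)
    · intro i; fin_cases i <;> simpa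
    · intro i; fin_cases i <;> simp [swap_apply_def, e2, e4, e6, e7, e2', e4', e6', e7']
    · intro i; fin_cases i <;> simp [swap_apply_def, e1, e3, e5, e8, e1', e3', e5', q1.symm]
    · intro t ht
      apply h.off
      intro htT
      apply ht
      by_cases hu : t ∈ ({a1, a2, a3, a4} : Finset α)
      · simp only [Finset.mem_insert, Finset.mem_singleton] at hu
        rcases hu with rfl | rfl | rfl | rfl
        exacts [⟨1, rfl⟩, ⟨2, rfl⟩, ⟨3, rfl⟩, ⟨4, rfl⟩]
      · rcases q2 t (Finset.mem_sdiff.2 ⟨htT, hu⟩) with rfl | rfl | rfl | rfl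
        exacts [⟨0, rfl⟩, ⟨7, rfl⟩, ⟨5, rfl⟩, ⟨6, rfl⟩]
  obtain ⟨z, z1, z2, z3, z4⟩ := ih _ _ _ (card_lt m1 (by simp)) H e
  have za1 : z a1 = a2 := by rw [z2 _ (by simp), e2]
  have za2 : z a2 = a1 := by rw [z2 _ (by simp), e2']
  have za3 : z a3 = a4 := by rw [z2 _ (by simp), e4]
  have za4 : z a4 = a3 := by rw [z2 _ (by simp), e4']
  refine ⟨z, z1, fun t ht => z2 t (by grind), z3, ?_⟩
  have := (z4.ins (a := a5) (b := a3) (c := a1) (by simp [za3, ya4]) (by simp [za1, ya2])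
    n35.symm n15.symm n13.symm).ins (a := a0) (b := a2) (c := a4)
    (by simp only [Perm.mul_apply, swap_apply_def]; grind)
    (by simp only [Perm.mul_apply, swap_apply_def]; grind) n02 n04 n24
  convert this using 1
  ext t
  simp only [Perm.mul_apply]
  generalize z t = u
  by_cases u0 : u = a0
  · subst u0; simp only [swap_apply_def]; grind
  by_cases u1 : u = a1
  · subst u1; simp only [swap_apply_def]; grind
  by_cases u2 : u = a2
  · subst u2; simp only [swap_apply_def]; grind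
  by_cases u3 : u = a3
  · subst u3; simp only [swap_apply_def]; grind
  by_cases u4 : u = a4
  · subst u4; simp only [swap_apply_def]; grind
  by_cases u5 : u = a5
  · subst u5; simp only [swap_apply_def]; grind
  rw [y1 u u0 u1 u2 u3 u4 u5]
  simp only [swap_apply_def]; grind

theorem stepS {T : Finset α} {x y : Perm α} (h : Hyp T x y) (ih : IH T) (hne : ¬ Exc T x y)
    {a1 : α} (hs : Sq x y a1) : Good T x y := by
  have hx := h.hx
  have hy := h.hy
  obtain ⟨s1, s2, s3, s4⟩ := hs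
  obtain ⟨a2, e2⟩ : ∃ a, x a1 = a := ⟨_, rfl⟩
  obtain ⟨a3, e3⟩ : ∃ a, y a1 = a := ⟨_, rfl⟩
  obtain ⟨a4, e4⟩ : ∃ a, x a3 = a := ⟨_, rfl⟩
  have e5 : y a2 = a4 := by rw [← e2, ← s4, e3, e4]
  have e2' : x a2 = a1 := by rw [← e2, hx]
  have e3' : y a3 = a1 := by rw [← e3, hy]
  have e4' : x a4 = a3 := by rw [← e4, hx]
  have e5' : y a4 = a2 := by rw [← e5, hy]
  have n12 : a1 ≠ a2 := by grind
  have n13 : a1 ≠ a3 := by grind
  have n14 : a1 ≠ a4 := by grind
  have n23 : a2 ≠ a3 := by grind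
  have n24 : a2 ≠ a4 := by grind
  have n34 : a3 ≠ a4 := by grind
  have m1 : a1 ∈ T := h.mem s3
  have m2 : a2 ∈ T := e2 ▸ h.hT _ m1
  have m3 : a3 ∈ T := e3 ▸ h.hT' _ m1
  have m4 : a4 ∈ T := e4 ▸ h.hT _ m3
  have H := h.reduce (swap a2 a3) {a1, a2, a3, a4}
    (by intro t ht; simp only [swap_apply_def]; grind)
    (by intro t ht; grind) (by
      intro t ht
      simp only [Perm.mul_apply, swap_inv, swap_apply_def]; grind)
  set y' := swap a2 a3 * y * (swap a2 a3)⁻¹ with hy'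
  have y1 : ∀ t, t ≠ a1 → t ≠ a2 → t ≠ a3 → t ≠ a4 → y' t = y t := by
    intro t _ _ _ _
    simp only [hy', Perm.mul_apply, swap_inv, swap_apply_def]; grind
  have ya1 : y' a1 = a2 := by rw [← H.off _ (by simp), e2]
  have ya2 : y' a2 = a1 := by rw [← H.off _ (by simp), e2']
  have ya3 : y' a3 = a4 := by rw [← H.off _ (by simp), e4]
  have ya4 : y' a4 = a3 := by rw [← H.off _ (by simp), e4']
  clear_value y'
  obtain ⟨b, mb⟩ : (T \ {a1, a2, a3, a4}).Nonempty := by
    by_contra hn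
    rw [Finset.not_nonempty_iff_eq_empty, Finset.sdiff_eq_empty_iff_subset] at hn
    have hT : T = {a1, a2, a3, a4} := Finset.Subset.antisymm hn (by intro t ht; grind)
    apply hne
    refine ⟨?_, fun t ht => ?_⟩
    · rw [hT, Finset.card_insert_of_notMem (by grind), Finset.card_insert_of_notMem (by grind),
        Finset.card_pair n34]
    · have := hn ht
      grind
  by_cases e : Exc (T \ {a1, a2, a3, a4}) x y'
  · obtain ⟨q1, q2⟩ := e.sq H mb
    have g0 := e.2 _ mb
    have mb2 := H.hT _ mb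
    have mb3 := H.hT' _ mb
    have mb4 := H.hT _ mb3
    have g3 := e.2 _ mb3
    simp only [Finset.mem_sdiff, Finset.mem_insert, Finset.mem_singleton, not_or] at mb mb2 mb3 mb4
    rw [y1 b mb.2.1 mb.2.2.1 mb.2.2.2.1 mb.2.2.2.2] at q1 q2 g0 mb3 mb4 g3
    rw [y1 _ mb2.2.1 mb2.2.2.1 mb2.2.2.2.1 mb2.2.2.2.2] at q1
    obtain ⟨b2, f2⟩ : ∃ a, x b = a := ⟨_, rfl⟩
    obtain ⟨b3, f3⟩ : ∃ a, y b = a := ⟨_, rfl⟩
    obtain ⟨b4, f4⟩ : ∃ a, x b3 = a := ⟨_, rfl⟩
    have f5 : y b2 = b4 := by rw [← f2, ← q1, f3, f4]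
    have f2' : x b2 = b := by rw [← f2, hx]
    have f3' : y b3 = b := by rw [← f3, hy]
    have f4' : x b4 = b3 := by rw [← f4, hx]
    have f5' : y b4 = b2 := by rw [← f5, hy]
    rw [f3] at mb3 mb4 q2 g0
    rw [f2] at mb2 q2 g0
    rw [f4] at mb4 q2
    have k14 : b ≠ b4 := by grind
    have k24 : b2 ≠ b4 := by grind
    have k34 : b3 ≠ b4 := by grind
    have r1 := mb.1
    have r2 := mb2.1
    have r3 := mb3.1
    have r4 := mb4.1
    refine good_of_model h (swap 0 1 * swap 2 3 * swap 4 5 * swap 6 7)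
      (swap 0 2 * swap 1 3 * swap 4 6 * swap 5 7) (swap 3 6 * swap 3 5) (by decide +kernel) (by decide +kernel)
      ![a1, a2, a3, a4, b, b2, b3, b4] ?_ ?_ ?_ ?_ ?_
    · intro i j hij
      fin_cases i <;> fin_cases j <;> first | rfl | (exfalso; simp at hij; grind)
    · intro i; fin_cases i <;> simpa
    · intro i; fin_cases i <;> simp [swap_apply_def, e2, e4, e2', e4', f2, f4, f2', f4']
    · intro i; fin_cases i <;> simp [swap_apply_def, e3, e5, e3', e5', f3, f5, f3', f5']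
    · intro t ht
      apply h.off
      intro htT
      apply ht
      by_cases hu : t ∈ ({a1, a2, a3, a4} : Finset α)
      · simp only [Finset.mem_insert, Finset.mem_singleton] at hu
        rcases hu with rfl | rfl | rfl | rfl
        exacts [⟨0, rfl⟩, ⟨1, rfl⟩, ⟨2, rfl⟩, ⟨3, rfl⟩]
      · rcases q2 t (Finset.mem_sdiff.2 ⟨htT, hu⟩) with rfl | rfl | rfl | rfl
        exacts [⟨4, rfl⟩, ⟨5, rfl⟩, ⟨6, rfl⟩, ⟨7, rfl⟩]
  obtain ⟨z, z1, z2, z3, z4⟩ := ih _ _ _ (card_lt m1 (by simp)) H e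
  have hz := inv_of_conj hx z1
  have za1 : z a1 = a2 := by rw [z2 _ (by simp), e2]
  have za2 : z a2 = a1 := by rw [z2 _ (by simp), e2']
  have za3 : z a3 = a4 := by rw [z2 _ (by simp), e4]
  have za4 : z a4 = a3 := by rw [z2 _ (by simp), e4']
  obtain ⟨c, ec⟩ : ∃ c, z b = c := ⟨_, rfl⟩
  have ec' : z c = b := by rw [← ec, hz]
  have mc : c ∈ T \ {a1, a2, a3, a4} := by
    by_contra hn
    have q := z2 c hn
    rw [ec'] at q
    have := H.hT b mb
    rw [q, hx] at this
    exact hn this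
  simp only [Finset.mem_sdiff, Finset.mem_insert, Finset.mem_singleton, not_or] at mb mc
  obtain ⟨mb, b1, b2, b3, b4⟩ := mb
  obtain ⟨mc, c1, c2, c3, c4⟩ := mc
  refine ⟨swap c a4 * swap c a2 * z * (swap c a4 * swap c a2)⁻¹,
    z1.trans (isConj_iff.2 ⟨_, rfl⟩), ?_, ?_, ?_⟩
  · intro t ht
    have := z2 t (by grind)
    have := h.hT (x t)
    simp only [Perm.mul_apply, mul_inv_rev, swap_inv, swap_apply_def]; grind
  · have := (z3.insR (a := b) (b := a3) (c := a1) (by simp [za3, e4']) (by simp [za1, e2'])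
      b3 b1 n13.symm).insR (a := c) (b := a2) (c := a4)
      (by simp only [Perm.mul_apply, swap_apply_def]; grind)
      (by simp only [Perm.mul_apply, swap_apply_def]; grind) c2 c4 n24
    convert this using 1
    ext t
    simp only [Perm.mul_apply, mul_inv_rev, swap_inv, swap_apply_def]; grind
  · have := (z4.insR (a := b) (b := a3) (c := a4) (by simp [za3, ya4]) (by simp [za4, ya3])
      b3 b4 n34).insR (a := c) (b := a2) (c := a1)
      (by simp only [Perm.mul_apply, swap_apply_def]; grind)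
      (by simp only [Perm.mul_apply, swap_apply_def]; grind) c2 c1 n12.symm
    convert this using 1
    ext t
    have yb := y1 b b1 b2 b3 b4
    have yc := y1 c c1 c2 c3 c4
    simp only [Perm.mul_apply, mul_inv_rev, swap_inv]
    by_cases u1 : t = a1
    · subst u1; simp only [swap_apply_def]; grind
    by_cases u2 : t = a2
    · subst u2; simp only [swap_apply_def]; grind
    by_cases u3 : t = a3
    · subst u3; simp only [swap_apply_def]; grind
    by_cases u4 : t = a4
    · subst u4; simp only [swap_apply_def]; grind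
    by_cases ub : t = b
    · subst ub; simp only [swap_apply_def]; grind
    by_cases uc : t = c
    · subst uc; simp only [swap_apply_def]; grind
    have w1 : z t ≠ a1 := by grind
    have w2 : z t ≠ a2 := by grind
    have w3 : z t ≠ a3 := by grind
    have w4 : z t ≠ a4 := by grind
    have wc : z t ≠ c := by grind
    simp only [swap_apply_of_ne_of_ne uc u1, swap_apply_of_ne_of_ne uc u2,
      swap_apply_of_ne_of_ne uc u4, swap_apply_of_ne_of_ne ub u3, swap_apply_of_ne_of_ne ub u4,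
      swap_apply_of_ne_of_ne wc w2, swap_apply_of_ne_of_ne wc w4, y1 _ w1 w2 w3 w4]

theorem good_main : ∀ (n : ℕ) (T : Finset α) (x y : Perm α), T.card = n → Hyp T x y →
    ¬ Exc T x y → Good T x y := by
  intro n
  induction n using Nat.strong_induction_on with
  | _ n ihn =>
  intro T x y hn h hne
  have ih : IH T := fun T' x' y' hlt H he => ihn _ (hn ▸ hlt) T' x' y' rfl H he
  by_cases hs : ∃ b, Sq x y b
  · obtain ⟨b, hb⟩ := hs
    exact stepS h ih hne hb
  push Not at hs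
  by_cases hA : ∃ a ∈ T, x a = y a
  · obtain ⟨a, ha, h0⟩ := hA
    exact stepA h ih hs ha h0
  push Not at hA
  by_cases hB : ∃ a, y a = a ∧ x a ≠ a ∧ y (x a) ≠ x a
  · obtain ⟨a, h0, h1, h2⟩ := hB
    exact stepB h ih h0 h1 h2
  by_cases hB' : ∃ a, x a = a ∧ y a ≠ a ∧ x (y a) ≠ y a
  · obtain ⟨a, h0, h1, h2⟩ := hB'
    exact Good.symm h (stepB h.symm ih h0 h1 h2)
  push Not at hB hB'
  have hcard : x.support.card = y.support.card := by
    obtain ⟨g, hg⟩ := isConj_iff.1 h.hc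
    rw [← hg, card_support_conj]
  by_cases hD : x.support = y.support
  · by_cases hT : T = ∅
    · have : x = y := by ext t; exact h.off t (by simp [hT])
      subst this
      have h1 : x * x = 1 := by ext t; exact h.hx t
      exact ⟨x, IsConj.refl x, fun _ _ => rfl, h1 ▸ O.one, h1 ▸ O.one⟩
    · obtain ⟨a, ha⟩ := Finset.nonempty_iff_ne_empty.2 hT
      refine stepC h ih hs (fun t ht => ?_) ha
      have h1 := hA t ht
      have h2 : t ∈ x.support ↔ t ∈ y.support := by rw [hD]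
      simp only [mem_support] at h2
      grind
  · have h1 : ¬ x.support ⊆ y.support := fun q =>
      hD (Finset.eq_of_subset_of_card_le q hcard.ge)
    have h2 : ¬ y.support ⊆ x.support := fun q =>
      hD (Finset.eq_of_subset_of_card_le q hcard.le).symm
    obtain ⟨a, ha1, ha2⟩ := Finset.not_subset.1 h1
    obtain ⟨c, hc1, hc2⟩ := Finset.not_subset.1 h2
    simp only [mem_support, not_not] at ha1 ha2 hc1 hc2
    exact stepD h ih hs ha2 ha1 (hB a ha2 ha1) hc2 hc1 (hB' c hc2 hc1)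

theorem exists_common (h5 : 5 ≤ Fintype.card α) {x y : Perm α} (hx : x * x = 1)
    (hc : IsConj x y) : ∃ z, IsConj x z ∧ Odd (orderOf (x * z)) ∧ Odd (orderOf (y * z)) := by
  have hx' : ∀ t, x (x t) = t := fun t => by rw [← Perm.mul_apply, hx]; rfl
  obtain ⟨z, h1, -, h2, h3⟩ := good_main _ Finset.univ x y rfl
    ⟨hx', inv_of_conj hx' hc, hc, by simp, by simp⟩ (by
      intro e
      have := e.1
      rw [Finset.card_univ] at this
      omega)
  exact ⟨z, h1, h2, h3⟩

end H2.Lfg
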