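import Cfsg.Agent.H8.Cd3
import Cfsg.Agent.H8.Ito
import Cfsg.Agent.H8.PDeg
import Cfsg.Agent.H18.BG1
import Cfsg.Agent.H1.BG3a

/-! Non-dividing character degrees with disconnected degree graph: the configuration `Nd.Hs`, the structure `Nd.Ab` of the
case `L = N' ⊓ M` abelian, and the statements `Nd.Quot`, `Nd.Der`, `Nd.AbC`, `Nd.PAb`, `Nd.Cnt`. -/

set_option autoImplicit false

namespace H2.Nd

open Subgroup Cfsg H18 H5 H6 H8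
open scoped commutatorElement

universe u

/-- `N = M P` is normal with normal `p`-complement `M`; the `r`-element `c` fixes all non-linear characters of `N` -/
structure Hs {G : Type*} [Group G] (N M P : Subgroup G) (c : G) (p r : ℕ) : Prop where
  nN : N.Normal
  nM : M.Normal
  solv : Solv N
  hp : p.Prime
  hr : r.Prime
  ne : p ≠ r
  rc : PiGrp {r} (zpowers c)
  rN : r ∣ N.index
  piM : PiGrp {p}ᶜ M
  piP : PiGrp {p} P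
  sup : M ⊔ P = N
  cP : c ∈ N(P)
  x0 : ∃ x ∈ P, ⁅x, c⁆ ∉ ⁅N, N⁆
  cam : ∀ x ∈ N, ⁅x, c⁆ ∉ ⁅N, N⁆ → ∀ y ∈ ⁅N, N⁆, ∃ n ∈ N, n * x * n⁻¹ = x * y
  cl : ∀ g : G, ∀ y ∈ ⁅N, N⁆, ∃ n ∈ N, g * y * g⁻¹ = n * y * n⁻¹
  cop : ∀ χ, IsIrrCharacter G χ → ¬ ⁅N, N⁆ ≤ charKer χ → (charDegree χ).Coprime N.index
  nd : ∀ χ ψ, IsIrrCharacter G χ → IsIrrCharacter G ψ → charDegree χ ≠ 1 → charDegree χ ∣ charDegree ψ →
    charDegree χ = charDegree ψ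

/-- the structure when `L = N' ⊓ M` is abelian and non-trivial -/
structure Ab {G : Type*} [Group G] (N L : Subgroup G) : Prop where
  der : ⁅N, N⁆ ≤ C(L)
  ab : Abel (N ⊓ C(L))
  sr : ∀ n ∈ N, ∀ u ∈ L, u ≠ 1 → n * u = u * n → n ∈ C(L)
  deg : ∀ χ, IsIrrCharacter G χ → ¬ ⁅N, N⁆ ≤ charKer χ → charDegree χ = C(L).relIndex N

def Quot : Prop := ∀ (G : Type u) [Group G] [Finite G] (N M P Y : Subgroup G) [Y.Normal] (c : G) (p r : ℕ),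
  Hs N M P c p r → Y ≤ ⁅N, N⁆ ⊓ M →
    Hs (N.map (QuotientGroup.mk' Y)) (M.map (QuotientGroup.mk' Y)) (P.map (QuotientGroup.mk' Y)) (c : G ⧸ Y) p r ∧
      ⁅N.map (QuotientGroup.mk' Y), N.map (QuotientGroup.mk' Y)⁆ ⊓ M.map (QuotientGroup.mk' Y) =
        (⁅N, N⁆ ⊓ M).map (QuotientGroup.mk' Y)

def Der : Prop := ∀ (G : Type u) [Group G] [Finite G] (N M P : Subgroup G) (c : G) (p r : ℕ),
  Hs N M P c p r → Abel (⁅N, N⁆ ⊓ M) → ⁅N, N⁆ ≤ C((⁅N, N⁆ ⊓ M : Subgroup G))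

def AbC : Prop := ∀ (G : Type u) [Group G] [Finite G] (N M P : Subgroup G) (c : G) (p r : ℕ),
  Hs N M P c p r → ⁅N, N⁆ ⊓ M ≠ ⊥ → ⁅N, N⁆ ≤ C((⁅N, N⁆ ⊓ M : Subgroup G)) → Ab N (⁅N, N⁆ ⊓ M)

def PAb : Prop := ∀ (G : Type u) [Group G] [Finite G] (N M P : Subgroup G) (c : G) (p r : ℕ),
  Hs N M P c p r → ⁅N, N⁆ ⊓ M ≠ ⊥ → Ab N (⁅N, N⁆ ⊓ M) → Abel P

def Cnt : Prop := ∀ (G : Type u) [Group G] [Finite G] (N U W : Subgroup G) (c : G) (r : ℕ), N.Normal → U.Normal →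
  r.Prime → PiGrp {r} (zpowers c) → ¬ r ∣ C(U).relIndex N → (∀ n ∈ N, ∀ u ∈ U, u ≠ 1 → n * u = u * n → n ∈ C(U)) →
  (∀ u ∈ U, ∃ n ∈ N, c * u * c⁻¹ = n * u * n⁻¹) → W ≤ N → (∀ a ∈ N, a ∈ W ↔ ⁅a, c⁆ ∈ C(U)) →
  Nat.card U - 1 = W.relIndex N * (Nat.card (U ⊓ C1(c) : Subgroup G) - 1)

end H2.Nd
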