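import Cfsg.Agent.H2.Nd0

/-! Non-dividing character degrees with disconnected degree graph: the configuration `Nd.Co` of the case `L = N'` non-abelian
with `Y = L'` minimal normal, and the statements `Nd.PT`, `Nd.PF`, `Nd.PS`, `Nd.PE`. -/

set_option autoImplicit false

namespace H2.Nd

open Subgroup Cfsg H18 H5 H6 H8
open scoped commutatorElement

universe u

/-- `Y ≤ Q ≤ N' = Q B ≤ C ≤ N`, `Y = C'` is central in `C` -/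
structure Co {G : Type*} [Group G] (N Y C Q B : Subgroup G) (c : G) (q r : ℕ) : Prop where
  nN : N.Normal
  nY : Y.Normal
  nC : C.Normal
  nQ : Q.Normal
  hq : q.Prime
  hr : r.Prime
  LC : ⁅N, N⁆ ≤ C
  CN : C ≤ N
  CC : ⁅C, C⁆ = Y
  CY : C ≤ C(Y)
  YQ : Y ≤ Q
  piQ : PiGrp {q} Q
  sup : Q ⊔ B = ⁅N, N⁆
  BQ : B ≤ C(Q)
  Y0 : Y ≠ ⊥
  QY : ¬ Q ≤ Y
  srq : ∀ n ∈ N, ∀ u ∈ ⁅N, N⁆, ⁅n, u⁆ ∈ Y → u ∈ Y ∨ n ∈ C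
  sry : ∀ n ∈ N, ∀ u ∈ Y, u ≠ 1 → n * u = u * n → n ∈ C(Y)
  rc : PiGrp {r} (zpowers c)
  rd : ¬ r ∣ C.relIndex N
  x1 : ∃ x ∈ N, ⁅x, c⁆ ∉ C
  cam : ∀ x ∈ N, ⁅x, c⁆ ∉ ⁅N, N⁆ → ∀ y ∈ ⁅N, N⁆, ∃ n ∈ N, n * x * n⁻¹ = x * y
  cl : ∀ g : G, ∀ y ∈ ⁅N, N⁆, ∃ n ∈ N, g * y * g⁻¹ = n * y * n⁻¹
  d0 : ∃ χ, IsIrrCharacter G χ ∧ charDegree χ = C.relIndex N
  nd : ∀ χ ψ, IsIrrCharacter G χ → IsIrrCharacter G ψ → charDegree χ ≠ 1 → charDegree χ ∣ charDegree ψ →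
    charDegree χ = charDegree ψ

/-- every irreducible character of `C` not containing `Y` in the kernel is fixed by some `t ∈ N \ C`, and `t` centralizes `Y` -/
def PT : Prop := ∀ (G : Type u) [Group G] [Finite G] (N Y C Q B : Subgroup G) (c : G) (q r : ℕ) [nC : C.Normal],
  Co N Y C Q B c q r → ∀ θ : C → ℂ, IsIrrCharacter C θ → ¬ Y.subgroupOf C ≤ charKer θ →
    ∃ t ∈ N, t ∉ C ∧ t ∈ C(Y) ∧ ∀ n : C, θ ⟨t * n * t⁻¹, nC.conj_mem n n.2 t⟩ = θ n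

def PF : Prop := ∀ (G : Type u) [Group G] [Finite G] (N Y C Q B S : Subgroup G) (c a : G) (q r : ℕ),
  Co N Y C Q B c q r → a ∈ ⁅N, N⁆ → a ∉ Y → S ≤ Y → ¬ Y ≤ S → (∀ w ∈ C, ⁅a, w⁆ ∈ S) → False

def PS : Prop := ∀ (G : Type u) [Group G] [Finite G] (N Y C Q B : Subgroup G) (c t a : G) (q r : ℕ),
  Co N Y C Q B c q r → t ∈ N → t ∉ C → t ∈ C(Y) → Y.relIndex Q = Nat.card Y → a ∈ Q → a ∉ Y →
    ∃ S ≤ Y, ¬ Y ≤ S ∧ ∀ w ∈ C, ⁅a, w⁆ ∈ S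

def PE : Prop := ∀ (G : Type u) [Group G] [Finite G] (N Y C Q B : Subgroup G) (c : G) (q r : ℕ),
  Co N Y C Q B c q r → Y.relIndex Q = Nat.card Y

end H2.Nd
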