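import Cfsg.Agent.H2.Nd0
import Cfsg.Agent.S4456
import Cfsg.Prelude.Def_DegreeGraph

/-! Non-dividing character degrees with disconnected degree graph: reduction to the configuration `Nd.Hs` (`Nd.exists_hs`,
`Nd.red`). -/

set_option autoImplicit false

namespace H2.Nd

open Subgroup Cfsg H18 H5 H6 H8
open scoped commutatorElement

variable {G : Type*} [Group G] [Finite G] {N : Subgroup G} {p : ℕ}

/-- all characters not containing `N'` in the kernel have the same degree -/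
def One (N : Subgroup G) : Prop := ∀ χ ψ, IsIrrCharacter G χ → IsIrrCharacter G ψ → ¬ ⁅N, N⁆ ≤ charKer χ →
  ¬ ⁅N, N⁆ ≤ charKer ψ → charDegree χ = charDegree ψ

omit [Finite G] in
theorem der_sub : ⁅N, N⁆.subgroupOf N = commutator N := by
  rw [← map_subtype_commutator, subgroupOf, comap_map_eq_self_of_injective N.subtype_injective]

theorem lin_iff [N.Normal] [Fintype N] {χ : G → ℂ} {ψ : N → ℂ} (hχ : IsIrrCharacter G χ) (hψ : IsIrrCharacter N ψ)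
    (h : classInner (fun n : N => χ n) ψ ≠ 0) : ¬ ⁅N, N⁆ ≤ charKer χ ↔ charDegree ψ ≠ 1 := by
  rw [← not_le_ker_iff hψ, ← der_sub]
  exact not_congr ⟨fun k => (comap_mono k).trans (ker_le_of_constituent hχ.isCharacter hψ h),
    le_ker_of_constituent der_le hχ hψ.isCharacter h⟩

theorem exists_hs [Group.IsSolvable G] [nN : N.Normal] (hp : p.Prime) (pf : ¬ p ∣ N.index) (f1 : N.index ≠ 1)
    (K : Subgroup G) (hK : ⁅N, N⁆ ≤ K) (hN : ¬ N ≤ K) (hq : ∀ M ≤ N, PiGrp {p}ᶜ M → M ≤ K)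
    (fx : ∀ x ∈ N, ∀ c, ⁅x, c⁆ ∈ K → x ∈ K ∨ c ∈ N)
    (pd : ∀ ψ : N → ℂ, IsIrrCharacter N ψ → charDegree ψ ≠ 1 → p ∣ charDegree ψ)
    (cop : ∀ χ, IsIrrCharacter G χ → ¬ ⁅N, N⁆ ≤ charKer χ → (charDegree χ).Coprime N.index)
    (nd : ∀ χ ψ, IsIrrCharacter G χ → IsIrrCharacter G ψ → charDegree χ ≠ 1 → charDegree χ ∣ charDegree ψ →
      charDegree χ = charDegree ψ) : ∃ M P c r, Hs N M P c p r := by
  haveI := Fintype.ofFinite G
  haveI := Fintype.ofFinite N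
  have inv : ∀ ψ : N → ℂ, IsIrrCharacter N ψ → charDegree ψ ≠ 1 → ∀ g (n : N),
      ψ ⟨g * n * g⁻¹, nN.conj_mem n n.2 g⟩ = ψ n := fun ψ hψ h1 g => by
    obtain ⟨χ, hχ, o⟩ := exists_irr_over (G := G) hψ
    obtain ⟨b, b1, b2⟩ := deg_dvd_of_under hχ hψ o
    have c := cop χ hχ ((lin_iff hχ hψ o).2 h1)
    have : b = 1 := Nat.eq_one_of_dvd_coprimes c (b2 ▸ dvd_mul_right _ _) b1
    have d := index_inertia_mul_dvd hχ hψ o
    rw [b2, Nat.mul_dvd_mul_iff_right hψ.charDegree_pos, this, Nat.dvd_one, index_eq_one] at d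
    exact mem_inertia'.1 (d.ge (mem_top g))
  have ker : ∀ ψ : N → ℂ, IsIrrCharacter N ψ → charDegree ψ = 1 → ∀ y : N, y.1 ∈ ⁅N, N⁆ → y ∈ charKer ψ :=
    fun ψ hψ h1 y hy => (by_contra fun k => (not_le_ker_iff hψ).1 k h1 : commutator N ≤ charKer ψ) (der_sub.le hy)
  obtain ⟨N0, n0, c0, k, i0⟩ := Cfsg.Agent.S4456.result (G := N) p hp fun χ => pd χ χ.2
  obtain ⟨P, hP⟩ := exists_sylow hp N
  obtain ⟨r, hr, rf⟩ := Nat.exists_prime_and_dvd f1
  obtain ⟨R, hR⟩ := exists_sylow hr N(P)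
  have fr : N ⊔ N(P) = ⊤ := by simpa using frattini_arg hp (nml_top (K := N)) hP
  obtain ⟨c, hc, cN⟩ : ∃ c ∈ R, c ∉ N := SetLike.not_le_iff_exists.1 fun l => by
    have := hR.idx_of_le (K := N ⊓ N(P)) (le_inf l hR.le) r hr (by
      rw [inf_relIndex_right, ← relIndex_sup_right, sup_comm, fr, relIndex_top_right]; exact rf)
    exact this rfl
  have l0 : N0.map N.subtype ≤ O[{p}ᶜ](N) := le_pcore ⟨map_subtype_le _, fun g hg => mem_N_of_finite (by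
      rintro _ ⟨x, hx, rfl⟩; exact ⟨_, n0.conj_mem x hx ⟨g, hg⟩, rfl⟩)⟩ fun q hq d e => by
    rw [card_map_of_injective N.subtype_injective, show q = p from e] at d
    exact hp.ne_one (Nat.eq_one_of_dvd_coprimes c0 d dvd_rfl)
  have sp : O[{p}ᶜ](N) ⊔ P = N := by
    rw [sup_comm]
    refine hP.sup_of_idx pcore_le (PiNat.of_dvd (n := p ^ k) (fun q hq d => (Nat.prime_dvd_prime_iff_eq hq hp).1
      (hq.dvd_of_dvd_pow d)) ((relIndex_dvd_left l0).trans ?_))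
    rw [← i0, relIndex, subgroupOf, comap_map_eq_self_of_injective N.subtype_injective]
  have van : ∀ ψ : N → ℂ, IsIrrCharacter N ψ → charDegree ψ ≠ 1 → ∀ z : N, ⁅z.1, c⁆ ∉ ⁅N, N⁆ → ψ z = 0 :=
    fun ψ hψ h1 z hz => by
    obtain ⟨l, l1, l2⟩ := exists_lin_ne_one (N := commutator N) le_rfl
      (g := z * (⟨c * z * c⁻¹, nN.conj_mem z z.2 c⟩ : N)⁻¹) fun k => hz (by
        have := der_sub.ge k
        simpa [mem_subgroupOf, commutatorElement_def, mul_assoc] using this)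
    have := inv _ (hψ.mul_hom l) (by rwa [charDegree_mul_hom]) c z
    simp only [Pi.mul_apply, inv ψ hψ h1 c z] at this
    by_contra k
    refine l2 ?_
    rw [map_mul, map_inv, mul_inv_eq_one]
    exact Units.ext (mul_left_cancel₀ k this).symm
  refine ⟨O[{p}ᶜ](N), P, c, r, nN, (nml_top (K := N)).pcore.normal, inferInstance, hp, hr, fun e => pf (e ▸ rf),
    hR.pi.of_le (zpowers_le.2 hc), rf, pcore_pi, hP.pi, sp, hR.le hc, ?_, fun x hx h y hy => ?_, fun g y hy => ?_, cop, nd⟩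
  · obtain ⟨x, hx, xK⟩ : ∃ x ∈ P, x ∉ K := SetLike.not_le_iff_exists.1 fun l =>
      hN (sp.ge.trans (sup_le (hq _ pcore_le pcore_pi) l))
    exact ⟨x, hx, fun k => (fx x (hP.le hx) c (hK k)).elim xK cN⟩
  · have yN := der_le hy
    obtain ⟨n, e⟩ := isConj_iff.1 ((isConj_iff_forall_irr (⟨x, hx⟩ : N) (⟨x, hx⟩ * ⟨y, yN⟩)).2 fun ψ => by
      by_cases h1 : charDegree ψ.1 = 1
      · rw [← ψ.2.isClassFunction (_ * _) (⟨y, yN⟩ : N), ← mul_assoc, mul_assoc _ (⟨y, yN⟩ : N), mul_inv_cancel, mul_one,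
          ker _ ψ.2 h1 _ hy]
      · rw [van _ ψ.2 h1 _ h, van _ ψ.2 h1 _ fun k => h ?_]
        have n' : (⁅N, N⁆ : Subgroup G).Normal := inferInstance
        have := mul_mem (n'.conj_mem _ (inv_mem (mul_mem hy (n'.conj_mem _ (inv_mem hy) c))) x) k
        rwa [show x * (y * (c * y⁻¹ * c⁻¹))⁻¹ * x⁻¹ * ⁅((⟨x, hx⟩ * ⟨y, yN⟩ : N) : G), c⁆ =
          x * (y * (c * y⁻¹ * c⁻¹))⁻¹ * x⁻¹ * ⁅x * y, c⁆ from rfl, show x * (y * (c * y⁻¹ * c⁻¹))⁻¹ * x⁻¹ * ⁅x * y, c⁆ =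
          ⁅x, c⁆ by simp only [commutatorElement_def]; group] at this)
    exact ⟨n, n.2, congrArg Subtype.val e⟩
  · have yN := der_le hy
    have n' : (⁅N, N⁆ : Subgroup G).Normal := inferInstance
    obtain ⟨n, e⟩ := isConj_iff.1 ((isConj_iff_forall_irr (⟨y, yN⟩ : N) ⟨g * y * g⁻¹, nN.conj_mem y yN g⟩).2 fun ψ => by
      by_cases h1 : charDegree ψ.1 = 1
      · rw [apply_eq_of_mem_charKer (ker _ ψ.2 h1 ⟨y, yN⟩ hy),
          apply_eq_of_mem_charKer (ker _ ψ.2 h1 ⟨_, nN.conj_mem y yN g⟩ (n'.conj_mem _ hy g))]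
      · exact (inv _ ψ.2 h1 g ⟨y, yN⟩).symm)
    exact ⟨n, n.2, (congrArg Subtype.val e).symm⟩

theorem red [Group.IsSolvable G] (one : ∀ (N M P : Subgroup G) (c : G) (p r : ℕ), Hs N M P c p r → One N)
    (hnd : ∀ a ∈ charDegrees G, ∀ b ∈ charDegrees G, 1 < a → a < b → ¬ a ∣ b)
    (htwo : Nat.card ((degreeGraph G).induce (degreePrimes G)).ConnectedComponent = 2) :
    Nat.card ↥(charDegrees G) = 3 := by
  haveI := Fintype.ofFinite G
  have nd : ∀ χ ψ, IsIrrCharacter G χ → IsIrrCharacter G ψ → charDegree χ ≠ 1 → charDegree χ ∣ charDegree ψ →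
      charDegree χ = charDegree ψ := fun χ ψ h1 h2 e d => by_contra fun k =>
    hnd _ ⟨⟨χ, h1⟩, rfl⟩ _ ⟨⟨ψ, h2⟩, rfl⟩ (lt_of_le_of_ne h1.charDegree_pos (Ne.symm e))
      (lt_of_le_of_ne (Nat.le_of_dvd h2.charDegree_pos d) k) d
  have same : ∀ χ, IsIrrCharacter G χ → ∀ p q : degreePrimes G, p.1 ∣ charDegree χ → q.1 ∣ charDegree χ →
      ((degreeGraph G).induce (degreePrimes G)).Reachable p q := fun χ hχ p q hp hq => by
    by_cases e : p = q
    · rw [e]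
    · have e' : p.1 ≠ q.1 := fun h => e (Subtype.ext h)
      exact SimpleGraph.Adj.reachable ⟨e', p.2.1, q.2.1, _, ⟨⟨χ, hχ⟩, rfl⟩,
        ((Nat.coprime_primes p.2.1 q.2.1).2 e').mul_dvd_of_dvd_of_dvd hp hq⟩
  have dis : ∀ s : ℕ, (∀ χ, IsIrrCharacter G χ → ∀ u : degreePrimes G, u.1 ∣ charDegree χ → ∃ h : s ∈ degreePrimes G,
      ((degreeGraph G).induce (degreePrimes G)).Reachable u ⟨s, h⟩) → False := fun s h => by
    haveI : Subsingleton ((degreeGraph G).induce (degreePrimes G)).ConnectedComponent := ⟨fun C D =>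
      C.ind (fun u => D.ind (fun v => by
        obtain ⟨-, _, ⟨χ, rfl⟩, d⟩ := id u.2
        obtain ⟨-, _, ⟨ψ, rfl⟩, d'⟩ := id v.2
        obtain ⟨_, a⟩ := h _ χ.2 u d
        obtain ⟨_, b⟩ := h _ ψ.2 v d'
        exact SimpleGraph.ConnectedComponent.sound (a.trans b.symm)))⟩
    have := Finite.card_le_one_iff_subsingleton.2 this
    omega
  have n1 : ∀ {χ : G → ℂ} (u : degreePrimes G), u.1 ∣ charDegree χ → charDegree χ ≠ 1 := fun u d e =>
    u.2.1.ne_one (Nat.dvd_one.1 (e ▸ d))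
  have all : ∀ s : ℕ, s.Prime → (∀ χ, IsIrrCharacter G χ → charDegree χ ≠ 1 → s ∣ charDegree χ) → False :=
    fun s hs h => dis s fun χ hχ u d => ⟨⟨hs, _, ⟨⟨χ, hχ⟩, rfl⟩, h χ hχ (n1 u d)⟩, same χ hχ _ _ d (h χ hχ (n1 u d))⟩
  by_cases h0 : commutator G = ⊥
  · exact (all 2 Nat.prime_two fun χ hχ e => ((not_le_ker_iff hχ).2 e (h0.le.trans bot_le)).elim).elim
  obtain ⟨K, _, h1, h2⟩ := exists_just_nonab h0
  obtain ⟨p, hp, h3 | ⟨h3, h4, h5, h6⟩⟩ := just_nonab h1 h2 <;> haveI := Fact.mk hp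
  · obtain ⟨β, e1, e2, e3⟩ := exists_deg_top h1
    obtain ⟨k, hk⟩ := h3.exists_card_eq
    refine (all p hp fun χ hχ e => by_contra fun d => e3 ?_).elim
    have := nd χ _ hχ (mul_irr_of_not_dvd hk hχ d e1 e2) e (by
      rw [deg_mul e1.isCharacter hχ.isCharacter]; exact dvd_mul_left _ _)
    rw [deg_mul e1.isCharacter hχ.isCharacter] at this
    exact (Nat.mul_eq_right hχ.charDegree_pos.ne').1 this.symm
  have hπ := QuotientGroup.mk'_surjective K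
  set D := commutator (G ⧸ K) with hD
  set N := D.comap (QuotientGroup.mk' K) with hN
  haveI := Fintype.ofFinite N
  have fi : N.index = D.index := index_comap_of_surjective _ hπ
  have f1 : N.index ≠ 1 := fun e => h5 (index_eq_one.1 (fi ▸ e))
  have pf : ¬ p ∣ N.index := fi ▸ frob_not_dvd h1 h3 h6
  obtain ⟨χ0, i0, d0⟩ : ∃ χ, IsIrrCharacter G χ ∧ charDegree χ = N.index := by
    have t := isIrrCharacter_one (G := N)
    have t1 : charDegree (fun _ : N => (1 : ℂ)) = 1 := charDegree_of_eq (by simp)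
    obtain ⟨χ, a, b⟩ := frob_cd hπ h4 h1 h3 h6 t (by rw [t1]; exact hp.not_dvd_one)
    exact ⟨χ, a, by rw [b, t1, mul_one, fi]⟩
  have pd : ∀ ψ : N → ℂ, IsIrrCharacter N ψ → charDegree ψ ≠ 1 → p ∣ charDegree ψ := fun ψ hψ e => by_contra fun d => by
    obtain ⟨χ, a, b⟩ := frob_cd hπ h4 h1 h3 h6 hψ d
    have := nd χ0 χ i0 a (d0 ▸ f1) (by rw [d0, b, fi]; exact dvd_mul_right _ _)
    rw [d0, b, fi] at this
    exact e ((Nat.mul_eq_left index_ne_zero_of_finite).1 this.symm)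
  have dic : ∀ χ, IsIrrCharacter G χ → (⁅N, N⁆ ≤ charKer χ → charDegree χ = 1 ∨ charDegree χ = N.index) ∧
      (¬ ⁅N, N⁆ ≤ charKer χ → p ∣ charDegree χ) := fun χ hχ => by
    obtain ⟨ψ, hψ, o⟩ := exists_irr_under (N := N) hχ
    obtain ⟨b, b1, b2⟩ := deg_dvd_of_under hχ hψ o
    refine ⟨fun k => or_iff_not_imp_left.2 fun e => d0 ▸ nd χ χ0 hχ i0 e ?_,
      fun k => b2 ▸ (pd ψ hψ ((lin_iff hχ hψ o).1 k)).mul_left b⟩
    rw [b2, d0, (by_contra fun e => (lin_iff hχ hψ o).2 e k : charDegree ψ = 1), mul_one]; exact b1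
  have cop : ∀ χ, IsIrrCharacter G χ → ¬ ⁅N, N⁆ ≤ charKer χ → (charDegree χ).Coprime N.index := fun χ hχ k =>
    Nat.coprime_of_dvd' fun s hs a b => (dis s fun ψ hψ u d => ⟨⟨hs, _, ⟨⟨χ, hχ⟩, rfl⟩, a⟩, by
      by_cases l : ⁅N, N⁆ ≤ charKer ψ
      · exact same ψ hψ _ _ d (((dic ψ hψ).1 l).resolve_left (n1 u d) ▸ b)
      · exact (same ψ hψ u ⟨p, hp, _, ⟨⟨χ, hχ⟩, rfl⟩, (dic χ hχ).2 k⟩ d ((dic ψ hψ).2 l)).trans
          (same χ hχ _ _ ((dic χ hχ).2 k) a)⟩).elim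
  obtain ⟨χ1, i1, k1⟩ : ∃ χ, IsIrrCharacter G χ ∧ ¬ ⁅N, N⁆ ≤ charKer χ := by
    by_contra! c
    obtain ⟨s, hs, d⟩ := Nat.exists_prime_and_dvd f1
    exact all s hs fun χ hχ e => ((dic χ hχ).1 (c χ hχ)).resolve_left e ▸ d
  have kq : ∀ {x : G}, x ∈ K ↔ QuotientGroup.mk' K x = 1 := (QuotientGroup.eq_one_iff _).symm
  obtain ⟨M, P, c, r, hs⟩ := exists_hs hp pf f1 K (commutator_le.2 fun x hx y hy => kq.2 (by
      rw [map_commutatorElement, commutatorElement_eq_one_iff_mul_comm]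
      exact congrArg Subtype.val (h4.is_comm.comm (⟨_, hx⟩ : D) ⟨_, hy⟩)))
    (fun l => h1 (eq_bot_iff.2 fun d hd => by
      obtain ⟨x, rfl⟩ := hπ d
      exact kq.1 (l hd)))
    (fun M hM pi x hx => kq.2 (by
      obtain ⟨k, hk⟩ := h3 ⟨_, hM hx⟩
      have a : orderOf (QuotientGroup.mk' K x) ∣ p ^ k := orderOf_dvd_of_pow_eq_one (congrArg Subtype.val hk)
      have b := (orderOf_map_dvd (QuotientGroup.mk' K) x).trans (M.orderOf_dvd_natCard hx)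
      refine orderOf_eq_one_iff.1 (Nat.eq_one_iff_not_exists_prime_dvd.2 fun q hq d => ?_)
      exact pi q hq (d.trans b) ((Nat.prime_dvd_prime_iff_eq hq hp).1 (hq.dvd_of_dvd_pow (d.trans a)))))
    (fun x hx c k => or_iff_not_imp_left.2 fun l => h6 _ hx (mt kq.2 l) _ (by
      have := kq.1 k
      rwa [map_commutatorElement, commutatorElement_eq_one_iff_mul_comm] at this)) pd cop nd
  have o := one N M P c p r hs
  have p1 := (dic χ1 i1).2 k1
  have : charDegrees G = {1, N.index, charDegree χ1} := by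
    ext a
    refine ⟨?_, ?_⟩
    · rintro ⟨χ, rfl⟩
      by_cases l : ⁅N, N⁆ ≤ charKer χ.1
      · exact ((dic _ χ.2).1 l).imp id Or.inl
      · exact Or.inr (Or.inr (o _ _ χ.2 i1 l k1))
    · rintro (rfl | rfl | rfl)
      · exact ⟨⟨_, isIrrCharacter_one⟩, charDegree_of_eq (by simp)⟩
      · exact ⟨⟨_, i0⟩, d0⟩
      · exact ⟨⟨_, i1⟩, rfl⟩
  rw [this, Nat.card_coe_set_eq]
  exact Set.ncard_eq_three.2 ⟨_, _, _, f1.symm, fun e => hp.not_dvd_one (e ▸ p1), fun e => pf (e ▸ p1), rfl⟩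

end H2.Nd
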