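import Cfsg.Agent.H2.Nd1
import Cfsg.Agent.H2.Nd0b
import Cfsg.Agent.H21.NdD
import Cfsg.Agent.H19.NdA
import Cfsg.Agent.H25.NdP
import Cfsg.Agent.H23.NdQ

/-! Non-dividing character degrees with disconnected degree graph: `Nd.setup` (the configuration `Nd.Co` arises in a minimal
counterexample), `Nd.abel`, `Nd.one`. -/

set_option autoImplicit false

namespace H2.Nd

open Subgroup Cfsg H18 H5 H6 H8
open scoped commutatorElement

universe u

variable {G : Type u} [Group G] [Finite G] {N M P : Subgroup G} {c : G} {p r : ℕ}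

theorem setup (h : Hs N M P c p r) (Y : Subgroup G) (hY : Y = ⁅⁅N, N⁆ ⊓ M, ⁅N, N⁆ ⊓ M⁆) (Y0 : Y ≠ ⊥)
    (mn : ∀ K : Subgroup G, K.Normal → K ≤ Y → K ≠ ⊥ → K = Y) : ∃ C Q B q, Co N Y C Q B c q r := by
  have := h.nN
  have := h.nM
  haveI nY : Y.Normal := hY ▸ inferInstance
  have nr : ∀ {A K : Subgroup G} [K.Normal], A ≤ N(K) := fun {A K} _ => le_normalizer_of_normal
  have hπ := QuotientGroup.mk'_surjective Y
  have kq : ∀ {x : G}, x ∈ Y ↔ QuotientGroup.mk' Y x = 1 := (QuotientGroup.eq_one_iff _).symm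
  have mb : ∀ {A : Subgroup G}, A.map (QuotientGroup.mk' Y) = ⊥ ↔ A ≤ Y := by
    intro A; rw [Subgroup.map_eq_bot_iff, QuotientGroup.ker_mk']
  have YL : Y ≤ ⁅N, N⁆ ⊓ M := hY ▸ der_le
  have PN : P ≤ N := h.sup ▸ le_sup_right
  obtain ⟨h1, e1⟩ := H23.NdQ.pQ G N M P Y c p r h YL
  have ab : Abel (⁅N.map (QuotientGroup.mk' Y), N.map (QuotientGroup.mk' Y)⁆ ⊓ M.map (QuotientGroup.mk' Y)) := by
    rw [e1, abel_iff_der, ← map_commutator, ← hY, mb]
  have sL : Solv (⁅N, N⁆ ⊓ M : Subgroup G) := h.solv.of_le (inf_le_left.trans der_le)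
  have l0 : ⁅N.map (QuotientGroup.mk' Y), N.map (QuotientGroup.mk' Y)⁆ ⊓ M.map (QuotientGroup.mk' Y) ≠ ⊥ := by
    rw [e1, Ne, mb]
    exact fun l => Y0 (le_bot_iff.1 (YL.trans (sL.eq_bot_of_le_der (l.trans hY.le)).le))
  have A := H19.Nd.pA _ _ _ _ _ _ _ h1 l0 (H21.Nd.pD _ _ _ _ _ _ _ h1 ab)
  have aP : Abel P := by
    have := (H25.NdP.pP _ _ _ _ _ _ _ h1 l0 A).der
    rw [← map_commutator, mb] at this
    exact abel_iff_der.2 (le_bot_iff.1 ((le_inf der_le (this.trans (YL.trans inf_le_right))).trans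
      (h.piP.inf_eq_bot h.piM).le))
  have NM : ⁅N, N⁆ ≤ M := by
    have := der_sup_le (A := M) (B := P) nr
    rwa [h.sup, aP.der, sup_bot_eq] at this
  have eL : ⁅N, N⁆ ⊓ M = ⁅N, N⁆ := inf_eq_left.2 NM
  rw [e1] at A l0
  rw [eL] at A l0 hY YL sL
  set L := ⁅N, N⁆ with hL
  set C := N ⊓ C(L.map (QuotientGroup.mk' Y)).comap (QuotientGroup.mk' Y) with hC
  haveI : (L.map (QuotientGroup.mk' Y)).Normal := Normal.map inferInstance _ hπ
  haveI nC : C.Normal := inferInstance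
  have mC : ∀ {n : G}, n ∈ N → QuotientGroup.mk' Y n ∈ C(L.map (QuotientGroup.mk' Y)) → n ∈ C := fun a b => ⟨a, b⟩
  have LC : L ≤ C := fun x hx => mC (der_le hx) (A.der (by rw [← map_commutator]; exact mem_map_of_mem _ hx))
  have CC : ⁅C, C⁆ = Y := le_antisymm (by
    rw [← mb, map_commutator]
    exact (A.ab.mono (by rintro _ ⟨x, hx, rfl⟩; exact ⟨mem_map_of_mem _ hx.1, hx.2⟩)).der) (hY.le.trans (der_mono LC))
  obtain ⟨x, hx, x1⟩ := h.x0
  have cp : (Nat.card (zpowers c)).Coprime (Nat.card P) := (h.rc.p'_of_ne h.ne.symm).coprime' h.piP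
  have cP : zpowers c ≤ N(P) := zpowers_le.2 h.cP
  have fp : ∀ s ∈ ⁅P, zpowers c⁆, s ≠ 1 → ∀ y ∈ L, s * y = y * s → y = 1 := fun s hs s1 y hy e => by
    have sP := comm_le_left cP hs
    refine H19.Nd.fpf h sP (fun k => s1 ?_) (eL.ge hy) e
    have a : ⁅s, c⁆ ∈ P ⊓ M := ⟨comm_le_left cP (commutator_mem_commutator sP (mem_zpowers c)), NM k⟩
    rw [h.piP.inf_eq_bot h.piM, mem_bot, commutatorElement_eq_one_iff_mul_comm] at a
    exact mem_bot.1 ((H1.abel_comm_inf_cent aP cP cp).le ⟨hs, by rw [C_zpowers]; exact mem_C1.2 a⟩)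
  have s0 : ⁅x, c⁆ ∈ ⁅P, zpowers c⁆ := commutator_mem_commutator hx (mem_zpowers c)
  have s1 : ⁅x, c⁆ ≠ 1 := fun e => x1 (e ▸ one_mem _)
  have nil : Nil L := by
    obtain ⟨R, hR, pr⟩ := exists_prime_sub (ne_bot_of_mem s0 s1)
    obtain ⟨s, a, b⟩ := exists_mem_ne_one' (ne_bot_of_prime pr)
    exact H1.prime_Frobenius_sol_kernel_nil nr sL pr (eq_bot_iff.2 fun y hy =>
      mem_bot.2 (fp s (hR a) b y hy.1 (mem_C.1 hy.2 s a)))
  have YZ : Y ≤ C(L) := inf_eq_left.1 (mn (Y ⊓ C(L)) inferInstance inf_le_left (nil.meet_cent YL le_rfl nr Y0))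
  have CY : C ≤ C(Y) := by
    have a : ⁅⁅L, C⁆, L⁆ = ⊥ := comm_eq_bot_iff.2 (((comm_mono LC le_rfl).trans CC.le).trans YZ)
    have := three_subgroup a (by rwa [comm_comm (A := C)])
    rw [← hY] at this
    exact cent_symm (comm_eq_bot_iff.1 this)
  obtain ⟨q, hq, y0⟩ := (sL.of_le YL).exists_pcore_ne_bot Y0
  have qY : PiGrp {q} Y := mn _ (nml_top (K := Y)).pcore.normal pcore_le y0 ▸ pcore_pi
  obtain ⟨y, hy, y1⟩ := exists_mem_ne_one' Y0
  have nx : ⁅x, c⁆ ∉ C := fun k => y1 (fp _ s0 s1 y (YL hy) (mem_C.1 (CY k) y hy).symm)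
  obtain ⟨χ, hχ, k⟩ : ∃ χ, IsIrrCharacter (G ⧸ Y) χ ∧ ¬ L.map (QuotientGroup.mk' Y) ≤ charKer χ := by
    by_contra! k
    exact l0 (eq_bot_of_forall_ker k)
  have dχ : charDegree (fun g : G => χ g) = C.relIndex N := by
    rw [charDegree_inflate, A.deg χ hχ (by rwa [← map_commutator]), hC, relIndex_inf_left, relIndex_comap]
  have kχ : ¬ L ≤ charKer (fun g : G => χ g) := fun l => k (by
    rw [map_le_iff_le_comap, ← charKer_comp _ hπ]; exact l)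
  refine ⟨C, O[{q}](L), O[{q}ᶜ](L), q, h.nN, nY, nC, (nml_top (K := L)).pcore.normal, hq, h.hr, LC, inf_le_left, CC, CY,
    nil.le_pcore YL qY, pcore_pi, nil.pcore_sup, cent_symm pcore_cent_compl, Y0, fun l => Y0 ?_, fun n hn u hu k => ?_,
    fun n hn u hu u1 e => ?_, h.rc, fun d => ?_, ⟨x, PN hx, nx⟩, h.cam, h.cl, ⟨_, hχ.inflate, dχ⟩, h.nd⟩
  · have a : ⁅O[{q}ᶜ](L) ⊔ O[{q}](L), O[{q}ᶜ](L) ⊔ O[{q}](L)⁆ ≤ O[{q}ᶜ](L) ⊔ ⁅O[{q}](L), O[{q}](L)⁆ :=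
      der_sup_le (cent_norm pcore_cent_compl)
    rw [sup_comm O[{q}ᶜ](L) O[{q}](L), nil.pcore_sup, ← hY,
      comm_eq_bot_iff.2 ((l.trans YZ).trans (C_anti pcore_le)), sup_bot_eq] at a
    exact qY.eq_bot (pcore_pi.of_le a)
  · refine or_iff_not_imp_left.2 fun l => mC hn (A.sr _ (mem_map_of_mem _ hn) _ (mem_map_of_mem _ hu) (mt kq.2 l) ?_)
    rw [← commutatorElement_eq_one_iff_mul_comm, ← map_commutatorElement]
    exact kq.1 k
  · have nn : (Y ⊓ C1(n)).Normal := ⟨fun z hz g => ⟨nY.conj_mem z hz.1 g, by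
      obtain ⟨m, hm, e⟩ := h.cl g z (YL hz.1)
      have a := mem_C.1 (CY (LC (commutator_mem_commutator (inv_mem hn) (inv_mem hm)))) z hz.1
      have b := mem_C1.1 hz.2
      rw [e]
      refine mem_C1.2 ?_
      simp only [commutatorElement_def, inv_inv] at a
      calc m * z * m⁻¹ * n = m * (z * n) * (n⁻¹ * m⁻¹ * n * m) * m⁻¹ := by group
        _ = m * n * (z * (n⁻¹ * m⁻¹ * n * m)) * m⁻¹ := by rw [b]; group
        _ = n * (m * z * m⁻¹) := by rw [a]; group⟩⟩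
    exact le_C1_iff.1 (inf_eq_left.1 (mn _ nn inf_le_left (ne_bot_of_mem ⟨hu, mem_C1.2 e.symm⟩ u1)))
  · exact h.hr.ne_one (Nat.eq_one_of_dvd_coprimes (h.cop _ hχ.inflate kχ) (dχ ▸ d) h.rN)

theorem co_false (hT : PT.{u}) (hF : PF.{u}) (hS : PS.{u}) (hE : PE.{u}) {Y C Q B : Subgroup G} {q : ℕ}
    (h : Co N Y C Q B c q r) : False := by
  have := h.nC
  obtain ⟨θ, hθ, k⟩ : ∃ θ : C → ℂ, IsIrrCharacter C θ ∧ ¬ Y.subgroupOf C ≤ charKer θ := by
    by_contra! k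
    have := eq_bot_of_forall_ker k
    rw [subgroupOf_eq_bot, disjoint_iff, inf_eq_left.2 (h.CC.ge.trans der_le)] at this
    exact h.Y0 this
  obtain ⟨t, a, b, d, -⟩ := hT G N Y C Q B c q r h θ hθ k
  obtain ⟨x, hx, xY⟩ := SetLike.not_le_iff_exists.1 h.QY
  obtain ⟨S, s1, s2, s3⟩ := hS G N Y C Q B c t x q r h a b d (hE G N Y C Q B c q r h) hx xY
  exact hF G N Y C Q B S c x q r h (h.sup ▸ mem_sup_left hx) xY s1 s2 s3

theorem abel (hT : PT.{u}) (hF : PF.{u}) (hS : PS.{u}) (hE : PE.{u}) (n : ℕ) : ∀ (G : Type u) [Group G] [Finite G]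
    (N M P : Subgroup G) (c : G), Nat.card G = n → Hs N M P c p r → Abel (⁅N, N⁆ ⊓ M) := by
  induction n using Nat.strong_induction_on with
  | _ n ih =>
  intro G _ _ N M P c e h
  have := h.nN
  have := h.nM
  refine abel_iff_der.2 (by_contra fun Y0 => ?_)
  obtain ⟨C, Q, B, q, k⟩ := setup h _ rfl Y0 fun K nK l K0 => le_antisymm l (by
    obtain ⟨h1, e1⟩ := H23.NdQ.pQ G N M P K c p r h (l.trans der_le)
    have := (ih _ (by
      rw [← e, ← K.card_mul_index]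
      exact lt_mul_of_one_lt_left (Nat.pos_of_ne_zero index_ne_zero_of_finite) (one_lt_card K0)) _ _ _ _ _ rfl h1).der
    rwa [e1, ← map_commutator, Subgroup.map_eq_bot_iff, QuotientGroup.ker_mk'] at this)
  exact co_false hT hF hS hE k

theorem one (hT : PT.{u}) (hF : PF.{u}) (hS : PS.{u}) (hE : PE.{u}) (h : Hs N M P c p r) : One N := by
  have := h.nN
  have := h.nM
  intro χ ψ hχ hψ kχ kψ
  by_cases l0 : ⁅N, N⁆ ⊓ M = ⊥
  · have MN : M ≤ N := h.sup ▸ le_sup_left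
    have a : ⁅M, M⁆ = ⊥ := le_bot_iff.1 ((le_inf (der_mono MN) der_le).trans l0.le)
    have key : ∀ χ, IsIrrCharacter G χ → ¬ ⁅N, N⁆ ≤ charKer χ → charDegree χ ≠ 1 ∧ ∃ k, charDegree χ = p ^ k :=
      fun χ hχ k => ⟨(not_le_ker_iff hχ).1 fun l => k ((der_mono le_top).trans l), by
        have d := deg_dvd_index_of_comm hχ M (a.le.trans bot_le)
        rw [← relIndex_mul_index MN] at d
        have d' := (h.cop χ hχ k).dvd_of_dvd_mul_right d
        rw [← h.sup, relIndex_sup_left] at d'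
        exact (h.piP.relIndex.of_dvd d').eq_pow hχ.charDegree_pos.ne'⟩
    obtain ⟨a1, i, hi⟩ := key χ hχ kχ
    obtain ⟨a2, j, hj⟩ := key ψ hψ kψ
    rcases le_total i j with l | l
    · exact h.nd χ ψ hχ hψ a1 (hi ▸ hj ▸ pow_dvd_pow p l)
    · exact (h.nd ψ χ hψ hχ a2 (hi ▸ hj ▸ pow_dvd_pow p l)).symm
  · have A := H19.Nd.pA _ _ _ _ _ _ _ h l0 (H21.Nd.pD _ _ _ _ _ _ _ h (abel hT hF hS hE _ G N M P c rfl h))
    rw [A.deg χ hχ kχ, A.deg ψ hψ kψ]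

end H2.Nd
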