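import Mathlib
import Cfsg.Agent.S4931

/-! S4930: assembly. -/
set_option autoImplicit false
namespace H2.OdA
open Subgroup Cfsg

theorem asm {G : Type*} [Group G] [Finite G] (P : Sylow 2 G) (A B : ℕ)
    (hD : Nat.card (normalizer ((P : Subgroup G) : Set G)) =
      Nat.card (_root_.commutator ((P : Subgroup G).subgroupOf (normalizer ((P : Subgroup G) : Set G)))) * A)
    (hIE : A ≤ B ∧ (A = B → ∀ θ : IrrCharacter (normalizer ((P : Subgroup G) : Set G)), ¬ 2 ∣ charDegree θ.1 →
      ∃ χ : IrrCharacter G, ∀ x : normalizer ((P : Subgroup G) : Set G), χ.1 x = θ.1 x))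
    (hC : ∀ (K : Subgroup G) [K.Normal], K ⊓ normalizer ((P : Subgroup G) : Set G) = ⊥ →
      K ⊔ normalizer ((P : Subgroup G) : Set G) = ⊤ → B ≤ A) :
    Nat.card (normalizer ((P : Subgroup G) : Set G)) ≤ Nat.card (_root_.commutator ↥P) * B ∧
    (Nat.card (normalizer ((P : Subgroup G) : Set G)) = Nat.card (_root_.commutator ↥P) * B ↔
      ∃ K : Subgroup G, K.Normal ∧ K ⊓ normalizer ((P : Subgroup G) : Set G) = ⊥ ∧
        K ⊔ normalizer ((P : Subgroup G) : Set G) = ⊤) := by
  have e := subgroupOfEquivOfLe (le_normalizer : (P : Subgroup G) ≤ normalizer ((P : Subgroup G) : Set G))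
  have hc : Nat.card (_root_.commutator ((P : Subgroup G).subgroupOf (normalizer ((P : Subgroup G) : Set G)))) =
      Nat.card (_root_.commutator ↥P) := by
    have h1 : (_root_.commutator ((P : Subgroup G).subgroupOf (normalizer ((P : Subgroup G) : Set G)))).map
        e.toMonoidHom = _root_.commutator ↥(P : Subgroup G) := by
      rw [_root_.commutator_def, map_commutator, map_top_of_surjective _ e.surjective, ← _root_.commutator_def]
    rw [← card_map_of_injective (f := e.toMonoidHom) e.injective, h1]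
    rfl
  rw [hc] at hD
  have hpos : 0 < Nat.card (_root_.commutator ↥P) := Nat.card_pos
  refine ⟨hD ▸ Nat.mul_le_mul_left _ hIE.1, fun h => ?_, fun ⟨K, hK, h1, h2⟩ => ?_⟩
  · have hAB : A = B := Nat.eq_of_mul_eq_mul_left hpos (hD.symm.trans h)
    obtain ⟨K, hK, h1, h2⟩ := (Cfsg.Agent.S4931.result 2 P).1 (hIE.2 hAB)
    exact ⟨K, hK, h2, h1⟩
  · rw [hD, le_antisymm hIE.1 (hC K h1 h2)]

end H2.OdA
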