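import Mathlib.GroupTheory.GroupAction.Primitive
import Cfsg.Agent.H2.Frattini

/-! Point stabilizers of faithful primitive actions are core-free maximal subgroups:
`normalCore_stabilizer_eq_bot`, `nontrivial_of_faithful`, `pretransitive_of_sup_stabilizer`. -/

set_option autoImplicit false
open Subgroup MulAction

namespace H2

variable {G : Type*} [Group G] {Ω : Type*} [MulAction G Ω]

theorem normalCore_stabilizer_eq_bot [FaithfulSMul G Ω] [IsPretransitive G Ω] (ω : Ω) :
    (stabilizer G ω).normalCore = ⊥ := by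
  rw [eq_bot_iff]
  intro g hg
  refine mem_bot.mpr (FaithfulSMul.eq_of_smul_eq_smul (α := Ω) fun x => ?_)
  obtain ⟨a, rfl⟩ := exists_smul_eq G ω x
  have := mem_stabilizer_iff.mp (hg a⁻¹)
  rw [inv_inv, mul_smul, mul_smul, inv_smul_eq_iff] at this
  rw [this, one_smul]

theorem nontrivial_of_faithful [FaithfulSMul G Ω] {M : Subgroup G} (hM : M ≠ ⊥) : Nontrivial Ω := by
  by_contra h
  have := not_nontrivial_iff_subsingleton.mp h
  exact hM (eq_bot_iff.mpr fun g _ => mem_bot.mpr
    (FaithfulSMul.eq_of_smul_eq_smul (α := Ω) fun x => Subsingleton.elim _ _))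

theorem pretransitive_of_sup_stabilizer [IsPretransitive G Ω] {M : Subgroup G} [M.Normal] (ω : Ω)
    (h : M ⊔ stabilizer G ω = ⊤) : IsPretransitive M Ω := by
  have key : ∀ x : Ω, ∃ m : M, m • ω = x := by
    intro x
    obtain ⟨g, rfl⟩ := exists_smul_eq G ω x
    obtain ⟨m, hm, y, hy, rfl⟩ := (mem_sup_of_le_normalizer (N := M) (H := stabilizer G ω)
      le_normalizer_of_normal (x := g)).mp (h ▸ mem_top g)
    exact ⟨⟨m, hm⟩, by rw [mul_smul, mem_stabilizer_iff.mp hy]; rfl⟩
  refine ⟨fun x y => ?_⟩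
  obtain ⟨a, rfl⟩ := key x
  obtain ⟨b, rfl⟩ := key y
  exact ⟨b * a⁻¹, by rw [mul_smul, inv_smul_smul]⟩

end H2
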