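import Mathlib

/-! A concrete model `Wr` of the wreath product `D₈ ≀ 2` (order 128), its two normal elementary abelian
subgroups of order 16, and the identification with a Sylow 2-subgroup of `S₈`. -/

set_option autoImplicit false

namespace H2.Wr

/-- The dihedral group of order 8 as the Heisenberg group over `F₂`. -/
structure D where
  a : Bool
  b : Bool
  z : Bool

instance instDecEqD : DecidableEq D := fun x y =>
  decidable_of_iff (x.a = y.a ∧ x.b = y.b ∧ x.z = y.z) (by cases x; cases y; simp)
instance instDecForallD (p : D → Prop) [DecidablePred p] : Decidable (∀ x, p x) :=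
  decidable_of_iff (∀ a b z : Bool, p ⟨a, b, z⟩)
    ⟨fun h x => h x.1 x.2 x.3, fun h a b z => h ⟨a, b, z⟩⟩
/-- coordinates -/
def eD : D ≃ Bool × Bool × Bool where
  toFun x := (x.a, x.b, x.z)
  invFun x := ⟨x.1, x.2.1, x.2.2⟩
  left_inv _ := rfl
  right_inv _ := rfl
instance instFintypeD : Fintype D := Fintype.ofEquiv _ eD.symm

instance instMulD : Mul D :=
  ⟨fun x y => ⟨xor x.a y.a, xor x.b y.b, xor (xor x.z y.z) (x.a && y.b)⟩⟩
instance instOneD : One D := ⟨⟨false, false, false⟩⟩
instance instInvD : Inv D := ⟨fun x => ⟨x.a, x.b, xor x.z (x.a && x.b)⟩⟩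

instance instGroupD : Group D :=
  Group.ofLeftAxioms (by decide +kernel) (by decide +kernel) (by decide +kernel)

/-- The wreath product `D₈ ≀ 2`. -/
structure W where
  x : D
  y : D
  e : Bool

instance instDecEqW : DecidableEq W := fun u v =>
  decidable_of_iff (u.x = v.x ∧ u.y = v.y ∧ u.e = v.e) (by cases u; cases v; simp)
instance instDecForallW (p : W → Prop) [DecidablePred p] : Decidable (∀ x, p x) :=
  decidable_of_iff (∀ (a b : D) (z : Bool), p ⟨a, b, z⟩)
    ⟨fun h x => h x.1 x.2 x.3, fun h a b z => h ⟨a, b, z⟩⟩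
/-- coordinates -/
def eW : W ≃ D × D × Bool where
  toFun u := (u.x, u.y, u.e)
  invFun u := ⟨u.1, u.2.1, u.2.2⟩
  left_inv _ := rfl
  right_inv _ := rfl
instance instFintypeW : Fintype W := Fintype.ofEquiv _ eW.symm

instance instMulW : Mul W :=
  ⟨fun u v => cond u.e ⟨u.x * v.y, u.y * v.x, !v.e⟩ ⟨u.x * v.x, u.y * v.y, v.e⟩⟩
instance instOneW : One W := ⟨⟨1, 1, false⟩⟩
instance instInvW : Inv W := ⟨fun u => cond u.e ⟨u.y⁻¹, u.x⁻¹, true⟩ ⟨u.x⁻¹, u.y⁻¹, false⟩⟩

theorem mul_def (u v : W) : u * v =
    cond u.e ⟨u.x * v.y, u.y * v.x, !v.e⟩ ⟨u.x * v.x, u.y * v.y, v.e⟩ :=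
  rfl

instance instGroupW : Group W :=
  Group.ofLeftAxioms
    (by
      rintro ⟨a, b, e⟩ ⟨a', b', e'⟩ ⟨a'', b'', e''⟩
      cases e <;> cases e' <;> cases e'' <;>
        simp only [mul_def, cond, mul_assoc, Bool.not_true, Bool.not_false])
    (by decide +kernel) (by decide +kernel)

theorem card_W : Nat.card W = 128 := by
  rw [Nat.card_congr eW, Nat.card_prod, Nat.card_prod, Nat.card_congr eD]; simp

/-- named elements -/
def a1 : W := ⟨⟨true, false, false⟩, ⟨false, false, false⟩, false⟩
def a2 : W := ⟨⟨false, false, false⟩, ⟨true, false, false⟩, false⟩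
def b1 : W := ⟨⟨false, true, false⟩, ⟨false, false, false⟩, false⟩
def b2 : W := ⟨⟨false, false, false⟩, ⟨false, true, false⟩, false⟩
def z1 : W := ⟨⟨false, false, true⟩, ⟨false, false, false⟩, false⟩
def z2 : W := ⟨⟨false, false, false⟩, ⟨false, false, true⟩, false⟩
def z : W := ⟨⟨false, false, true⟩, ⟨false, false, true⟩, false⟩
def c : W := ⟨⟨false, false, false⟩, ⟨false, false, false⟩, true⟩

/-- membership tests -/
def inA (u : W) : Bool := !u.e && !u.x.b && !u.y.b
def inB (u : W) : Bool := !u.e && !u.x.a && !u.y.a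
def inW (u : W) : Bool := !u.e
def inH (u : W) : Bool := !u.e && !u.x.b && !u.x.z

/-- a subgroup from a Boolean test -/
def sub (f : W → Bool) (h1 : f 1 = true) (hm : ∀ x y, f x = true → f y = true → f (x * y) = true)
    (hi : ∀ x, f x = true → f x⁻¹ = true) : Subgroup W where
  carrier := {x | f x = true}
  one_mem' := h1
  mul_mem' := fun {x y} hx hy => hm x y hx hy
  inv_mem' := fun {x} hx => hi x hx

theorem card_sub (f : W → Bool) (h1 hm hi) :
    Nat.card (sub f h1 hm hi) = (Finset.univ.filter (fun x => f x = true)).card := by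
  rw [← Fintype.card_subtype, ← Nat.card_eq_fintype_card]; rfl

def A0 : Subgroup W := sub inA (by decide +kernel) (by decide +kernel) (by decide +kernel)
def B0 : Subgroup W := sub inB (by decide +kernel) (by decide +kernel) (by decide +kernel)
def W0 : Subgroup W := sub inW (by decide +kernel) (by decide +kernel) (by decide +kernel)
def H0 : Subgroup W := sub inH (by decide +kernel) (by decide +kernel) (by decide +kernel)
def U0 : Subgroup W :=
  sub (fun x => inA x && inB x) (by decide +kernel) (by decide +kernel) (by decide +kernel)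

theorem mem_A0 {x : W} : x ∈ A0 ↔ inA x = true := Iff.rfl
theorem mem_B0 {x : W} : x ∈ B0 ↔ inB x = true := Iff.rfl
theorem mem_W0 {x : W} : x ∈ W0 ↔ inW x = true := Iff.rfl
theorem mem_H0 {x : W} : x ∈ H0 ↔ inH x = true := Iff.rfl
theorem mem_U0 {x : W} : x ∈ U0 ↔ (inA x && inB x) = true := Iff.rfl

theorem card_A0 : Nat.card A0 = 16 := by unfold A0; rw [card_sub]; decide +kernel
theorem card_B0 : Nat.card B0 = 16 := by unfold B0; rw [card_sub]; decide +kernel
theorem card_W0 : Nat.card W0 = 64 := by unfold W0; rw [card_sub]; decide +kernel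
theorem card_H0 : Nat.card H0 = 16 := by unfold H0; rw [card_sub]; decide +kernel
theorem card_U0 : Nat.card U0 = 4 := by unfold U0; rw [card_sub]; decide +kernel

theorem A0_conj : ∀ g x : W, inA x = true → inA (g * x * g⁻¹) = true := by decide +kernel
theorem B0_conj : ∀ g x : W, inB x = true → inB (g * x * g⁻¹) = true := by decide +kernel
theorem A0_comm : ∀ x y : W, inA x = true → inA y = true → x * y = y * x := by decide +kernel
theorem B0_comm : ∀ x y : W, inB x = true → inB y = true → x * y = y * x := by decide +kernel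
theorem A0_sq : ∀ x : W, inA x = true → x * x = 1 := by decide +kernel
theorem B0_sq : ∀ x : W, inB x = true → x * x = 1 := by decide +kernel

theorem good_AB : ∀ v : W, v * v = 1 → (∀ g : W, v * (g * v * g⁻¹) = (g * v * g⁻¹) * v) →
    inA v = true ∨ inB v = true := by decide +kernel

theorem mix_AB : ∀ v w : W, inA v = true → inB w = true → v * w = w * v →
    v * (c * w * c⁻¹) = (c * w * c⁻¹) * v → inB v = true ∨ inA w = true := by decide +kernel

/-- The normal elementary abelian subgroups of order 16. -/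
theorem classify (V : Subgroup W) (hn : ∀ g : W, ∀ v ∈ V, g * v * g⁻¹ ∈ V)
    (hc : ∀ x ∈ V, ∀ y ∈ V, x * y = y * x) (hs : ∀ x ∈ V, x * x = 1) (h16 : Nat.card V = 16) :
    V = A0 ∨ V = B0 := by
  have hg : ∀ v ∈ V, inA v = true ∨ inB v = true := fun v hv =>
    good_AB v (hs v hv) (fun g => hc _ hv _ (hn g v hv))
  by_cases hA : V ≤ A0
  · exact Or.inl (Subgroup.eq_of_le_of_card_ge hA (by rw [h16, card_A0]))
  · right
    obtain ⟨w, hw, hwA⟩ := SetLike.not_le_iff_exists.1 hA
    have hwB : inB w = true := (hg w hw).resolve_left hwA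
    refine Subgroup.eq_of_le_of_card_ge (fun v hv => ?_) (by rw [h16, card_B0])
    rcases hg v hv with h | h
    · exact (mix_AB v w h hwB (hc _ hv _ hw) (hc _ hv _ (hn c w hw))).resolve_right hwA
    · exact h

theorem center_iff : ∀ x : W, (∀ g : W, g * x = x * g) ↔ (x = 1 ∨ x = z) := by decide +kernel

theorem z_ne_one : z ≠ 1 := by decide +kernel

theorem card_center : Nat.card (Subgroup.center W) = 2 := by
  have : (Subgroup.center W : Set W) = {1, z} := by
    ext x; simp only [SetLike.mem_coe, Subgroup.mem_center_iff, center_iff, Set.mem_insert_iff,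
      Set.mem_singleton_iff]
  rw [← SetLike.coe_sort_coe, this, Nat.card_coe_set_eq, Set.ncard_pair z_ne_one.symm]

theorem core_H0 : ∀ x : W, (∀ g : W, inH (g * x * g⁻¹) = true) → x = 1 := by decide +kernel

/-- A group of order 128 acting faithfully on 8 points is a Sylow 2-subgroup of `S₈`. -/
theorem exists_sylow {G X : Type*} [Group G] [Finite X] (hG : Nat.card G = 128) (hX : Nat.card X = 8)
    (f : G →* Equiv.Perm X) (hf : Function.Injective f) :
    ∃ T : Sylow 2 (Equiv.Perm (Fin 8)), Nonempty (G ≃* (T : Subgroup (Equiv.Perm (Fin 8)))) := by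
  classical
  have e : X ≃ Fin 8 := (Finite.equivFinOfCardEq hX)
  let g : G →* Equiv.Perm (Fin 8) := (e.permCongrHom : Equiv.Perm X ≃* Equiv.Perm (Fin 8)).toMonoidHom.comp f
  have hg : Function.Injective g := (e.permCongrHom).injective.comp hf
  have hc : Nat.card g.range = 2 ^ (Nat.card (Equiv.Perm (Fin 8))).factorization 2 := by
    rw [← Nat.card_congr (MonoidHom.ofInjective hg).toEquiv, hG, Nat.card_perm, Nat.card_fin]
    have : (Nat.factorial 8) = 2 ^ 7 * 315 := by decide +kernel
    rw [this, Nat.factorization_mul (by norm_num) (by norm_num), Nat.Prime.factorization_pow Nat.prime_two]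
    have : (315 : ℕ).factorization 2 = 0 := Nat.factorization_eq_zero_of_not_dvd (by norm_num)
    simp [this]
  exact ⟨Sylow.ofCard g.range hc, ⟨MonoidHom.ofInjective hg⟩⟩

theorem exists_equiv (T : Sylow 2 (Equiv.Perm (Fin 8))) :
    Nonempty (W ≃* (T : Subgroup (Equiv.Perm (Fin 8)))) := by
  have hX : Nat.card (W ⧸ H0) = 8 := by
    have := Subgroup.card_eq_card_quotient_mul_card_subgroup H0
    rw [card_W, card_H0] at this; omega
  have hf : Function.Injective (MulAction.toPermHom W (W ⧸ H0)) := by
    rw [← MonoidHom.ker_eq_bot_iff, ← Subgroup.normalCore_eq_ker, eq_bot_iff]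
    intro x hx
    exact core_H0 x hx
  obtain ⟨T', ⟨e⟩⟩ := exists_sylow card_W hX _ hf
  exact ⟨e.trans (Sylow.equiv T' T)⟩

end H2.Wr
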