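import Cfsg.Agent.H2.Wr1
import Cfsg.Agent.H2.Subnormal
import Cfsg.Prelude.Def_CaseTheorems

/-! Automorphisms of `D₈ ≀ 2` and overgroups of sectional rank at most four:
`aut_cases`, `aut_sq`, `sec_le`, `mem_of_pres`. -/

set_option autoImplicit false

namespace H2.Wr

theorem U_elts : ∀ x : W, inA x = true → inB x = true → x = 1 ∨ x = z1 ∨ x = z2 ∨ x = z := by
  decide +kernel

theorem fix_mod : ∀ x : W, inA x = true → ∀ y : W, inB y = true → x * y = y * x * z1 →
    ∀ y' : W, inB y' = true → x * y' = y' * x → ∀ x' : W, inA x' = true → x' * y' = y' * x' * z2 →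
    x' * y = y * x' → (inA (a1⁻¹ * x) = true ∧ inB (a1⁻¹ * x) = true) ∧
      (inA (a2⁻¹ * x') = true ∧ inB (a2⁻¹ * x') = true) ∧
      (inA (b1⁻¹ * y) = true ∧ inB (b1⁻¹ * y) = true) ∧
      (inA (b2⁻¹ * y') = true ∧ inB (b2⁻¹ * y') = true) := by
  decide +kernel

theorem cent_U : ∀ x : W, x * a1 = a1 * x → x * a2 = a2 * x → x * b1 = b1 * x → x * b2 = b2 * x →
    (inA x && inB x) = true := by decide +kernel

theorem inW_z1 : ∀ x : W, inW x = true ↔ x * z1 = z1 * x := by decide +kernel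
theorem inW_z2 : ∀ x : W, inW x = true ↔ x * z2 = z2 * x := by decide +kernel

theorem ker_X : ∀ w : W, (∀ t : W, t * t = 1 → inW t = false → w * t * w⁻¹ = t) → w = 1 ∨ w = z := by
  decide +kernel

theorem card_X : Nat.card {t : W // t * t = 1 ∧ inW t = false} = 8 := by
  rw [Nat.card_eq_fintype_card, Fintype.card_subtype]; decide +kernel

/-- `α` preserves both normal `E₁₆`'s. -/
def Pres (α : MulAut W) : Prop :=
  (∀ w, inA (α w) = true ↔ inA w = true) ∧ (∀ w, inB (α w) = true ↔ inB w = true)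

/-- `α` swaps the normal `E₁₆`'s. -/
def Swap (α : MulAut W) : Prop :=
  (∀ w, inB (α w) = true ↔ inA w = true) ∧ (∀ w, inA (α w) = true ↔ inB w = true)

theorem comap_cases (α : MulAut W) (V : Subgroup W) (hn : ∀ g : W, ∀ v ∈ V, g * v * g⁻¹ ∈ V)
    (hc : ∀ x ∈ V, ∀ y ∈ V, x * y = y * x) (hs : ∀ x ∈ V, x * x = 1) (h16 : Nat.card V = 16) :
    (∀ w, α w ∈ V ↔ inA w = true) ∨ (∀ w, α w ∈ V ↔ inB w = true) := by
  have := classify (V.comap α.toMonoidHom) (fun g v hv => by
      simp only [Subgroup.mem_comap, MulEquiv.coe_toMonoidHom, map_mul, map_inv] at hv ⊢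
      exact hn _ _ hv)
    (fun x hx y hy => α.injective (by rw [map_mul, map_mul]; exact hc _ hx _ hy))
    (fun x hx => α.injective (by rw [map_mul, map_one]; exact hs _ hx))
    (by rw [← h16, Subgroup.comap_equiv_eq_map_symm']; exact Subgroup.card_map_of_injective α.symm.injective)
  rcases this with h | h
  · exact Or.inl fun w => by rw [← mem_A0, ← h]; rfl
  · exact Or.inr fun w => by rw [← mem_B0, ← h]; rfl

theorem aut_cases (α : MulAut W) : Pres α ∨ Swap α := by
  have hA := comap_cases α A0 A0_conj (fun x hx y hy => A0_comm x y hx hy) A0_sq card_A0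
  have hB := comap_cases α B0 B0_conj (fun x hx y hy => B0_comm x y hx hy) B0_sq card_B0
  simp only [mem_A0, mem_B0] at hA hB
  have ha : inA a1 = true := by decide +kernel
  have ha' : ¬ inB a1 = true := by decide +kernel
  have hb : inB b1 = true := by decide +kernel
  have hb' : ¬ inA b1 = true := by decide +kernel
  rcases hA with hA | hA <;> rcases hB with hB | hB
  · exfalso
    have h1 := (hA (α.symm a1)).1 (by simpa using ha)
    have h2 := (hB (α.symm a1)).2 h1
    exact ha' (by simpa using h2)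
  · exact Or.inl ⟨hA, hB⟩
  · exact Or.inr ⟨hB, hA⟩
  · exfalso
    have h1 := (hA (α.symm a1)).1 (by simpa using ha)
    have h2 := (hB (α.symm a1)).2 h1
    exact ha' (by simpa using h2)

theorem aut_z (α : MulAut W) : α z = z := by
  have h : ∀ g : W, g * α z = α z * g := fun g => by
    have := (center_iff z).2 (Or.inr rfl) (α.symm g)
    have h2 := congrArg α this
    simpa using h2
  rcases (center_iff _).1 h with h | h
  · exact absurd (α.injective (h.trans (map_one α).symm)) z_ne_one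
  · exact h

theorem aut_z1 (α : MulAut W) : α z1 = z1 ∨ α z1 = z2 := by
  have h1 : inA z1 = true := by decide +kernel
  have h2 : inB z1 = true := by decide +kernel
  have h3 : inA (α z1) = true ∧ inB (α z1) = true := by
    rcases aut_cases α with h | h
    · exact ⟨(h.1 _).2 h1, (h.2 _).2 h2⟩
    · exact ⟨(h.2 _).2 h2, (h.1 _).2 h1⟩
  rcases U_elts _ h3.1 h3.2 with h | h | h | h
  · exact absurd (α.injective (h.trans (map_one α).symm)) (by decide +kernel)
  · exact Or.inl h
  · exact Or.inr h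
  · exact absurd (α.injective (h.trans (aut_z α).symm)) (by decide +kernel)

theorem aut_inW (α : MulAut W) (w : W) : inW (α w) = inW w := by
  have : inW (α w) = true ↔ inW w = true := by
    rw [inW_z1 w, ← α.injective.eq_iff, map_mul, map_mul]
    rcases aut_z1 α with h | h
    · rw [h, inW_z1]
    · rw [h, inW_z2]
  exact Bool.eq_iff_iff.2 this

theorem aut_U {α : MulAut W} (h1 : α z1 = z1) (u : W) (hA : inA u = true) (hB : inB u = true) :
    α u = u := by
  have h2 : α z2 = z2 := by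
    have : z2 = z1⁻¹ * z := by decide +kernel
    rw [this, map_mul, map_inv, h1, aut_z]
  rcases U_elts u hA hB with rfl | rfl | rfl | rfl
  · exact map_one α
  · exact h1
  · exact h2
  · exact aut_z α

theorem aut_sq {α : MulAut W} (hp : Pres α) (h1 : α z1 = z1) :
    α (α a1) = a1 ∧ α (α a2) = a2 ∧ α (α b1) = b1 ∧ α (α b2) = b2 := by
  have h2 : α z2 = z2 := aut_U h1 _ (by decide +kernel) (by decide +kernel)
  have key : ∀ x : W, inA (x⁻¹ * α x) = true ∧ inB (x⁻¹ * α x) = true → α (α x) = x := by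
    intro x hx
    have h3 := aut_U h1 _ hx.1 hx.2
    have h4 := A0_sq _ hx.1
    rw [map_mul, map_inv] at h3
    calc α (α x) = α x * ((α x)⁻¹ * α (α x)) := by group
      _ = x * ((x⁻¹ * α x) * (x⁻¹ * α x)) := by rw [h3]; group
      _ = x := by rw [h4, mul_one]
  have := fix_mod (α a1) ((hp.1 _).2 (by decide +kernel)) (α b1) ((hp.2 _).2 (by decide +kernel))
    (by rw [← h1, ← map_mul, ← map_mul, ← map_mul]; congr 1)
    (α b2) ((hp.2 _).2 (by decide +kernel))
    (by rw [← map_mul, ← map_mul]; congr 1)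
    (α a2) ((hp.1 _).2 (by decide +kernel))
    (by rw [← h2, ← map_mul, ← map_mul, ← map_mul]; congr 1)
    (by rw [← map_mul, ← map_mul]; congr 1)
  exact ⟨key _ this.1, key _ this.2.1, key _ this.2.2.1, key _ this.2.2.2⟩

section
variable {S : Type*} [Group S] [Finite S]

/-- a section of exponent 2 has order at most 16 -/
theorem sec_le (hr : Cfsg.SectionalPRankLE 2 4 S) (H K : Subgroup S) (hKH : K ≤ H)
    (hsq : ∀ x ∈ H, x * x ∈ K) (hn : ∀ x ∈ H, ∀ k ∈ K, x * k * x⁻¹ ∈ K) :
    Nat.card H ≤ 16 * Nat.card K := by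
  haveI hN : (K.subgroupOf H).Normal := ⟨fun k hk x => hn x x.2 k hk⟩
  have h2 : ∀ q : H ⧸ K.subgroupOf H, q * q = 1 := by
    intro q
    obtain ⟨x, rfl⟩ := QuotientGroup.mk_surjective q
    rw [← QuotientGroup.mk_mul, QuotientGroup.eq_one_iff]
    exact hsq x x.2
  have := hr H (K.subgroupOf H) ⊤ ⟨⟨fun a b => Subtype.ext (by
      have h1 := h2 (a.1 * b.1)
      have ha := h2 a.1
      have hb := h2 b.1
      calc a.1 * b.1 = (a.1 * b.1)⁻¹ := eq_inv_of_mul_eq_one_left h1
        _ = b.1⁻¹ * a.1⁻¹ := mul_inv_rev _ _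
        _ = b.1 * a.1 := by rw [← eq_inv_of_mul_eq_one_left ha, ← eq_inv_of_mul_eq_one_left hb])⟩⟩ (fun a _ => by rw [pow_two]; exact h2 a)
  rw [Subgroup.card_top] at this
  rw [Subgroup.card_eq_card_quotient_mul_card_subgroup (K.subgroupOf H),
    Nat.card_congr (Subgroup.subgroupOfEquivOfLe hKH).toEquiv]
  exact Nat.mul_le_mul_right _ (by simpa using this)

omit [Finite S] in
theorem exists_sq_mem (P : Subgroup S) (x : S) (hx : x ∉ P) :
    ∀ k : ℕ, x ^ 2 ^ k ∈ P → ∃ j : ℕ, x ^ j ∉ P ∧ x ^ j * x ^ j ∈ P := by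
  intro k
  induction k with
  | zero => intro h; exact absurd (by simpa using h) hx
  | succ k ih =>
    intro h
    by_cases h' : x ^ 2 ^ k ∈ P
    · exact ih h'
    · exact ⟨2 ^ k, h', by rw [← pow_add, ← two_mul, mul_comm, ← pow_succ]; exact h⟩

/-- The key lemma: an element normalizing `P ≅ D₈ ≀ 2` and both normal `E₁₆`'s lies in `P`. -/
theorem mem_of_pres (h2 : IsPGroup 2 S) (hr : Cfsg.SectionalPRankLE 2 4 S) (ι : W →* S)
    (hι : Function.Injective ι) (N : Subgroup S) (hPN : ι.range ≤ N) (ψ : N →* MulAut W)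
    (hψ : ∀ (n : N) (w : W), ι (ψ n w) = n * ι w * (n : S)⁻¹) (n : N) (hn : Pres (ψ n)) :
    (n : S) ∈ ι.range := by
  by_contra hnP
  obtain ⟨k, hk⟩ := h2 (n : S)
  obtain ⟨j, hj, hj2⟩ := exists_sq_mem ι.range n hnP k (by rw [hk]; exact one_mem _)
  have hconj : ∀ (m : N) (x : S), x ∈ ι.range → m * x * (m : S)⁻¹ ∈ ι.range := by
    rintro m x ⟨w, rfl⟩; exact ⟨ψ m w, hψ m w⟩
  have hψι : ∀ (w v : W), ψ ⟨ι w, hPN ⟨w, rfl⟩⟩ v = w * v * w⁻¹ := fun w v =>
    hι (by rw [hψ, map_mul, map_mul, map_inv])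
  have pmul : ∀ a b : N, Pres (ψ a) → Pres (ψ b) → Pres (ψ (a * b)) := fun a b ha hb =>
    ⟨fun w => by rw [map_mul, MulAut.mul_apply, ha.1, hb.1],
      fun w => by rw [map_mul, MulAut.mul_apply, ha.2, hb.2]⟩
  have pinv : ∀ a : N, Pres (ψ a) → Pres (ψ a⁻¹) := fun a ha =>
    ⟨fun w => by rw [← ha.1, ← MulAut.mul_apply, ← map_mul, mul_inv_cancel, map_one, MulAut.one_apply],
      fun w => by rw [← ha.2, ← MulAut.mul_apply, ← map_mul, mul_inv_cancel, map_one, MulAut.one_apply]⟩
  have pone : Pres (ψ 1) := ⟨fun w => by rw [map_one, MulAut.one_apply],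
    fun w => by rw [map_one, MulAut.one_apply]⟩
  have ppow : ∀ i : ℕ, Pres (ψ (n ^ i)) := fun i => by
    induction i with
    | zero => rw [pow_zero]; exact pone
    | succ i ih => rw [pow_succ]; exact pmul _ _ ih hn
  have pι : ∀ w : W, Pres (ψ ⟨ι w, hPN ⟨w, rfl⟩⟩) := fun w =>
    ⟨fun v => by
      rw [hψι]
      exact ⟨fun h => by simpa [mul_assoc] using A0_conj w⁻¹ _ h, A0_conj w v⟩,
     fun v => by
      rw [hψι]
      exact ⟨fun h => by simpa [mul_assoc] using B0_conj w⁻¹ _ h, B0_conj w v⟩⟩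
  set g : N := n ^ j with hg
  have hgP : (g : S) ∉ ι.range := hj
  have hg2 : (g : S) * g ∈ ι.range := hj2
  have hgp : Pres (ψ g) := ppow j
  let T : Subgroup N :=
    { carrier := {x | Pres (ψ x) ∧ ψ x z1 = z1 ∧ ((x : S) ∈ ι.range ∨ (x : S) * g ∈ ι.range)}
      one_mem' := ⟨pone, by rw [map_one, MulAut.one_apply], Or.inl (one_mem _)⟩
      mul_mem' := by
        rintro a b ⟨ha1, ha2, ha3⟩ ⟨hb1, hb2, hb3⟩
        refine ⟨pmul _ _ ha1 hb1, by rw [map_mul, MulAut.mul_apply, hb2, ha2], ?_⟩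
        rcases ha3 with ha3 | ha3 <;> rcases hb3 with hb3 | hb3
        · exact Or.inl (mul_mem ha3 hb3)
        · right
          have := mul_mem ha3 hb3
          simpa [mul_assoc] using this
        · right
          have := mul_mem ha3 (hconj g⁻¹ _ hb3)
          simpa [mul_assoc] using this
        · left
          have := mul_mem (mul_mem ha3 (hconj g⁻¹ _ hb3)) (inv_mem hg2)
          simpa [mul_assoc] using this
      inv_mem' := by
        rintro a ⟨ha1, ha2, ha3⟩
        refine ⟨pinv _ ha1, ?_, ?_⟩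
        · conv_lhs => rw [← ha2]
          rw [← MulAut.mul_apply, ← map_mul, inv_mul_cancel, map_one, MulAut.one_apply]
        · rcases ha3 with ha3 | ha3
          · exact Or.inl (inv_mem ha3)
          · right
            have := hconj g⁻¹ _ (mul_mem hg2 (inv_mem ha3))
            simpa [mul_assoc] using this }
  have hmemT : ∀ x : N, x ∈ T ↔
    Pres (ψ x) ∧ ψ x z1 = z1 ∧ ((x : S) ∈ ι.range ∨ (x : S) * g ∈ ι.range) := fun _ => Iff.rfl
  have hWT : W0.map ι ≤ T.map N.subtype := by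
    rintro _ ⟨w, hw, rfl⟩
    refine ⟨⟨ι w, hPN ⟨w, rfl⟩⟩, (hmemT _).2 ⟨pι w, ?_, Or.inl ⟨w, rfl⟩⟩, rfl⟩
    rw [hψι, (inW_z1 w).1 hw]; group
  have hUW : U0.map ι ≤ W0.map ι := Subgroup.map_mono (fun x => by
    rw [mem_U0, mem_W0]; revert x; decide +kernel)
  have hle := sec_le hr (T.map N.subtype) (U0.map ι) (hUW.trans hWT) (by
      rintro _ ⟨x, hx, rfl⟩
      obtain ⟨h1, h3, h4⟩ := (hmemT x).1 hx
      have h5 : (x : S) * x ∈ ι.range := by
        rcases h4 with h4 | h4
        · exact mul_mem h4 h4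
        · have := mul_mem (mul_mem h4 (hconj g⁻¹ _ h4)) (inv_mem hg2)
          simpa [mul_assoc] using this
      obtain ⟨w, hw⟩ := h5
      have h6 : ∀ v : W, ψ x (ψ x v) = v → w * v = v * w := fun v hv => hι (by
        have := congrArg ι hv
        rw [hψ, hψ] at this
        rw [map_mul, map_mul, hw]
        conv_rhs => rw [← this]
        group)
      obtain ⟨e1, e2, e3, e4⟩ := aut_sq h1 h3
      exact ⟨w, cent_U w (h6 _ e1) (h6 _ e2) (h6 _ e3) (h6 _ e4), hw⟩) (by
      rintro _ ⟨x, hx, rfl⟩ _ ⟨u, hu, rfl⟩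
      obtain ⟨h1, h3, h4⟩ := (hmemT x).1 hx
      have hu' : (inA u && inB u) = true := hu
      rw [Bool.and_eq_true] at hu'
      refine ⟨u, hu, ?_⟩
      have := hψ x u
      rw [aut_U h3 u hu'.1 hu'.2] at this
      exact this)
  rw [Subgroup.card_map_of_injective hι, card_U0] at hle
  have heq : W0.map ι = T.map N.subtype := Subgroup.eq_of_le_of_card_ge hWT (by
    rw [Subgroup.card_map_of_injective hι, card_W0]; exact hle)
  have hTP : ∀ x : N, x ∈ T → (x : S) ∈ ι.range := fun x hx => by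
    have : (x : S) ∈ W0.map ι := heq ▸ ⟨x, hx, rfl⟩
    obtain ⟨w, -, hw⟩ := this
    exact ⟨w, hw⟩
  rcases aut_z1 (ψ g) with h | h
  · exact hgP (hTP g ((hmemT g).2 ⟨hgp, h, Or.inr hg2⟩))
  · have := hTP (⟨ι c, hPN ⟨c, rfl⟩⟩ * g) ((hmemT _).2 ⟨pmul _ _ (pι c) hgp, by
      rw [map_mul, MulAut.mul_apply, h, hψι]; decide +kernel, Or.inr (by
        have := mul_mem (show ι c ∈ ι.range from ⟨c, rfl⟩) hg2
        simpa [mul_assoc] using this)⟩)
    have h' := mul_mem (inv_mem (show ι c ∈ ι.range from ⟨c, rfl⟩)) this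
    exact hgP (by simpa using h')

end

end H2.Wr
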