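import Mathlib

/-! "Extraspecial sets" in a complex algebra: `ES e X` is a finite set `X` forming a group with
unit the idempotent `e`, squares `± e` and centre `± e`. For a group acting on the algebra,
`Impl e X T u` says `u` is a homomorphism from `T` to the span of `X` implementing the action on
`X`. Skolem–Noether (`ES.sn`), extension over cyclic quotients (`cyc_ext`), orthogonal sums
(`Impl.prod`), tensor induction (`tensor_ext`). -/

set_option autoImplicit false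
open Finset

namespace H2.Xs

variable {R : Type*} [Ring R] [Algebra ℂ R]

structure ES0 (e : R) (X : Finset R) : Prop where
  ne : e ≠ 0
  one_mem : e ∈ X
  neg_mem : -e ∈ X
  mul_mem : ∀ x ∈ X, ∀ y ∈ X, x * y ∈ X
  one_mul : ∀ x ∈ X, e * x = x
  mul_one : ∀ x ∈ X, x * e = x
  sq : ∀ x ∈ X, x * x = e ∨ x * x = -e

structure ES (e : R) (X : Finset R) : Prop extends ES0 e X where
  nd : ∀ x ∈ X, (∀ y ∈ X, x * y = y * x) → x = e ∨ x = -e

/-- inverse of an element of an extraspecial set -/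
def iv (x : R) : R := x * x * x

theorem eq_zero_of_eq_neg {a : R} (h : a = -a) : a = 0 := by
  have h2 : (2 : ℂ) • a = 0 := by rw [two_smul]; nth_rewrite 1 [h]; simp
  have : (2 : ℂ)⁻¹ • (2 : ℂ) • a = a := by rw [smul_smul]; norm_num
  rw [← this, h2, smul_zero]

theorem eq_zero_of_smul {c : ℂ} (hc : c ≠ 0) {a : R} (h : c • a = 0) : a = 0 := by
  have : c⁻¹ • c • a = a := by rw [smul_smul, inv_mul_cancel₀ hc, one_smul]
  rw [← this, h, smul_zero]

namespace ES0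
variable {e : R} {X : Finset R} (hX : ES0 e X)
include hX

omit [Algebra ℂ R] in
theorem ee : e * e = e := hX.one_mul e hX.one_mem

omit [Algebra ℂ R] in
theorem iv_mem {x : R} (hx : x ∈ X) : iv x ∈ X := hX.mul_mem _ (hX.mul_mem _ hx _ hx) _ hx

omit [Algebra ℂ R] in
theorem iv_mul {x : R} (hx : x ∈ X) : iv x * x = e := by
  have : iv x * x = (x * x) * (x * x) := by simp [iv, mul_assoc]
  rcases hX.sq x hx with h | h <;> simp [this, h, hX.ee]

omit [Algebra ℂ R] in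
theorem mul_iv {x : R} (hx : x ∈ X) : x * iv x = e := by
  rw [← hX.iv_mul hx]; simp [iv, mul_assoc]

omit [Algebra ℂ R] in
theorem neg_mem' {x : R} (hx : x ∈ X) : -x ∈ X := by
  simpa [hX.one_mul x hx] using hX.mul_mem _ hX.neg_mem _ hx

omit [Algebra ℂ R] in
theorem ne_zero {x : R} (hx : x ∈ X) : x ≠ 0 := fun h => hX.ne (by rw [← hX.iv_mul hx, h, mul_zero])

theorem ne_neg {x : R} (hx : x ∈ X) : x ≠ -x := fun h => hX.ne_zero hx (eq_zero_of_eq_neg h)

omit [Algebra ℂ R] in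
theorem iv_unique {x y : R} (hx : x ∈ X) (hy : y ∈ X) (h : y * x = e) : y = iv x := by
  rw [← hX.mul_one y hy, ← hX.mul_iv hx, ← mul_assoc, h, hX.one_mul _ (hX.iv_mem hx)]

omit [Algebra ℂ R] in
theorem iv_rev {x y : R} (hx : x ∈ X) (hy : y ∈ X) : iv (x * y) = iv y * iv x := by
  symm
  refine hX.iv_unique (hX.mul_mem _ hx _ hy) (hX.mul_mem _ (hX.iv_mem hy) _ (hX.iv_mem hx)) ?_
  rw [mul_assoc, ← mul_assoc (iv x), hX.iv_mul hx, hX.one_mul y hy, hX.iv_mul hy]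

omit [Algebra ℂ R] in
theorem iv_iv {x : R} (hx : x ∈ X) : iv (iv x) = x :=
  (hX.iv_unique (hX.iv_mem hx) hx (hX.mul_iv hx)).symm

omit [Algebra ℂ R] in
theorem iv_e : iv e = e := by simp [iv, hX.ee]

omit [Algebra ℂ R] in
theorem iv_neg_e : iv (-e) = -e := by simp [iv, hX.ee]

omit [Algebra ℂ R] in
theorem iv_pm {x : R} (hx : x ∈ X) : iv x = x ∨ iv x = -x := by
  rcases hX.sq x hx with h | h <;> simp [iv, h, hX.one_mul x hx]

omit [Algebra ℂ R] in
theorem comm {x y : R} (hx : x ∈ X) (hy : y ∈ X) : x * y = y * x ∨ x * y = -(y * x) := by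
  have h1 := hX.iv_rev hx hy
  rcases hX.iv_pm hx with a | a <;> rcases hX.iv_pm hy with b | b <;>
    rcases hX.iv_pm (hX.mul_mem _ hx _ hy) with c | c <;> rw [a, b, c] at h1 <;>
    (try simp only [neg_mul, mul_neg, neg_neg, neg_inj] at h1) <;>
    first | exact Or.inl h1 | exact Or.inr h1 | exact Or.inr (neg_eq_iff_eq_neg.1 h1)

omit [Algebra ℂ R] in
theorem sum_mul_left {M : Type*} [AddCommMonoid M] {a : R} (ha : a ∈ X) (f : R → M) :
    ∑ x ∈ X, f (a * x) = ∑ x ∈ X, f x := by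
  refine sum_nbij' (fun x => a * x) (fun x => iv a * x) (fun x hx => hX.mul_mem _ ha _ hx)
    (fun x hx => hX.mul_mem _ (hX.iv_mem ha) _ hx) (fun x hx => ?_) (fun x hx => ?_) fun _ _ => rfl
  · rw [← mul_assoc, hX.iv_mul ha, hX.one_mul x hx]
  · rw [← mul_assoc, hX.mul_iv ha, hX.one_mul x hx]

omit [Algebra ℂ R] in
theorem sum_mul_right {M : Type*} [AddCommMonoid M] {a : R} (ha : a ∈ X) (f : R → M) :
    ∑ x ∈ X, f (x * a) = ∑ x ∈ X, f x := by
  refine sum_nbij' (fun x => x * a) (fun x => x * iv a) (fun x hx => hX.mul_mem _ hx _ ha)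
    (fun x hx => hX.mul_mem _ hx _ (hX.iv_mem ha)) (fun x hx => ?_) (fun x hx => ?_) fun _ _ => rfl
  · rw [mul_assoc, hX.mul_iv ha, hX.mul_one x hx]
  · rw [mul_assoc, hX.iv_mul ha, hX.mul_one x hx]

omit [Algebra ℂ R] in
theorem sum_iv {M : Type*} [AddCommMonoid M] (f : R → M) :
    ∑ x ∈ X, f (iv x) = ∑ x ∈ X, f x :=
  sum_nbij' iv iv (fun _ hx => hX.iv_mem hx) (fun _ hx => hX.iv_mem hx)
    (fun _ hx => hX.iv_iv hx) (fun _ hx => hX.iv_iv hx) fun _ _ => rfl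

theorem e_mul_span {a : R} (ha : a ∈ Submodule.span ℂ (X : Set R)) : e * a = a := by
  induction ha using Submodule.span_induction with
  | mem x hx => exact hX.one_mul x hx
  | zero => simp
  | add x y _ _ h1 h2 => rw [mul_add, h1, h2]
  | smul c x _ h => rw [mul_smul_comm, h]

theorem span_mul_e {a : R} (ha : a ∈ Submodule.span ℂ (X : Set R)) : a * e = a := by
  induction ha using Submodule.span_induction with
  | mem x hx => exact hX.mul_one x hx
  | zero => simp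
  | add x y _ _ h1 h2 => rw [add_mul, h1, h2]
  | smul c x _ h => rw [smul_mul_assoc, h]

theorem span_mul {a b : R} (ha : a ∈ Submodule.span ℂ (X : Set R))
    (hb : b ∈ Submodule.span ℂ (X : Set R)) : a * b ∈ Submodule.span ℂ (X : Set R) := by
  induction ha using Submodule.span_induction with
  | mem x hx =>
    induction hb using Submodule.span_induction with
    | mem y hy => exact Submodule.subset_span (hX.mul_mem x hx y hy)
    | zero => simp
    | add x y _ _ h1 h2 => rw [mul_add]; exact add_mem h1 h2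
    | smul c x _ h => rw [mul_smul_comm]; exact Submodule.smul_mem _ _ h
  | zero => simp
  | add x y _ _ h1 h2 => rw [add_mul]; exact add_mem h1 h2
  | smul c x _ h => rw [smul_mul_assoc]; exact Submodule.smul_mem _ _ h

omit [Algebra ℂ R] in
theorem card_pos : 0 < X.card := Finset.card_pos.2 ⟨e, hX.one_mem⟩

theorem conj_central {x : R} (hx : x = e ∨ x = -e) :
    ∑ y ∈ X, y * x * iv y = (X.card : ℂ) • x := by
  rw [sum_congr rfl (g := fun _ => x), sum_const, Nat.cast_smul_eq_nsmul]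
  intro y hy
  rcases hx with rfl | rfl
  · rw [hX.mul_one y hy, hX.mul_iv hy]
  · rw [mul_neg, neg_mul, hX.mul_one y hy, hX.mul_iv hy]

end ES0

theorem comm_span {X : Finset R} {a b : R} (ha : a ∈ Submodule.span ℂ (X : Set R))
    (h : ∀ x ∈ X, b * x = x * b) : b * a = a * b := by
  induction ha using Submodule.span_induction with
  | mem x hx => exact h x hx
  | zero => simp
  | add x y _ _ h1 h2 => rw [mul_add, add_mul, h1, h2]
  | smul c x _ h => rw [mul_smul_comm, smul_mul_assoc, h]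

namespace ES
variable {e : R} {X : Finset R} (hX : ES e X)
include hX

theorem conj_noncentral {x : R} (hx : x ∈ X) (hn : ¬ (x = e ∨ x = -e)) :
    ∑ y ∈ X, y * x * iv y = 0 := by
  obtain ⟨w, hw, h⟩ : ∃ w ∈ X, x * w ≠ w * x := by
    by_contra h
    push Not at h
    exact hn (hX.nd x hx h)
  have h1 := (hX.comm hx hw).resolve_left h
  apply eq_zero_of_eq_neg
  nth_rewrite 1 [← hX.sum_mul_right hw]
  rw [← sum_neg_distrib]
  refine sum_congr rfl fun y hy => ?_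
  rw [hX.iv_rev hy hw, mul_assoc y w, show w * x = -(x * w) by rw [h1, neg_neg], mul_neg, neg_mul,
    mul_assoc, mul_assoc x w, ← mul_assoc w, hX.mul_iv hw, hX.one_mul _ (hX.iv_mem hy), mul_assoc]

theorem avg_span {a : R} (ha : a ∈ Submodule.span ℂ (X : Set R)) :
    ∃ c : ℂ, ∑ y ∈ X, y * a * iv y = c • e := by
  induction ha using Submodule.span_induction with
  | mem x hx =>
    by_cases h : x = e ∨ x = -e
    · rw [hX.conj_central h]
      rcases h with rfl | rfl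
      · exact ⟨_, rfl⟩
      · exact ⟨-X.card, by simp⟩
    · exact ⟨0, by rw [hX.conj_noncentral hx h, zero_smul]⟩
  | zero => exact ⟨0, by simp⟩
  | add x y _ _ h1 h2 =>
    obtain ⟨c, h1⟩ := h1
    obtain ⟨d, h2⟩ := h2
    exact ⟨c + d, by simp only [mul_add, add_mul, sum_add_distrib, h1, h2, add_smul]⟩
  | smul c x _ h =>
    obtain ⟨d, h⟩ := h
    exact ⟨c * d, by simp only [mul_smul_comm, smul_mul_assoc, ← smul_sum, h, smul_smul]⟩

theorem scalar {a : R} (ha : a ∈ Submodule.span ℂ (X : Set R)) (h : ∀ x ∈ X, a * x = x * a) :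
    ∃ c : ℂ, a = c • e := by
  obtain ⟨c, hc⟩ := hX.avg_span ha
  rw [sum_congr rfl (g := fun _ => a), sum_const, ← Nat.cast_smul_eq_nsmul ℂ] at hc
  · refine ⟨(X.card : ℂ)⁻¹ * c, ?_⟩
    rw [← smul_smul, ← hc, smul_smul, inv_mul_cancel₀ (Nat.cast_ne_zero.2 hX.card_pos.ne'), one_smul]
  · intro y hy
    rw [← h y hy, mul_assoc, hX.mul_iv hy, hX.span_mul_e ha]

theorem sum_two {f : R → R} (a : R) (h1 : f e = a) (h2 : f (-e) = a)
    (h : ∀ x ∈ X, ¬ (x = e ∨ x = -e) → f x = 0) : ∑ x ∈ X, f x = (2 : ℂ) • a := by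
  classical
  rw [sum_eq_add_of_mem e (-e) hX.one_mem hX.neg_mem (hX.ne_neg hX.one_mem), h1, h2, two_smul]
  intro c hc hn
  exact h c hc (not_or.2 hn)

omit [Algebra ℂ R] in
theorem iv_nc {x : R} (hx : x ∈ X) (h : ¬ (x = e ∨ x = -e)) : ¬ (iv x = e ∨ iv x = -e) := by
  rintro (a | a)
  · exact h (Or.inl (by rw [← hX.iv_iv hx, a, hX.iv_e]))
  · exact h (Or.inr (by rw [← hX.iv_iv hx, a, hX.iv_neg_e]))

theorem prime {a b : R} (ha : a ∈ Submodule.span ℂ (X : Set R))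
    (hb : b ∈ Submodule.span ℂ (X : Set R)) (h : ∀ y ∈ X, a * y * b = 0) : a = 0 ∨ b = 0 := by
  by_cases ha0 : a = 0
  · exact Or.inl ha0
  right
  have h1 : ∀ y ∈ X, ∑ w ∈ X, w * (b * y) * iv w = 0 := by
    intro y hy
    obtain ⟨c, hc⟩ := hX.avg_span (hX.span_mul hb (Submodule.subset_span hy))
    have h2 : a * ∑ w ∈ X, w * (b * y) * iv w = 0 := by
      rw [mul_sum]
      refine sum_eq_zero fun w hw => ?_
      rw [← mul_assoc, ← mul_assoc, ← mul_assoc, h w hw]; simp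
    rw [hc, mul_smul_comm, hX.span_mul_e ha] at h2
    by_cases hc0 : c = 0
    · rw [hc, hc0, zero_smul]
    · exact absurd (eq_zero_of_smul hc0 h2) ha0
  have h3 : ∑ y ∈ X, (∑ w ∈ X, w * (b * y) * iv w) * iv y = 0 :=
    sum_eq_zero fun y hy => by rw [h1 y hy, zero_mul]
  simp only [sum_mul] at h3
  rw [sum_comm, sum_congr rfl (g := fun w => w * b * ∑ y ∈ X, y * iv w * iv y)
    (fun w _ => by simp only [mul_sum, mul_assoc]),
    hX.sum_two ((X.card : ℂ) • b)] at h3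
  · exact eq_zero_of_smul (Nat.cast_ne_zero.2 hX.card_pos.ne') (eq_zero_of_smul two_ne_zero h3)
  · rw [hX.iv_e, hX.conj_central (Or.inl rfl), hX.e_mul_span hb, mul_smul_comm, hX.span_mul_e hb]
  · rw [hX.iv_neg_e, hX.conj_central (Or.inr rfl), neg_mul, hX.e_mul_span hb, mul_smul_comm,
      neg_mul_neg, hX.span_mul_e hb]
  · intro x hx hn
    rw [hX.conj_noncentral (hX.iv_mem hx) (hX.iv_nc hx hn), mul_zero]

end ES

section act
variable {G : Type*} [Group G] [MulSemiringAction G R] [SMulCommClass G ℂ R]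
  {e : R} {X : Finset R}

omit [Algebra ℂ R] [SMulCommClass G ℂ R] in
theorem ES0.smul_e (hX : ES0 e X) {g : G} (hg : g • e ∈ X) : g • e = e := by
  have h : g • e * g • e = g • e := by rw [← smul_mul', hX.ee]
  generalize g • e = a at *
  rw [← hX.iv_mul hg]
  nth_rewrite 3 [← h]
  rw [← mul_assoc, hX.iv_mul hg, hX.one_mul _ hg]

omit [Algebra ℂ R] [SMulCommClass G ℂ R] in
theorem smul_iv (g : G) (x : R) : g • iv x = iv (g • x) := by simp [iv, smul_mul']

omit [Algebra ℂ R] [SMulCommClass G ℂ R] in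
theorem sum_act {M : Type*} [AddCommMonoid M] {g : G} (h1 : ∀ x ∈ X, g • x ∈ X)
    (h2 : ∀ x ∈ X, g⁻¹ • x ∈ X) (f : R → M) : ∑ x ∈ X, f (g • x) = ∑ x ∈ X, f x :=
  sum_nbij' (fun x => g • x) (fun x => g⁻¹ • x) h1 h2 (fun x _ => inv_smul_smul g x)
    (fun x _ => smul_inv_smul g x) fun _ _ => rfl

theorem smul_span {Y : Finset R} {g : G} (h : ∀ x ∈ X, g • x ∈ Y) {a : R}
    (ha : a ∈ Submodule.span ℂ (X : Set R)) : g • a ∈ Submodule.span ℂ (Y : Set R) := by
  induction ha using Submodule.span_induction with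
  | mem x hx => exact Submodule.subset_span (h x hx)
  | zero => simp
  | add x y _ _ h1 h2 => rw [smul_add]; exact add_mem h1 h2
  | smul c x _ h => rw [smul_comm]; exact Submodule.smul_mem _ _ h

theorem intw_span {g : G} {v a : R} (h : ∀ x ∈ X, v * x = (g • x) * v)
    (ha : a ∈ Submodule.span ℂ (X : Set R)) : v * a = (g • a) * v := by
  induction ha using Submodule.span_induction with
  | mem x hx => exact h x hx
  | zero => simp
  | add x y _ _ h1 h2 => rw [mul_add, smul_add, add_mul, h1, h2]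
  | smul c x _ h => rw [mul_smul_comm, smul_comm, smul_mul_assoc, h]

omit [SMulCommClass G ℂ R] in
theorem ES.sn (hX : ES e X) {t : G} (ht : ∀ x ∈ X, t • x ∈ X) :
    ∃ v ∈ Submodule.span ℂ (X : Set R), v ≠ 0 ∧ ∀ x ∈ X, v * x = (t • x) * v := by
  have hte := hX.smul_e (ht e hX.one_mem)
  obtain ⟨y, hy, h0⟩ : ∃ y ∈ X, ∑ x ∈ X, (t • x) * y * iv x ≠ 0 := by
    by_contra h
    push Not at h
    have h3 : ∑ y ∈ X, (∑ x ∈ X, (t • x) * y * iv x) * iv y = 0 :=
      sum_eq_zero fun y hy => by rw [h y hy, zero_mul]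
    simp only [sum_mul] at h3
    rw [sum_comm, sum_congr rfl (g := fun w => (t • w) * ∑ y ∈ X, y * iv w * iv y)
      (fun w _ => by simp only [mul_sum, mul_assoc]),
      hX.sum_two ((X.card : ℂ) • e)] at h3
    · exact hX.ne (eq_zero_of_smul (Nat.cast_ne_zero.2 hX.card_pos.ne')
        (eq_zero_of_smul two_ne_zero h3))
    · rw [hX.iv_e, hX.conj_central (Or.inl rfl), hte, mul_smul_comm, hX.ee]
    · rw [hX.iv_neg_e, hX.conj_central (Or.inr rfl), smul_neg, hte, mul_smul_comm,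
        neg_mul_neg, hX.ee]
    · intro x hx hn
      rw [hX.conj_noncentral (hX.iv_mem hx) (hX.iv_nc hx hn), mul_zero]
  refine ⟨_, Submodule.sum_mem _ fun x hx => Submodule.subset_span
    (hX.mul_mem _ (hX.mul_mem _ (ht x hx) _ hy) _ (hX.iv_mem hx)), h0, fun w hw => ?_⟩
  rw [sum_mul, mul_sum, ← hX.sum_mul_left hw]
  refine sum_congr rfl fun x hx => ?_
  rw [hX.iv_rev hw hx, smul_mul', mul_assoc, mul_assoc (iv x), hX.iv_mul hw,
    hX.mul_one _ (hX.iv_mem hx)]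
  simp only [mul_assoc]

structure Impl (e : R) (X : Finset R) (T : Subgroup G) (u : G → R) : Prop where
  mem : ∀ h ∈ T, u h ∈ Submodule.span ℂ (X : Set R)
  one : u 1 = e
  mul : ∀ g ∈ T, ∀ h ∈ T, u (g * h) = u g * u h
  comm : ∀ h ∈ T, ∀ x ∈ X, u h * x = (h • x) * u h

theorem Impl.smul_u {T : Subgroup G} {u : G → R} (hu : Impl e X T u) (hX : ES0 e X)
    (hT : ∀ g ∈ T, ∀ x ∈ X, g • x ∈ X) {s k : G} (hs : s ∈ T) (hk : k ∈ T) :
    s • u k = u (s * k * s⁻¹) := by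
  rw [hu.mul _ (mul_mem hs hk) _ (inv_mem hs), hu.mul _ hs _ hk,
    intw_span (hu.comm s hs) (hu.mem k hk), mul_assoc, ← hu.mul _ hs _ (inv_mem hs),
    mul_inv_cancel, hu.one, hX.span_mul_e (smul_span (hT s hs) (hu.mem k hk))]

theorem cyc_ext [Finite G] (hX : ES e X) {T T0 : Subgroup G} (hT : ∀ g ∈ T, ∀ x ∈ X, g • x ∈ X)
    (h0 : T0 ≤ T) {t : G} (ht : t ∈ T) (hn : ∀ h ∈ T0, t * h * t⁻¹ ∈ T0)
    (hgen : ∀ s ∈ T, ∃ h ∈ T0, ∃ i : ℕ, s = h * t ^ i) {u0 : G → R} (hu : Impl e X T0 u0)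
    (hinv : ∀ h ∈ T0, t • u0 h = u0 (t * h * t⁻¹)) : ∃ u, Impl e X T u := by
  classical
  have hex : ∃ n, 0 < n ∧ t ^ n ∈ T0 := ⟨orderOf t, orderOf_pos t, by simp⟩
  obtain ⟨hn0, hnm⟩ := Nat.find_spec hex
  set n := Nat.find hex
  have hdvd : ∀ j, t ^ j ∈ T0 → n ∣ j := fun j hj => by
    by_contra h
    refine Nat.find_min hex (Nat.mod_lt j hn0) ⟨Nat.pos_of_ne_zero fun k => h (Nat.dvd_of_mod_eq_zero k), ?_⟩
    rw [← Nat.div_add_mod j n, pow_add, pow_mul] at hj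
    exact (T0.mul_mem_cancel_left (pow_mem hnm _)).1 hj
  have hpow : ∀ v : R, (∀ x ∈ X, v * x = (t • x) * v) → ∀ i : ℕ, ∀ x ∈ X,
      v ^ i * x = (t ^ i • x) * v ^ i := fun v hv i => by
    induction i with
    | zero => simp
    | succ i ih =>
      intro x hx
      rw [pow_succ, mul_assoc, hv x hx, ← mul_assoc, ih _ (hT t ht x hx), pow_succ, mul_smul,
        mul_assoc]
  obtain ⟨v0, m0, n0, c0⟩ := hX.sn (hT t ht)
  have hm : ∀ i : ℕ, v0 ^ (i + 1) ∈ Submodule.span ℂ (X : Set R) ∧ v0 ^ (i + 1) ≠ 0 := fun i => by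
    induction i with
    | zero => simpa using ⟨m0, n0⟩
    | succ i ih =>
      rw [pow_succ]
      refine ⟨hX.span_mul ih.1 m0, fun h => ?_⟩
      refine (hX.prime ih.1 m0 fun y hy => ?_).elim ih.2 n0
      rw [hpow v0 c0 _ y hy, mul_assoc, h, mul_zero]
  have hm' := hm (n - 1)
  rw [Nat.sub_add_cancel hn0] at hm'
  obtain ⟨c, hc⟩ := hX.scalar (hX.span_mul (hu.mem _ (inv_mem hnm)) hm'.1) fun x hx => by
    rw [mul_assoc, hpow v0 c0 n x hx, ← mul_assoc,
      hu.comm _ (inv_mem hnm) _ (hT _ (pow_mem ht n) x hx), inv_smul_smul, mul_assoc]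
  have hc1 : v0 ^ n = c • u0 (t ^ n) := by
    rw [← hX.e_mul_span hm'.1, ← hu.one, ← mul_inv_cancel (t ^ n), hu.mul _ hnm _ (inv_mem hnm),
      mul_assoc, hc, mul_smul_comm, hX.span_mul_e (hu.mem _ hnm)]
  have hc0 : c ≠ 0 := fun h => hm'.2 (by rw [hc1, h, zero_smul])
  obtain ⟨d, hd⟩ := IsAlgClosed.exists_pow_nat_eq c⁻¹ hn0
  set v := d • v0
  have hv : ∀ x ∈ X, v * x = (t • x) * v := fun x hx => by
    simp only [v, smul_mul_assoc, mul_smul_comm, c0 x hx]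
  have hvn : v ^ n = u0 (t ^ n) := by
    rw [_root_.smul_pow, hd, hc1, smul_smul, inv_mul_cancel₀ hc0, one_smul]
  have hvm : ∀ m : ℕ, e * v ^ (n * m) = u0 (t ^ (n * m)) := fun m => by
    induction m with
    | zero => simp [hu.one]
    | succ m ih =>
      rw [mul_add, mul_one, pow_add, pow_add, ← mul_assoc, ih, hvn,
        hu.mul _ (by rw [pow_mul]; exact pow_mem hnm m) _ hnm]
  have wd0 : ∀ h ∈ T0, ∀ h' ∈ T0, ∀ i j : ℕ, h * t ^ i = h' * t ^ (j + i) →
      u0 h * v ^ i = u0 h' * v ^ (j + i) := fun h hh h' hh' i j e1 => by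
    rw [pow_add, ← mul_assoc, mul_left_inj] at e1
    have hj : t ^ j ∈ T0 := (T0.mul_mem_cancel_left hh').1 (e1 ▸ hh)
    obtain ⟨m, rfl⟩ := hdvd j hj
    rw [e1, hu.mul _ hh' _ hj, ← hvm, ← mul_assoc (u0 h'), hX.span_mul_e (hu.mem _ hh'), pow_add,
      mul_assoc]
  have wd : ∀ h ∈ T0, ∀ h' ∈ T0, ∀ i j : ℕ, h * t ^ i = h' * t ^ j →
      u0 h * v ^ i = u0 h' * v ^ j := fun h hh h' hh' i j e1 => by
    rcases le_total i j with l | l
    · obtain ⟨k, rfl⟩ := Nat.exists_eq_add_of_le' l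
      exact wd0 h hh h' hh' i k e1
    · obtain ⟨k, rfl⟩ := Nat.exists_eq_add_of_le' l
      exact (wd0 h' hh' h hh j k e1.symm).symm
  choose! a ha b hb using hgen
  have key : ∀ h ∈ T0, ∀ i : ℕ, u0 (a (h * t ^ i)) * v ^ b (h * t ^ i) = u0 h * v ^ i :=
    fun h hh i => wd _ (ha _ (mul_mem (h0 hh) (pow_mem ht i))) _ hh _ _
      (hb _ (mul_mem (h0 hh) (pow_mem ht i))).symm
  have hconj : ∀ i : ℕ, ∀ h ∈ T0, t ^ i * h * (t ^ i)⁻¹ ∈ T0 ∧
      t ^ i • u0 h = u0 (t ^ i * h * (t ^ i)⁻¹) := fun i => by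
    induction i with
    | zero => simp
    | succ i ih =>
      intro h hh
      have : t ^ (i + 1) * h * (t ^ (i + 1))⁻¹ = t * (t ^ i * h * (t ^ i)⁻¹) * t⁻¹ := by group
      rw [this, pow_succ', mul_smul, (ih h hh).2]
      exact ⟨hn _ (ih h hh).1, hinv _ (ih h hh).1⟩
  have vm : ∀ w ∈ Submodule.span ℂ (X : Set R), ∀ i : ℕ, w * v ^ i ∈ Submodule.span ℂ (X : Set R) :=
    fun w hw i => by
      induction i with
      | zero => simpa using hw
      | succ i ih => rw [pow_succ, ← mul_assoc]; exact hX.span_mul ih (Submodule.smul_mem _ _ m0)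
  refine ⟨fun s => u0 (a s) * v ^ b s, fun h hh => vm _ (hu.mem _ (ha h hh)) _, ?_,
    fun g hg h hh => ?_, fun h hh x hx => ?_⟩
  · simpa [hu.one] using key 1 (one_mem _) 0
  · have e1 : g * h = (a g * (t ^ b g * a h * (t ^ b g)⁻¹)) * t ^ (b g + b h) := by
      nth_rewrite 1 [hb g hg, hb h hh]; group
    have := key _ (mul_mem (ha g hg) (hconj (b g) _ (ha h hh)).1) (b g + b h)
    rw [← e1] at this
    rw [this, hu.mul _ (ha g hg) _ (hconj (b g) _ (ha h hh)).1, ← (hconj (b g) _ (ha h hh)).2,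
      pow_add, mul_assoc, mul_assoc, ← mul_assoc (v ^ b g),
      intw_span (hpow v hv (b g)) (hu.mem _ (ha h hh)), mul_assoc]
  · rw [mul_assoc, hpow v hv _ x hx, ← mul_assoc, hu.comm _ (ha h hh) _ (hT _ (pow_mem ht _) x hx),
      ← mul_smul, ← hb h hh, mul_assoc]

omit [SMulCommClass G ℂ R] in
theorem Impl.prod (hX : ES0 e X) {X1 X2 : Finset R} (h1 : X1 ⊆ X) (h2 : X2 ⊆ X)
    (hc : ∀ x ∈ X1, ∀ y ∈ X2, x * y = y * x) (hp : ∀ x ∈ X, ∃ a ∈ X1, ∃ b ∈ X2, x = a * b)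
    {T : Subgroup G} (hT : ∀ g ∈ T, ∀ x ∈ X2, g • x ∈ X2) {u1 u2 : G → R}
    (hu1 : Impl e X1 T u1) (hu2 : Impl e X2 T u2) : Impl e X T (fun h => u1 h * u2 h) := by
  have c1 : ∀ h ∈ T, ∀ y ∈ X2, u1 h * y = y * u1 h := fun h hh y hy =>
    (comm_span (hu1.mem h hh) fun x hx => (hc x hx y hy).symm).symm
  have c2 : ∀ h ∈ T, ∀ x ∈ X1, u2 h * x = x * u2 h := fun h hh x hx =>
    (comm_span (hu2.mem h hh) (hc x hx)).symm
  refine ⟨fun h hh => hX.span_mul (Submodule.span_mono (by simpa using h1) (hu1.mem h hh))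
    (Submodule.span_mono (by simpa using h2) (hu2.mem h hh)), by simp [hu1.one, hu2.one, hX.ee],
    fun g hg h hh => ?_, fun h hh x hx => ?_⟩
  · rw [hu1.mul g hg h hh, hu2.mul g hg h hh, mul_assoc, mul_assoc, ← mul_assoc (u1 h),
      comm_span (hu2.mem g hg) (c1 h hh), mul_assoc]
  · obtain ⟨a, ha, b, hb, rfl⟩ := hp x hx
    rw [mul_assoc, ← mul_assoc (u2 h), c2 h hh a ha, mul_assoc, hu2.comm h hh b hb,
      ← mul_assoc (u1 h), hu1.comm h hh a ha, mul_assoc, ← mul_assoc (u1 h), c1 h hh _ (hT h hh b hb),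
      smul_mul']
    simp only [mul_assoc]

theorem tensor_ext [Finite G] (hX : ES e X) {X1 X2 : Finset R} (hX1 : ES0 e X1)
    (h1 : X1 ⊆ X) (h2 : X2 ⊆ X)
    (hc : ∀ x ∈ X1, ∀ y ∈ X2, x * y = y * x) (hp : ∀ x ∈ X, ∃ a ∈ X1, ∃ b ∈ X2, x = a * b)
    {T T1 : Subgroup G} (hT : ∀ g ∈ T, ∀ x ∈ X, g • x ∈ X) (hle : T1 ≤ T) {t : G} (ht : t ∈ T)
    (hn : ∀ h ∈ T1, t * h * t⁻¹ ∈ T1) (hn' : ∀ h ∈ T1, t⁻¹ * h * t ∈ T1) (htt : t * t ∈ T1)
    (hgen : ∀ s ∈ T, s ∈ T1 ∨ s * t⁻¹ ∈ T1)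
    (hT1 : ∀ g ∈ T1, ∀ x ∈ X1, g • x ∈ X1) (ht1 : ∀ x ∈ X1, t • x ∈ X2)
    (ht2 : ∀ x ∈ X2, t⁻¹ • x ∈ X1) {u1 : G → R} (hu1 : Impl e X1 T1 u1) : ∃ u, Impl e X T u := by
  have hu2 : Impl e X2 T1 fun h => t • u1 (t⁻¹ * h * t) := by
    refine ⟨fun h hh => smul_span ht1 (hu1.mem _ (hn' h hh)), ?_, fun g hg h hh => ?_,
      fun h hh x hx => ?_⟩
    · simp [hu1.one, hX.smul_e (hT t ht e hX.one_mem)]
    · rw [← smul_mul', ← hu1.mul _ (hn' g hg) _ (hn' h hh)]
      congr 2; group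
    · have := congrArg (t • ·) (hu1.comm _ (hn' h hh) _ (ht2 x hx))
      simpa [smul_mul', smul_smul, mul_assoc] using this
  have hT2 : ∀ g ∈ T1, ∀ x ∈ X2, g • x ∈ X2 := fun g hg x hx => by
    have := ht1 _ (hT1 _ (hn' g hg) _ (ht2 x hx))
    simpa [smul_smul, mul_assoc] using this
  refine cyc_ext hX hT hle ht hn (fun s hs => ?_) (Impl.prod hX.toES0 h1 h2 hc hp hT2 hu1 hu2)
    fun h hh => ?_
  · rcases hgen s hs with a | a
    · exact ⟨s, a, 0, by simp⟩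
    · exact ⟨_, a, 1, by simp⟩
  · rw [smul_mul', smul_smul, hu1.smul_u hX1 hT1 htt (hn' h hh),
      show t * t * (t⁻¹ * h * t) * (t * t)⁻¹ = t * h * t⁻¹ by group,
      show t⁻¹ * (t * h * t⁻¹) * t = h by group]
    refine comm_span (hu1.mem _ (hn h hh)) fun x hx => ?_
    exact (comm_span (smul_span ht1 (hu1.mem h hh)) (hc x hx)).symm

end act

end H2.Xs
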