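import Cfsg.Agent.H2.Xs1

/-! Isotropic reduction for extraspecial sets: for an invariant elementary abelian `B ⊆ X` missing
`-e`, the set `red X B` is extraspecial with unit `idem B`, and implementations lift
(`Iso.lift`). -/

set_option autoImplicit false
open Finset

namespace H2.Xs

variable {R : Type*} [Ring R] [Algebra ℂ R]

structure Iso (e : R) (X B : Finset R) : Prop where
  sub : B ⊆ X
  one_mem : e ∈ B
  neg : -e ∉ B
  mul_mem : ∀ x ∈ B, ∀ y ∈ B, x * y ∈ B
  sq : ∀ b ∈ B, b * b = e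
  comm : ∀ a ∈ B, ∀ b ∈ B, a * b = b * a
  dperp : ∀ x ∈ X, (∀ y ∈ X, (∀ b ∈ B, y * b = b * y) → x * y = y * x) → x ∈ B ∨ -x ∈ B

noncomputable def idem (B : Finset R) : R := (B.card : ℂ)⁻¹ • ∑ b ∈ B, b

open Classical in
noncomputable def perp (X B : Finset R) : Finset R := X.filter fun y => ∀ b ∈ B, y * b = b * y

open Classical in
noncomputable def red (X B : Finset R) : Finset R := (perp X B).image fun y => idem B * y

omit [Algebra ℂ R] in
theorem mem_perp {X B : Finset R} {y : R} : y ∈ perp X B ↔ y ∈ X ∧ ∀ b ∈ B, y * b = b * y := by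
  simp [perp]

theorem mem_red {X B : Finset R} {y : R} : y ∈ red X B ↔ ∃ x ∈ perp X B, idem B * x = y := by
  simp [red]

theorem comm_idem {B : Finset R} {y : R} (h : ∀ b ∈ B, y * b = b * y) : y * idem B = idem B * y := by
  rw [idem, mul_smul_comm, smul_mul_assoc, mul_sum, sum_mul, sum_congr rfl h]

namespace Iso
variable {e : R} {X B : Finset R} (hX : ES e X) (hB : Iso e X B)
include hX hB

theorem mul_idem {b : R} (hb : b ∈ B) : b * idem B = idem B := by
  rw [idem, mul_smul_comm, mul_sum]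
  congr 1
  refine sum_nbij' (fun x => b * x) (fun x => b * x) (fun x hx => hB.mul_mem _ hb _ hx)
    (fun x hx => hB.mul_mem _ hb _ hx) (fun x hx => ?_) (fun x hx => ?_) fun _ _ => rfl <;>
  rw [← mul_assoc, hB.sq b hb, hX.one_mul x (hB.sub hx)]

theorem idem_mul {b : R} (hb : b ∈ B) : idem B * b = idem B := by
  rw [← comm_idem (hB.comm b hb), hB.mul_idem hX hb]

omit hX [Algebra ℂ R] in
theorem card_ne : (B.card : ℂ) ≠ 0 := Nat.cast_ne_zero.2 (card_pos.2 ⟨e, hB.one_mem⟩).ne'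

theorem idem_idem : idem B * idem B = idem B := by
  nth_rewrite 1 [idem]
  rw [smul_mul_assoc, sum_mul, sum_congr rfl fun b hb => hB.mul_idem hX hb, sum_const,
    ← Nat.cast_smul_eq_nsmul ℂ, smul_smul, inv_mul_cancel₀ hB.card_ne, one_smul]

theorem sandwich {x : R} (hx : x ∈ X) (hn : x ∉ perp X B) : idem B * x * idem B = 0 := by
  obtain ⟨b, hb, h⟩ : ∃ b ∈ B, x * b ≠ b * x := by
    by_contra h
    push Not at h
    exact hn (mem_perp.2 ⟨hx, h⟩)
  have h1 := (hX.comm hx (hB.sub hb)).resolve_left h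
  apply eq_zero_of_eq_neg
  nth_rewrite 2 [← hB.mul_idem hX hb]
  rw [mul_assoc, ← mul_assoc x, h1, neg_mul, mul_neg, ← mul_assoc, ← mul_assoc, hB.idem_mul hX hb]

theorem sum_conj : ∑ x ∈ X, x * idem B * iv x = ((B.card : ℂ)⁻¹ * X.card) • e := by
  simp only [idem, mul_smul_comm, smul_mul_assoc, mul_sum, sum_mul, ← smul_sum]
  rw [sum_comm, sum_eq_single_of_mem e hB.one_mem, hX.conj_central (Or.inl rfl), smul_smul]
  intro b hb hn
  exact hX.conj_noncentral (hB.sub hb) fun h => h.elim hn fun k => hB.neg (k ▸ hb)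

theorem idem_ne : idem B ≠ 0 := fun h => by
  have := hB.sum_conj hX
  rw [h] at this
  simp only [mul_zero, zero_mul, sum_const_zero] at this
  exact hX.ne (eq_zero_of_smul (mul_ne_zero (inv_ne_zero hB.card_ne)
    (Nat.cast_ne_zero.2 hX.card_pos.ne')) this.symm)

omit hB [Algebra ℂ R] in
theorem perp_mul {x y : R} (hx : x ∈ perp X B) (hy : y ∈ perp X B) : x * y ∈ perp X B := by
  rw [mem_perp] at *
  exact ⟨hX.mul_mem _ hx.1 _ hy.1, fun b hb => by
    rw [mul_assoc, hy.2 b hb, ← mul_assoc, hx.2 b hb, mul_assoc]⟩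

omit [Algebra ℂ R] in
theorem e_perp : e ∈ perp X B :=
  mem_perp.2 ⟨hX.one_mem, fun b hb => by rw [hX.one_mul b (hB.sub hb), hX.mul_one b (hB.sub hb)]⟩

theorem red_mul {x y : R} (hx : x ∈ perp X B) : idem B * x * (idem B * y) = idem B * (x * y) := by
  rw [mul_assoc, ← mul_assoc x, comm_idem (mem_perp.1 hx).2, ← mul_assoc, ← mul_assoc,
    hB.idem_idem hX, mul_assoc]

theorem comm_of {x y : R} (hx : x ∈ X) (hy : y ∈ X) (h : idem B * (x * y) = idem B * (y * x)) :
    x * y = y * x := by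
  refine (hX.comm hx hy).resolve_right fun k => hB.idem_ne hX ?_
  rw [k, mul_neg] at h
  have := eq_zero_of_eq_neg h.symm
  rw [← hB.idem_mul hX hB.one_mem, ← hX.mul_iv (hX.mul_mem _ hy _ hx), ← mul_assoc, this, zero_mul]

theorem mem_of_central {x : R} (hx : x ∈ perp X B)
    (h : ∀ y ∈ perp X B, idem B * (x * y) = idem B * (y * x)) : x ∈ B ∨ -x ∈ B :=
  hB.dperp x (mem_perp.1 hx).1 fun y hy hy' =>
    hB.comm_of hX (mem_perp.1 hx).1 hy (h y (mem_perp.2 ⟨hy, hy'⟩))

theorem mem_of_pm {x : R} (hx : x ∈ perp X B)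
    (h : idem B * x = idem B ∨ idem B * x = -idem B) : x ∈ B ∨ -x ∈ B := by
  refine hB.mem_of_central hX hx fun y hy => ?_
  rw [← hB.red_mul hX hy, ← mul_assoc (idem B) x, ← comm_idem (mem_perp.1 hy).2]
  rcases h with h | h <;> rw [h]
  · rw [mul_assoc, hB.idem_idem hX, comm_idem (mem_perp.1 hy).2]
  · rw [mul_neg, neg_mul, mul_assoc, hB.idem_idem hX, comm_idem (mem_perp.1 hy).2]

theorem pm_of_mem {x : R} (h : x ∈ B ∨ -x ∈ B) : idem B * x = idem B ∨ idem B * x = -idem B := by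
  rcases h with h | h
  · exact Or.inl (hB.idem_mul hX h)
  · exact Or.inr (neg_eq_iff_eq_neg.1 (by rw [← mul_neg, hB.idem_mul hX h]))

theorem es : ES (idem B) (red X B) := by
  have he := hB.idem_mul hX hB.one_mem
  refine ⟨⟨hB.idem_ne hX, mem_red.2 ⟨e, hB.e_perp hX, he⟩, mem_red.2 ⟨-e, ?_, by rw [mul_neg, he]⟩,
    ?_, ?_, ?_, ?_⟩, ?_⟩
  · exact mem_perp.2 ⟨hX.neg_mem, fun b hb => by
      rw [neg_mul, mul_neg, (mem_perp.1 (hB.e_perp hX)).2 b hb]⟩
  · intro x hx y hy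
    replace hx := mem_red.1 hx
    obtain ⟨x, hx, rfl⟩ := hx
    replace hy := mem_red.1 hy
    obtain ⟨y, hy, rfl⟩ := hy
    exact mem_red.2 ⟨_, perp_mul hX hx hy, (hB.red_mul hX hx).symm⟩
  · intro x hx
    replace hx := mem_red.1 hx
    obtain ⟨x, hx, rfl⟩ := hx
    rw [← mul_assoc, hB.idem_idem hX]
  · intro x hx
    replace hx := mem_red.1 hx
    obtain ⟨x, hx, rfl⟩ := hx
    rw [mul_assoc, comm_idem (mem_perp.1 hx).2, ← mul_assoc, hB.idem_idem hX]
  · intro x hx
    replace hx := mem_red.1 hx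
    obtain ⟨x, hx, rfl⟩ := hx
    rw [hB.red_mul hX hx]
    rcases hX.sq x (mem_perp.1 hx).1 with h | h <;> simp [h, he]
  · intro x hx h
    replace hx := mem_red.1 hx
    obtain ⟨x, hx, rfl⟩ := hx
    refine hB.pm_of_mem hX (hB.mem_of_central hX hx fun y hy => ?_)
    rw [← hB.red_mul hX hx, ← hB.red_mul hX hy]
    exact h _ (mem_red.2 ⟨y, hy, rfl⟩)

omit hB hX in
theorem card_lt {x : R} (hx : x ∈ X) (hn : x ∉ perp X B) : (red X B).card < X.card := by
  classical
  refine lt_of_le_of_lt (card_image_le) (card_lt_card ⟨fun y hy => (mem_perp.1 hy).1, fun h => hn (h hx)⟩)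

section act
variable {G : Type*} [Group G] [MulSemiringAction G R] [SMulCommClass G ℂ R] {T : Subgroup G}

omit hX hB in
theorem smul_idem (hT : ∀ g ∈ T, ∀ x ∈ B, g • x ∈ B) {g : G} (hg : g ∈ T) :
    g • idem B = idem B := by
  rw [idem, smul_comm, smul_sum, sum_act (hT g hg) (hT _ (inv_mem hg)) fun x => x]

omit hX hB [Algebra ℂ R] [SMulCommClass G ℂ R] in
theorem smul_perp (hT : ∀ g ∈ T, ∀ x ∈ X, g • x ∈ X) (hTB : ∀ g ∈ T, ∀ x ∈ B, g • x ∈ B) {g : G}
    (hg : g ∈ T) {x : R} (hx : x ∈ perp X B) : g • x ∈ perp X B := by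
  rw [mem_perp] at *
  refine ⟨hT g hg x hx.1, fun b hb => ?_⟩
  have := congrArg (g • ·) (hx.2 _ (hTB _ (inv_mem hg) b hb))
  simpa [smul_mul'] using this

omit hX hB in
theorem smul_red (hT : ∀ g ∈ T, ∀ x ∈ X, g • x ∈ X) (hTB : ∀ g ∈ T, ∀ x ∈ B, g • x ∈ B) {g : G}
    (hg : g ∈ T) {x : R} (hx : x ∈ red X B) : g • x ∈ red X B := by
  replace hx := mem_red.1 hx
  obtain ⟨x, hx, rfl⟩ := hx
  exact mem_red.2 ⟨_, smul_perp hT hTB hg hx, by rw [smul_mul', smul_idem hTB hg]⟩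

theorem lift (hT : ∀ g ∈ T, ∀ x ∈ X, g • x ∈ X) (hTB : ∀ g ∈ T, ∀ x ∈ B, g • x ∈ B) {w : G → R}
    (hw : Impl (idem B) (red X B) T w) : ∃ u, Impl e X T u := by
  classical
  have hP : ((perp X B).card : ℂ) ≠ 0 := Nat.cast_ne_zero.2 (card_pos.2 ⟨e, hB.e_perp hX⟩).ne'
  have hE := hB.es hX
  have hi : idem B ∈ Submodule.span ℂ (X : Set R) :=
    Submodule.smul_mem _ _ (Submodule.sum_mem _ fun b hb => Submodule.subset_span (hB.sub hb))
  have hsp : Submodule.span ℂ (red X B : Set R) ≤ Submodule.span ℂ (X : Set R) :=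
    Submodule.span_le.2 fun y hy => by
      obtain ⟨x, hx, rfl⟩ := mem_red.1 hy
      exact hX.span_mul hi (Submodule.subset_span (mem_perp.1 hx).1)
  let u : G → R := fun h => ((perp X B).card : ℂ)⁻¹ • ∑ x ∈ X, (h • x) * w h * iv x
  have hmul : ∀ g ∈ T, ∀ h ∈ T, u (g * h) = u g * u h := fun g hg h hh => by
    have key : ∀ y ∈ X, ∑ x ∈ X, (g • x) * w g * iv x * ((h • y) * w h * iv y) =
        ((perp X B).card : ℂ) • (((g * h) • y) * w (g * h) * iv y) := fun y hy => by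
      have hy' := hT h hh y hy
      rw [← hX.sum_mul_left hy', ← hX.sum_iv, Nat.cast_smul_eq_nsmul, ← sum_const,
        ← sum_subset (s₁ := perp X B) (fun x hx => (mem_perp.1 hx).1)]
      · refine sum_congr rfl fun d hd => ?_
        have hd' := (mem_perp.1 hd).1
        have h1 : w g * d = (g • d) * w g := by
          have := hw.comm g hg _ (mem_red.2 ⟨d, hd, rfl⟩)
          rwa [← mul_assoc, hE.span_mul_e (hw.mem g hg), ← comm_idem (mem_perp.1 hd).2, smul_mul',
            smul_idem hTB hg, mul_assoc, hE.e_mul_span (hw.mem g hg)] at this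
        rw [hX.iv_rev hy' (hX.iv_mem hd'), hX.iv_iv hd', ← mul_assoc _ d, mul_assoc _ _ d, h1,
          ← mul_assoc _ (g • d), ← smul_mul', mul_assoc _ _ d, hX.iv_mul hd', hX.mul_one _ hy',
          hw.mul g hg h hh, mul_smul]
        simp only [mul_assoc]
        rw [← mul_assoc (iv _), hX.iv_mul hy', ← mul_assoc e, hX.e_mul_span (hsp (hw.mem h hh))]
      · intro d hd hn
        rw [hX.iv_rev hy' (hX.iv_mem hd), hX.iv_iv hd, ← hE.span_mul_e (hw.mem g hg),
          ← hE.e_mul_span (hw.mem h hh)]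
        simp only [mul_assoc]
        rw [← mul_assoc (iv _), hX.iv_mul hy', ← mul_assoc d, hX.mul_one d hd, ← mul_assoc d,
          ← mul_assoc (idem B), ← mul_assoc (idem B), hB.sandwich hX hd hn]
        simp
    simp only [u, smul_mul_smul_comm, mul_sum, sum_mul]
    rw [sum_congr rfl key, ← smul_sum, smul_smul, mul_assoc, inv_mul_cancel₀ hP, mul_one]
  have h1 : u 1 = (((perp X B).card : ℂ)⁻¹ * ((B.card : ℂ)⁻¹ * X.card)) • e := by
    simp only [u, one_smul, hw.one, hB.sum_conj hX, smul_smul]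
  refine ⟨u, fun h hh => Submodule.smul_mem _ _ (Submodule.sum_mem _ fun x hx =>
    hX.span_mul (hX.span_mul (Submodule.subset_span (hT h hh x hx)) (hsp (hw.mem h hh)))
      (Submodule.subset_span (hX.iv_mem hx))), ?_, hmul, fun h hh y hy => ?_⟩
  · have h2 := hmul 1 T.one_mem 1 T.one_mem
    rw [mul_one, h1, smul_mul_smul_comm, hX.ee, ← sub_eq_zero, ← sub_smul] at h2
    rw [h1]
    set c := ((perp X B).card : ℂ)⁻¹ * ((B.card : ℂ)⁻¹ * X.card)
    have hc : c ≠ 0 := mul_ne_zero (inv_ne_zero hP) (mul_ne_zero (inv_ne_zero hB.card_ne)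
      (Nat.cast_ne_zero.2 hX.card_pos.ne'))
    by_cases h3 : c - c * c = 0
    · rw [mul_left_cancel₀ hc (show c * c = c * 1 by linear_combination -h3), one_smul]
    · exact absurd (eq_zero_of_smul h3 h2) hX.ne
  · simp only [u, smul_mul_assoc, mul_smul_comm]
    congr 1
    rw [sum_mul, mul_sum, ← hX.sum_mul_left hy]
    refine sum_congr rfl fun x hx => ?_
    rw [hX.iv_rev hy hx, smul_mul', mul_assoc, mul_assoc (iv x), hX.iv_mul hy,
      hX.mul_one _ (hX.iv_mem hx)]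
    simp only [mul_assoc]

end act

end Iso

end H2.Xs
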