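import Cfsg.Agent.S0205

/-! Linear algebra for the extension of characters of extraspecial 2-groups: an odd group `K`
normalized by a 2-group `T` acting fixed-point-freely on a symplectic space over `F₂` (`dicho`):
the space is reducible, or `K` can be shrunk, or `T` acts through a cyclic quotient, or the space
is an orthogonal sum of two subspaces swapped by `T`. -/

set_option autoImplicit false
open Finset
open scoped commutatorElement

namespace H2.Xs

variable {G : Type*} [Group G] {V : Type*} [AddCommGroup V] [Module (ZMod 2) V]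

structure Act (H : Subgroup G) (a : G → Module.End (ZMod 2) V) : Prop where
  one : a 1 = 1
  mul : ∀ g ∈ H, ∀ h ∈ H, a (g * h) = a g * a h

theorem odd_smul {n : ℕ} (hn : Odd n) (v : V) : n • v = v := by
  rw [← Nat.cast_smul_eq_nsmul (ZMod 2), (ZMod.natCast_eq_one_iff_odd).2 hn, one_smul]

namespace Act
variable {H : Subgroup G} {a : G → Module.End (ZMod 2) V} (ha : Act H a)
include ha

theorem app {g h : G} (hg : g ∈ H) (hh : h ∈ H) (v : V) : a g (a h v) = a (g * h) v := by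
  rw [ha.mul g hg h hh]; rfl

theorem inv_app {g : G} (hg : g ∈ H) (v : V) : a g⁻¹ (a g v) = v := by
  rw [ha.app (inv_mem hg) hg, inv_mul_cancel, ha.one]; rfl

theorem app_inv {g : G} (hg : g ∈ H) (v : V) : a g (a g⁻¹ v) = v := by
  rw [ha.app hg (inv_mem hg), mul_inv_cancel, ha.one]; rfl

theorem ne_zero {g : G} (hg : g ∈ H) {v : V} (hv : v ≠ 0) : a g v ≠ 0 := fun h =>
  hv (by rw [← ha.inv_app hg v, h, map_zero])

theorem pow {g : G} (hg : g ∈ H) (n : ℕ) : a (g ^ n) = a g ^ n := by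
  induction n with
  | zero => simp [ha.one]
  | succ n ih => rw [pow_succ, ha.mul _ (pow_mem hg n) _ hg, ih, pow_succ]

theorem inv_eq_one {g : G} (hg : g ∈ H) (h : a g = 1) : a g⁻¹ = 1 := by
  rw [← mul_one (a g⁻¹), ← h, ← ha.mul _ (inv_mem hg) _ hg, inv_mul_cancel, ha.one, h]

/-- the norm of `v` over `L` is fixed by `L` -/
theorem norm_fixed {L : Subgroup G} [Fintype L] (hL : L ≤ H) (v : V) {k : G} (hk : k ∈ L) :
    a k (∑ l : L, a l v) = ∑ l : L, a l v := by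
  rw [map_sum]
  exact Fintype.sum_equiv (Equiv.mulLeft (⟨k, hk⟩ : L)) _ _ fun l => ha.app (hL hk) (hL l.2) v

/-- stabilizer in `K` of a vector -/
def stab {K : Subgroup G} (hK : K ≤ H) (v : V) : Subgroup G where
  carrier := {k | k ∈ K ∧ a k v = v}
  one_mem' := ⟨one_mem _, by rw [ha.one]; rfl⟩
  mul_mem' := fun {x y} hx hy => ⟨mul_mem hx.1 hy.1, by rw [← ha.app (hK hx.1) (hK hy.1), hy.2, hx.2]⟩
  inv_mem' := fun {x} hx => ⟨inv_mem hx.1, by
    nth_rewrite 1 [← hx.2]; exact ha.inv_app (hK hx.1) v⟩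

theorem exists_fixed [Finite G] [Finite V] [Nontrivial V] {T : Subgroup G} (hT : T ≤ H)
    (h2 : IsPGroup 2 T) : ∃ v : V, v ≠ 0 ∧ ∀ h ∈ T, a h v = v := by
  letI : MulAction T V :=
    { smul := fun h v => a h v
      one_smul := fun v => by change a 1 v = v; rw [ha.one]; rfl
      mul_smul := fun g h v => (ha.app (hT g.2) (hT h.2) v).symm }
  obtain ⟨w, hw⟩ := exists_ne (0 : V)
  have h1 : addOrderOf w = 2 := addOrderOf_eq_prime (by
    rw [← Nat.cast_smul_eq_nsmul (ZMod 2), ZMod.natCast_self, zero_smul]) hw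
  obtain ⟨b, hb, hb'⟩ := h2.exists_fixed_point_of_prime_dvd_card_of_fixed_point V
    (h1 ▸ addOrderOf_dvd_natCard w) (a := 0) fun g => map_zero (a g)
  exact ⟨b, hb'.symm, fun h hh => hb ⟨h, hh⟩⟩

end Act

/-- vectors fixed by `L` -/
def fixS (a : G → Module.End (ZMod 2) V) (L : Subgroup G) : Submodule (ZMod 2) V where
  carrier := {v | ∀ k ∈ L, a k v = v}
  zero_mem' := fun _ _ => map_zero _
  add_mem' := fun {x y} hx hy k hk => by rw [map_add, hx k hk, hy k hk]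
  smul_mem' := fun c x hx k hk => by rw [map_smul, hx k hk]

theorem index_two [Finite G] {T S : Subgroup G} (h2 : IsPGroup 2 T) (hS : S < T) :
    ∃ T1 : Subgroup G, S ≤ T1 ∧ T1 < T ∧ ∀ x ∈ T, ∀ y ∈ T, (x * y ∈ T1 ↔ (x ∈ T1 ↔ y ∈ T1)) := by
  obtain ⟨n, hn⟩ := IsPGroup.iff_card.1 h2
  obtain ⟨m, hm⟩ := IsPGroup.iff_card.1 (h2.to_subgroup (S.subgroupOf T))
  have hlt : Nat.card (S.subgroupOf T) < Nat.card T := by
    rw [Nat.card_congr (Subgroup.subgroupOfEquivOfLe hS.le).toEquiv]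
    exact Set.Finite.card_lt_card (Set.toFinite _) hS
  rw [hm, hn, Nat.pow_lt_pow_iff_right one_lt_two] at hlt
  obtain ⟨M, hM, hle⟩ := Sylow.exists_subgroup_card_pow_prime_le (G := T) 2 (m := n - 1)
    (hn ▸ pow_dvd_pow 2 (Nat.sub_le n 1)) _ hm (by omega)
  have hi : M.index = 2 := by
    have := M.index_mul_card
    rw [hM, hn, show n = n - 1 + 1 by omega, pow_succ', Nat.add_sub_cancel] at this
    exact Nat.eq_of_mul_eq_mul_right (by positivity) this
  have hmem : ∀ x (hx : x ∈ T), x ∈ M.map T.subtype ↔ ⟨x, hx⟩ ∈ M := fun x hx =>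
    ⟨fun ⟨y, hy, e⟩ => (show y = ⟨x, hx⟩ from Subtype.ext e) ▸ hy, fun h => ⟨_, h, rfl⟩⟩
  refine ⟨M.map T.subtype, fun x hx => (hmem x (hS.le hx)).2 (hle hx),
    lt_of_le_of_ne (Subgroup.map_subtype_le M) fun h => ?_, fun x hx y hy => ?_⟩
  · have : M = ⊤ := eq_top_iff.2 fun x _ => (hmem x x.2).1 (h.symm ▸ x.2)
    simp [this] at hi
  · rw [hmem _ (mul_mem hx hy), hmem _ hx, hmem _ hy]
    exact Subgroup.mul_mem_iff_of_index_two hi (a := ⟨x, hx⟩) (b := ⟨y, hy⟩)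

theorem geom_zero {x : Module.End (ZMod 2) V} {q : ℕ} (hx : x ^ q = 1)
    (h : ∀ v, x v = v → v = 0) : ∑ i ∈ range q, x ^ i = 0 := by
  ext v
  apply h
  have := mul_geom_sum x q
  rw [hx, sub_self, sub_mul, one_mul, sub_eq_zero] at this
  exact LinearMap.congr_fun this v

/-- a semiregular abelian group of exponent `q` is cyclic -/
theorem semireg [Nontrivial V] {x y : Module.End (ZMod 2) V} {q : ℕ} (hq : Odd q)
    (hc : Commute x y) (hx : x ^ q = 1) (hy : y ^ q = 1)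
    (h1 : ∀ j, 0 < j → j < q → ∀ v, (x ^ j) v = v → v = 0)
    (h2 : ∀ i, ∀ v, (x ^ i * y) v = v → v = 0) : False := by
  have e1 : ∑ i ∈ range q, ∑ j ∈ range q, (x ^ i * y) ^ j = 0 :=
    sum_eq_zero fun i _ => geom_zero (by
      rw [(hc.pow_left i).mul_pow, hy, ← pow_mul, mul_comm, pow_mul, hx, one_pow, one_mul]) (h2 i)
  rw [sum_comm, sum_eq_single_of_mem 0 (mem_range.2 hq.pos)] at e1
  · simp only [pow_zero, sum_const, card_range] at e1
    obtain ⟨v, hv⟩ := exists_ne (0 : V)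
    have := LinearMap.congr_fun e1 v
    simp only [Module.End.one_apply, odd_smul hq, LinearMap.zero_apply] at this
    exact hv this
  · intro j hj hj0
    simp only [fun i => (hc.pow_left i).mul_pow j, ← sum_mul, ← pow_mul, fun i => mul_comm i j]
    simp only [pow_mul]
    rw [geom_zero (by rw [← pow_mul, mul_comm, pow_mul, hx, one_pow])
      (h1 j (Nat.pos_of_ne_zero hj0) (mem_range.1 hj)), zero_mul]

theorem cyc_quot [Finite G] {H T : Subgroup G} (hT : T ≤ H) {a : G → Module.End (ZMod 2) V}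
    (ha : Act H a) {x : Module.End (ZMod 2) V} {q : ℕ} (hq : q.Prime) (hx : orderOf x = q)
    (h : ∀ s ∈ T, ∃ i : ℕ, a s * x = x ^ i * a s) :
    ∃ T0 : Subgroup G, T0 ≤ T ∧ ∃ t ∈ T, (∀ s ∈ T, ∀ h ∈ T0, s * h * s⁻¹ ∈ T0) ∧
      (∀ s ∈ T, ∃ h ∈ T0, ∃ i : ℕ, s = h * t ^ i) ∧ ∀ h ∈ T0, a h * x = x * a h := by
  haveI : Fact q.Prime := ⟨hq⟩
  choose! f hf using h
  have hp : ∀ s ∈ T, ∀ n : ℕ, a s * x ^ n = x ^ (f s * n) * a s := fun s hs n => by
    induction n with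
    | zero => simp
    | succ n ih => rw [pow_succ, ← mul_assoc, ih, mul_assoc, hf s hs, ← mul_assoc, ← pow_add, mul_add,
        mul_one]
  have canc : ∀ s ∈ T, ∀ i j : ℕ, x ^ i * a s = x ^ j * a s → (i : ZMod q) = j := fun s hs i j e => by
    have := congrArg (· * a s⁻¹) e
    simp only [mul_assoc, ← ha.mul _ (hT hs) _ (hT (inv_mem hs)), mul_inv_cancel, ha.one,
      mul_one] at this
    have fo : IsOfFinOrder x := orderOf_pos_iff.1 (hx ▸ hq.pos)
    rw [ZMod.natCast_eq_natCast_iff, ← hx]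
    obtain ⟨u, rfl⟩ := fo.isUnit
    rw [← Units.val_pow_eq_pow_val, ← Units.val_pow_eq_pow_val, Units.val_inj,
      pow_eq_pow_iff_modEq] at this
    rwa [orderOf_units]
  let φ : T →* ZMod q :=
    { toFun := fun s => f s
      map_one' := by
        simpa using canc 1 T.one_mem (f 1) 1 (by rw [← hf 1 T.one_mem, ha.one]; simp)
      map_mul' := fun s t => by
        have := canc _ (s * t).2 (f (s * t : T)) (f s * f t) (by
          rw [← hf _ (s * t).2, Subgroup.coe_mul, ha.mul _ (hT s.2) _ (hT t.2), mul_assoc, hf _ t.2,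
            ← mul_assoc, hp _ s.2, mul_assoc])
        simpa using this }
  obtain ⟨⟨_, t, rfl⟩, ht⟩ := IsCyclic.exists_monoid_generator (α := φ.toHomUnits.range)
  refine ⟨φ.toHomUnits.ker.map T.subtype, Subgroup.map_subtype_le _, t, t.2, ?_, fun s hs => ?_, ?_⟩
  · rintro s hs _ ⟨h, hh, rfl⟩
    exact ⟨_, (MonoidHom.normal_ker _).conj_mem h hh ⟨s, hs⟩, rfl⟩
  · obtain ⟨i, hi⟩ := ht ⟨_, ⟨s, hs⟩, rfl⟩
    have hi' : φ.toHomUnits t ^ i = φ.toHomUnits ⟨s, hs⟩ := congrArg Subtype.val hi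
    refine ⟨_, ⟨⟨s, hs⟩ * (t ^ i)⁻¹, ?_, rfl⟩, i, by simp⟩
    change φ.toHomUnits _ = 1
    rw [map_mul, map_inv, map_pow, hi', mul_inv_cancel]
  · rintro _ ⟨h, hh, rfl⟩
    have : ((f h : ℕ) : ZMod q) = (1 : ℕ) := by
      simpa [φ] using congrArg Units.val (show φ.toHomUnits h = 1 from hh)
    rw [ZMod.natCast_eq_natCast_iff, ← hx] at this
    change a h * x = x * a h
    rw [hf _ h.2, ← pow_mod_orderOf, this, pow_mod_orderOf, pow_one]

theorem dicho [Finite G] [Finite V] [Nontrivial V] {H K T : Subgroup G} (hK : K ≤ H) (hT : T ≤ H)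
    {a : G → Module.End (ZMod 2) V} (ha : Act H a) (β : LinearMap.BilinForm (ZMod 2) V)
    (hβ : ∀ g ∈ H, ∀ v w, β (a g v) (a g w) = β v w) (hKo : Odd (Nat.card K)) (hT2 : IsPGroup 2 T)
    (hTK : ∀ t ∈ T, ∀ k ∈ K, t * k * t⁻¹ ∈ K) (fpf : ∀ v, (∀ k ∈ K, a k v = v) → v = 0) :
    (∃ U : Submodule (ZMod 2) V, U ≠ ⊥ ∧ U ≠ ⊤ ∧ (∀ g ∈ K, ∀ v ∈ U, a g v ∈ U) ∧
      ∀ g ∈ T, ∀ v ∈ U, a g v ∈ U) ∨
    (∃ K1 : Subgroup G, K1 < K ∧ (∀ t ∈ T, ∀ k ∈ K1, t * k * t⁻¹ ∈ K1) ∧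
      ∀ v, (∀ k ∈ K1, a k v = v) → v = 0) ∨
    (∃ T0 : Subgroup G, T0 ≤ T ∧ ∃ t ∈ T, (∀ h ∈ T0, t * h * t⁻¹ ∈ T0) ∧
      (∀ s ∈ T, ∃ h ∈ T0, ∃ i : ℕ, s = h * t ^ i) ∧ ∀ h ∈ T0, a h = 1) ∨
    (∃ T1 : Subgroup G, T1 < T ∧ (∀ x ∈ T, ∀ y ∈ T, (x * y ∈ T1 ↔ (x ∈ T1 ↔ y ∈ T1))) ∧
      ∃ t ∈ T, t ∉ T1 ∧ ∃ U : Submodule (ZMod 2) V, (∀ g ∈ K, ∀ v ∈ U, a g v ∈ U) ∧
      (∀ g ∈ T1, ∀ v ∈ U, a g v ∈ U) ∧ (∀ v ∈ U, ∀ w ∈ U, β v (a t w) = 0) ∧
      ∀ v, ∃ x ∈ U, ∃ y ∈ U, v = x + a t y) := by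
  classical
  by_contra hcon
  simp only [not_or] at hcon
  obtain ⟨h1, h2, h3, h4⟩ := hcon
  have irr : ∀ U : Submodule (ZMod 2) V, U ≠ ⊥ → (∀ g ∈ K, ∀ v ∈ U, a g v ∈ U) →
      (∀ g ∈ T, ∀ v ∈ U, a g v ∈ U) → U = ⊤ := fun U hU i1 i2 => by
    by_contra h
    exact h1 ⟨U, hU, h, i1, i2⟩
  have fixinv : ∀ (L : Subgroup G), L ≤ H → ∀ g ∈ H, (∀ k ∈ L, ∃ k' ∈ L, a k * a g = a g * a k') →
      ∀ v ∈ fixS a L, a g v ∈ fixS a L := fun L _ g _ h v hv k hk => by
    obtain ⟨k', hk', e⟩ := h k hk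
    have := LinearMap.congr_fun e v
    simp only [Module.End.mul_apply] at this
    rw [this, hv k' hk']
  have conj : ∀ g ∈ H, ∀ k ∈ H, a k * a g = a g * a (g⁻¹ * k * g⁻¹⁻¹) := fun g hg k hk => by
    rw [← ha.mul _ hk _ hg, ← ha.mul _ hg _ (mul_mem (mul_mem (inv_mem hg) hk) (inv_mem (inv_mem hg)))]
    congr 1; group
  have triv : ∀ K1 : Subgroup G, K1 < K → (∀ t ∈ T, ∀ k ∈ K1, t * k * t⁻¹ ∈ K1) →
      (∀ t ∈ K, ∀ k ∈ K1, t * k * t⁻¹ ∈ K1) → ∀ k ∈ K1, a k = 1 := fun K1 hlt i1 i2 k hk => by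
    have hH := hlt.le.trans hK
    have := irr (fixS a K1) (fun h => h2 ⟨K1, hlt, i1, fun v hv => by
        rw [← Submodule.mem_bot (ZMod 2), ← h]; exact hv⟩)
      (fun g hg => fixinv K1 hH g (hK hg) fun k hk =>
        ⟨_, i2 _ (inv_mem hg) k hk, conj g (hK hg) k (hH hk)⟩)
      (fun g hg => fixinv K1 hH g (hT hg) fun k hk =>
        ⟨_, i1 _ (inv_mem hg) k hk, conj g (hT hg) k (hH hk)⟩)
    ext v
    exact (this ▸ Submodule.mem_top : v ∈ fixS a K1) k hk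
  obtain ⟨v1, hv1⟩ := exists_ne (0 : V)
  have hKb : K ≠ ⊥ := by
    rintro rfl
    exact hv1 (fpf v1 fun k hk => by rw [Subgroup.mem_bot.1 hk, ha.one]; rfl)
  have hcm : ∀ t : G, (∀ k ∈ K, t * k * t⁻¹ ∈ K) → ∀ k ∈ ⁅K, K⁆, t * k * t⁻¹ ∈ ⁅K, K⁆ := fun t ht k hk => by
    have : K.map (MulAut.conj t).toMonoidHom ≤ K := by rintro _ ⟨k, hk, rfl⟩; exact ht k hk
    refine Subgroup.commutator_mono this this ?_
    rw [← Subgroup.map_commutator]
    exact ⟨k, hk, rfl⟩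
  have hab : ∀ x ∈ K, ∀ y ∈ K, a x * a y = a y * a x := fun x hx y hy => by
    have hs := Cfsg.Agent.S0205.result hKo
    have hlt : ⁅K, K⁆ < K := by
      rw [← Subgroup.nontrivial_iff_ne_bot] at hKb
      rw [← K.range_subtype, MonoidHom.range_eq_map, ← Subgroup.map_commutator,
        Subgroup.map_subtype_lt_map_subtype]
      exact Group.IsSolvable.commutator_lt_top_of_nontrivial K
    have hm := Subgroup.commutator_mem_commutator hx hy
    have := triv _ hlt (fun t ht => hcm t (hTK t ht)) (fun t ht => hcm t fun k hk =>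
      mul_mem (mul_mem ht hk) (inv_mem ht)) _ hm
    rw [← ha.mul _ (hK hx) _ (hK hy), ← ha.mul _ (hK hy) _ (hK hx),
      show x * y = ⁅x, y⁆ * (y * x) by group, ha.mul _ (hK (hlt.le hm)) _ (hK (mul_mem hy hx)), this,
      one_mul]
  have hab' : ∀ x ∈ K, ∀ y ∈ K, ∀ v, a x (a y v) = a y (a x v) := fun x hx y hy v =>
    LinearMap.congr_fun (hab x hx y hy) v
  obtain ⟨v, hv, hmax⟩ := Set.exists_max_image {v : V | v ≠ 0} (fun v => Nat.card (ha.stab hK v))
    (Set.toFinite _) ⟨v1, hv1⟩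
  have hconj : ∀ s ∈ T, ∀ w, ∀ k, k ∈ ha.stab hK (a s w) ↔ s⁻¹ * k * s ∈ ha.stab hK w := by
    intro s hs w k
    have e : ∀ k ∈ K, a (s⁻¹ * k * s) w = a s⁻¹ (a k (a s w)) := fun k hk => by
      rw [ha.app (hK hk) (hT hs), ha.app (hT (inv_mem hs)) (mul_mem (hK hk) (hT hs)), mul_assoc]
    constructor
    · rintro ⟨i1, i2⟩
      exact ⟨by simpa using hTK _ (inv_mem hs) k i1, by rw [e k i1, i2, ha.inv_app (hT hs)]⟩
    · rintro ⟨i1, i2⟩
      have i3 : k ∈ K := by simpa [mul_assoc] using hTK _ hs _ i1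
      refine ⟨i3, ?_⟩
      rw [e k i3] at i2
      rw [← ha.app_inv (hT hs) (a k _), i2]
  have hcard : ∀ s ∈ T, ∀ w, Nat.card (ha.stab hK (a s w)) = Nat.card (ha.stab hK w) := fun s hs w =>
    Nat.card_congr ((MulAut.conj s⁻¹).toEquiv.subtypeEquiv fun k => by simpa using hconj s hs w k)
  have heq : ∀ s ∈ T, ∀ w, w ≠ 0 → ha.stab hK (a s v) ≤ ha.stab hK w →
      ha.stab hK (a s v) = ha.stab hK w := fun s hs w hw hle =>
    Subgroup.eq_of_le_of_card_ge hle (by rw [hcard s hs]; exact hmax w hw)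
  have a1 : ∀ w, a 1 w = w := fun w => by rw [ha.one]; rfl
  have kfix : ∀ w, ∀ g ∈ K, ∀ x ∈ fixS a (ha.stab hK w), a g x ∈ fixS a (ha.stab hK w) :=
    fun w g hg => fixinv (ha.stab hK w) (fun k hk => hK hk.1) g (hK hg) fun k hk => ⟨k, hk, hab _ hk.1 _ hg⟩
  have tfix : ∀ s ∈ T, ∀ w, ∀ x ∈ fixS a (ha.stab hK w), a s x ∈ fixS a (ha.stab hK (a s w)) :=
    fun s hs w x hx k hk => ((hconj s hs x k).2 ⟨((hconj s hs w k).1 hk).1,
      hx _ ((hconj s hs w k).1 hk)⟩).2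
  have hS : ∀ s ∈ T, ∀ s' ∈ T, ∀ w w', ha.stab hK w = ha.stab hK w' →
      ha.stab hK (a s w) = ha.stab hK (a s w') := fun s hs _ _ w w' h => by
    ext k; rw [hconj s hs, hconj s hs, h]
  let S : Subgroup G :=
    { carrier := {s | s ∈ T ∧ ha.stab hK (a s v) = ha.stab hK v}
      one_mem' := ⟨one_mem _, by rw [a1]⟩
      mul_mem' := fun {x y} hx hy => ⟨mul_mem hx.1 hy.1, by
        rw [← ha.app (hT hx.1) (hT hy.1), hS x hx.1 x hx.1 _ _ hy.2, hx.2]⟩
      inv_mem' := fun {x} hx => ⟨inv_mem hx.1, by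
        rw [← hS _ (inv_mem hx.1) x hx.1 _ _ hx.2, ha.inv_app (hT hx.1)]⟩ }
  have hST : S ≤ T := fun s hs => hs.1
  rcases hST.eq_or_lt with hE | hE
  · have htop := irr (fixS a (ha.stab hK v)) (fun h => hv (by
        rw [← Submodule.mem_bot (ZMod 2), ← h]; exact fun k hk => hk.2)) (kfix v) fun s hs x hx => by
      have := tfix s hs v x hx
      rwa [(hE.symm ▸ hs : s ∈ S).2] at this
    have sr : ∀ k ∈ K, a k ≠ 1 → ∀ w, a k w = w → w = 0 := fun k hk hk1 w hw => by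
      by_contra hw0
      have := heq 1 T.one_mem w hw0 fun l hl =>
        ⟨hl.1, (htop ▸ Submodule.mem_top : w ∈ fixS a (ha.stab hK v)) l (by rwa [a1] at hl)⟩
      rw [a1] at this
      apply hk1
      ext x
      exact (htop ▸ Submodule.mem_top : x ∈ fixS a (ha.stab hK v)) k (this ▸ ⟨hk, hw⟩)
    obtain ⟨k0, hk0, hn0⟩ : ∃ k ∈ K, a k ≠ 1 := by
      by_contra h
      push Not at h
      exact hv1 (fpf v1 fun k hk => by rw [h k hk]; rfl)
    have hdv : orderOf (a k0) ∣ Nat.card K := orderOf_dvd_of_pow_eq_one (by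
      have : k0 ^ Nat.card K = 1 := congrArg Subtype.val (pow_card_eq_one' (x := (⟨k0, hk0⟩ : K)))
      rw [← ha.pow (hK hk0), this, ha.one])
    obtain ⟨q, hq, m, hm⟩ := Nat.exists_prime_and_dvd (n := orderOf (a k0))
      fun h => hn0 (orderOf_eq_one_iff.1 h)
    have hqo : Odd q := hKo.of_dvd_nat (Dvd.dvd.trans ⟨m, hm⟩ hdv)
    have hm0 : m ≠ 0 := by
      rintro rfl
      rw [hm, mul_zero, zero_dvd_iff] at hdv
      exact Nat.card_pos.ne' hdv
    have hx : orderOf (a (k0 ^ m)) = q := by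
      rw [ha.pow (hK hk0), orderOf_pow' _ hm0, hm, Nat.gcd_mul_left_left, Nat.mul_div_cancel _
        (Nat.pos_of_ne_zero hm0)]
    set k1 := k0 ^ m
    have hk1 : k1 ∈ K := pow_mem hk0 m
    have hcq : ∀ t ∈ H, ∀ k ∈ K, a k ^ q = 1 → a (t * k * t⁻¹) ^ q = 1 := fun t ht k hk h => by
      rw [← ha.pow (mul_mem (mul_mem ht (hK hk)) (inv_mem ht)), conj_pow,
        ha.mul _ (mul_mem ht (pow_mem (hK hk) q)) _ (inv_mem ht), ha.mul _ ht _ (pow_mem (hK hk) q),
        ha.pow (hK hk), h, mul_one, ← ha.mul _ ht _ (inv_mem ht), mul_inv_cancel, ha.one]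
    let K1 : Subgroup G :=
      { carrier := {k | k ∈ K ∧ a k ^ q = 1}
        one_mem' := ⟨one_mem _, by rw [ha.one, one_pow]⟩
        mul_mem' := fun {x y} hx hy => ⟨mul_mem hx.1 hy.1, by
          rw [ha.mul _ (hK hx.1) _ (hK hy.1), Commute.mul_pow (hab _ hx.1 _ hy.1), hx.2, hy.2, one_mul]⟩
        inv_mem' := fun {x} hx => ⟨inv_mem hx.1, by
          rw [← ha.pow (hK (inv_mem hx.1)), inv_pow]
          exact ha.inv_eq_one (pow_mem (hK hx.1) q) (by rw [ha.pow (hK hx.1), hx.2])⟩ }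
    have hall : ∀ k ∈ K, a k ^ q = 1 := by
      by_contra h
      push Not at h
      obtain ⟨k, hk, hkq⟩ := h
      have := triv K1 (lt_of_le_of_ne (fun x hx => hx.1) fun e => hkq (e.symm ▸ hk : k ∈ K1).2)
        (fun t ht k hk => ⟨hTK t ht k hk.1, hcq t (hT ht) k hk.1 hk.2⟩)
        (fun t ht k hk => ⟨mul_mem (mul_mem ht hk.1) (inv_mem ht), hcq t (hK ht) k hk.1 hk.2⟩)
        k1 ⟨hk1, by rw [← hx, pow_orderOf_eq_one]⟩
      rw [this, orderOf_one] at hx
      exact hq.one_lt.ne hx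
    have hcyc : ∀ k ∈ K, ∃ i : ℕ, a k = a k1 ^ i := fun k hk => by
      by_contra h
      push Not at h
      refine semireg hqo (hab _ hk1 _ hk) (hall _ hk1) (hall _ hk) (fun j j0 jq => ?_) fun i => ?_
      · rw [← ha.pow (hK hk1)]
        refine sr _ (pow_mem hk1 j) ?_
        rw [ha.pow (hK hk1)]
        exact pow_ne_one_of_lt_orderOf j0.ne' (hx ▸ jq)
      · rw [← ha.pow (hK hk1), ← ha.mul _ (hK (pow_mem hk1 i)) _ (hK hk)]
        refine sr _ (mul_mem (pow_mem hk1 i) hk) fun e => h (i * (q - 1)) ?_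
        rw [ha.mul _ (hK (pow_mem hk1 i)) _ (hK hk), ha.pow (hK hk1)] at e
        rw [← mul_one (_ ^ _), ← e, ← mul_assoc, ← pow_add, ← Nat.mul_succ, Nat.succ_eq_add_one,
          Nat.sub_add_cancel hq.pos, mul_comm i, pow_mul, hall _ hk1, one_pow, one_mul]
    obtain ⟨T0, hT0, t, ht, i1, i2, i3⟩ := cyc_quot hT ha hq hx fun s hs => by
      obtain ⟨i, hi⟩ := hcyc _ (hTK s hs k1 hk1)
      refine ⟨i, ?_⟩
      rw [← hi, ← ha.mul _ (hT hs) _ (hK hk1), ← ha.mul _ (hK (hTK s hs k1 hk1)) _ (hT hs),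
        inv_mul_cancel_right]
    obtain ⟨w, hw, hw'⟩ := ha.exists_fixed (hT0.trans hT) (hT2.to_le hT0)
    have := irr (fixS a T0) (fun h => hw (by rw [← Submodule.mem_bot (ZMod 2), ← h]; exact hw'))
      (fun g hg => fixinv _ (hT0.trans hT) g (hK hg) fun k hk => ⟨k, hk, by
        obtain ⟨i, hi⟩ := hcyc g hg
        rw [hi]; exact Commute.pow_right (i3 k hk) i⟩)
      (fun g hg => fixinv _ (hT0.trans hT) g (hT hg) fun k hk =>
        ⟨_, i1 _ (inv_mem hg) k hk, conj g (hT hg) k (hT (hT0 hk))⟩)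
    refine h3 ⟨T0, hT0, t, ht, i1 t ht, i2, fun h hh => ?_⟩
    ext x
    exact (this ▸ Submodule.mem_top : x ∈ fixS a T0) h hh
  · obtain ⟨T1, hS1, hlt, hi⟩ := index_two hT2 hE
    obtain ⟨t, ht, htn⟩ := SetLike.exists_of_lt hlt
    let U : Submodule (ZMod 2) V :=
      Submodule.span (ZMod 2) {w | ∃ s ∈ T1, w ∈ fixS a (ha.stab hK (a s v))}
    have inv : ∀ g : G, (∀ s ∈ T1, ∀ w ∈ fixS a (ha.stab hK (a s v)),
        ∃ s ∈ T1, a g w ∈ fixS a (ha.stab hK (a s v))) → ∀ x ∈ U, a g x ∈ U := fun g h x hx => by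
      refine (Submodule.span_le (p := U.comap (a g))).2 ?_ hx
      rintro w ⟨s, hs, hw⟩
      exact Submodule.subset_span (h s hs w hw)
    have i1 : ∀ g ∈ K, ∀ x ∈ U, a g x ∈ U := fun g hg =>
      inv g fun s hs w hw => ⟨s, hs, kfix _ g hg w hw⟩
    have i2 : ∀ g ∈ T1, ∀ x ∈ U, a g x ∈ U := fun g hg => inv g fun s hs w hw =>
      ⟨g * s, mul_mem hg hs, by
        rw [← ha.app (hT (hlt.le hg)) (hT (hlt.le hs))]; exact tfix g (hlt.le hg) _ w hw⟩
    have orth : ∀ s ∈ T, ∀ s' ∈ T, ha.stab hK (a s v) ≠ ha.stab hK (a s' v) →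
        ∀ w ∈ fixS a (ha.stab hK (a s v)), ∀ w' ∈ fixS a (ha.stab hK (a s' v)), β w w' = 0 := by
      intro s hs s' hs' hne w hw w' hw'
      have := Fintype.ofFinite (ha.stab hK (a s v))
      have hz : ∑ l : ha.stab hK (a s v), a l w' = 0 := by
        by_contra hz
        refine hne ((heq s hs _ hz fun k hk =>
          ⟨hk.1, ha.norm_fixed (L := ha.stab hK (a s v)) (fun k hk => hK hk.1) w' hk⟩).trans (heq s' hs' _ hz fun k hk =>
          ⟨hk.1, ?_⟩).symm)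
        rw [map_sum]
        exact sum_congr rfl fun l _ => by rw [hab' _ hk.1 _ l.2.1, hw' k hk]
      have h5 := congrArg (β w) hz
      rw [map_sum, map_zero, sum_congr rfl (g := fun _ => β w w'), sum_const, card_univ,
        ← Nat.card_eq_fintype_card, odd_smul] at h5
      · exact h5
      · exact hKo.of_dvd_nat (Subgroup.card_dvd_of_le fun k hk => hk.1)
      · intro l _
        rw [← hβ l (hK l.2.1) w w', hw l l.2]
    have htop := irr (U ⊔ U.map (a t)) (fun h => hv (by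
        rw [← Submodule.mem_bot (ZMod 2), ← h]
        exact Submodule.mem_sup_left (Submodule.subset_span ⟨1, one_mem _, fun k hk => by
          have := hk.2; rwa [a1] at this⟩))) (fun g hg x hx => ?_) (fun g hg x hx => ?_)
    · refine h4 ⟨T1, hlt, hi, t, ht, htn, U, i1, i2, fun x hx y hy => ?_, fun x => ?_⟩
      · induction hx using Submodule.span_induction with
        | zero => simp
        | add x y _ _ j1 j2 => rw [map_add, LinearMap.add_apply, j1, j2, add_zero]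
        | smul c x _ j => rw [map_smul, LinearMap.smul_apply, j, smul_zero]
        | mem x hx =>
          induction hy using Submodule.span_induction with
          | zero => simp
          | add x y _ _ j1 j2 => rw [map_add, map_add, j1, j2, add_zero]
          | smul c x _ j => rw [map_smul, map_smul, j, smul_zero]
          | mem y hy =>
            obtain ⟨s, hs, hx⟩ := hx
            obtain ⟨s', hs', hy⟩ := hy
            have hy' := tfix t ht _ y hy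
            rw [ha.app (hT ht) (hT (hlt.le hs'))] at hy'
            refine orth s (hlt.le hs) _ (mul_mem ht (hlt.le hs')) (fun e => htn ?_) x hx _ hy'
            have e2 := hS _ (inv_mem (hlt.le hs)) _ ht _ _ e
            rw [ha.inv_app (hT (hlt.le hs)), ha.app (hT (inv_mem (hlt.le hs)))
              (hT (mul_mem ht (hlt.le hs')))] at e2
            have := hS1 (show s⁻¹ * (t * s') ∈ S from
              ⟨mul_mem (inv_mem (hlt.le hs)) (mul_mem ht (hlt.le hs')), e2.symm⟩)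
            rwa [T1.mul_mem_cancel_left (inv_mem hs), T1.mul_mem_cancel_right hs'] at this
      · obtain ⟨y, hy, _, ⟨z, hz, rfl⟩, e⟩ := Submodule.mem_sup.1 (htop ▸ Submodule.mem_top (x := x))
        exact ⟨y, hy, z, hz, e.symm⟩
    · obtain ⟨y, hy, _, ⟨z, hz, rfl⟩, rfl⟩ := Submodule.mem_sup.1 hx
      rw [map_add]
      refine Submodule.add_mem_sup (i1 g hg y hy) ⟨_, i1 _ (hTK _ (inv_mem ht) g hg) z hz, ?_⟩
      exact (LinearMap.congr_fun (conj t (hT ht) g (hK hg)) z).symm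
    · obtain ⟨y, hy, _, ⟨z, hz, rfl⟩, rfl⟩ := Submodule.mem_sup.1 hx
      rw [map_add]
      by_cases hg1 : g ∈ T1
      · refine Submodule.add_mem_sup (i2 g hg1 y hy) ⟨_, i2 (t⁻¹ * g * t⁻¹⁻¹) ?_ z hz, ?_⟩
        · rw [hi _ (mul_mem (inv_mem ht) hg) _ (inv_mem (inv_mem ht)), hi _ (inv_mem ht) _ hg]
          simp [hg1]
        · exact (LinearMap.congr_fun (conj t (hT ht) g (hT hg)) z).symm
      · rw [add_comm]
        refine Submodule.add_mem_sup ?_ ⟨_, i2 (t⁻¹ * g) ?_ y hy, ?_⟩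
        · rw [ha.app (hT hg) (hT ht)]
          exact i2 _ (by rw [hi _ hg _ ht]; simp [hg1, htn]) z hz
        · rw [hi _ (inv_mem ht) _ hg]; simp [hg1, htn]
        · rw [ha.app (hT ht) (hT (mul_mem (inv_mem ht) hg)), mul_inv_cancel_left]

end H2.Xs
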