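import Cfsg.Agent.H2.Xs2
import Cfsg.Agent.H2.Xs3

/-! The symplectic space of an extraspecial set (`exists_quo`, `Sp`), invariant isotropic
complements (`exists_iso`) and the main theorem `main`: a 2-group normalizing an odd group acting
fixed-point-freely on `X / ± e` is implemented by a homomorphism into the span of `X`. -/

set_option autoImplicit false
open Finset

namespace H2.Xs

universe u
variable {R : Type u} [Ring R]

structure Quo (X : Finset R) (S : Set R) {V : Type*} [AddCommGroup V] (π : R → V) : Prop where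
  hom : ∀ x ∈ X, ∀ y ∈ X, π (x * y) = π x + π y
  surj : ∀ v, ∃ x ∈ X, π x = v
  ker : ∀ x ∈ X, (π x = 0 ↔ x ∈ S)

theorem exists_quo {e : R} {X : Finset R} (hX : ES0 e X) (S : Set R) (h1 : e ∈ S)
    (h2 : ∀ x ∈ S, ∀ y ∈ S, x * y ∈ S) (h3 : ∀ x ∈ S, iv x ∈ S)
    (h4 : ∀ x ∈ X, ∀ y ∈ X, iv (y * x) * (x * y) ∈ S) :
    ∃ (V : Type u) (_ : AddCommGroup V) (π : R → V), Quo X S π := by
  classical
  letI : Mul X := ⟨fun a b => ⟨a * b, hX.mul_mem _ a.2 _ b.2⟩⟩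
  letI : One X := ⟨⟨e, hX.one_mem⟩⟩
  letI : Inv X := ⟨fun a => ⟨iv a, hX.iv_mem a.2⟩⟩
  letI : Group X := Group.ofLeftAxioms (fun a b c => Subtype.ext (mul_assoc a.1 b.1 c.1))
    (fun a => Subtype.ext (hX.one_mul a.1 a.2)) fun a => Subtype.ext (hX.iv_mul a.2)
  let N : Subgroup X :=
    { carrier := {x | x.1 ∈ S}
      one_mem' := h1
      mul_mem' := fun {a b} ha hb => h2 _ ha _ hb
      inv_mem' := fun {a} ha => h3 _ ha }
  have hc : ∀ x y : X, (y * x)⁻¹ * (x * y) ∈ N := fun x y => h4 _ x.2 _ y.2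
  haveI : N.Normal := ⟨fun n hn g => by
    have := mul_mem hn (hc g⁻¹⁻¹ (n * g⁻¹))
    rwa [show n * ((n * g⁻¹ * g⁻¹⁻¹)⁻¹ * (g⁻¹⁻¹ * (n * g⁻¹))) = g * n * g⁻¹ by group] at this⟩
  letI : CommGroup (X ⧸ N) := { (inferInstance : Group (X ⧸ N)) with
    mul_comm := fun a b => by
      obtain ⟨a, rfl⟩ := QuotientGroup.mk_surjective a
      obtain ⟨b, rfl⟩ := QuotientGroup.mk_surjective b
      exact QuotientGroup.eq.2 (hc b a) }
  refine ⟨Additive (X ⧸ N), inferInstance, fun x => if h : x ∈ X then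
    Additive.ofMul ((⟨x, h⟩ : X) : X ⧸ N) else 0, fun x hx y hy => ?_, fun v => ?_, fun x hx => ?_⟩
  · simp only [dif_pos hx, dif_pos hy, dif_pos (hX.mul_mem _ hx _ hy)]
    rfl
  · obtain ⟨a, ha⟩ := QuotientGroup.mk_surjective (Additive.toMul v)
    exact ⟨a, a.2, by simp only [dif_pos a.2]; exact congrArg Additive.ofMul ha⟩
  · simp only [dif_pos hx]
    exact QuotientGroup.eq_one_iff (N := N) ⟨x, hx⟩

namespace Quo
variable {e : R} {X : Finset R} {S : Set R} {V : Type*} [AddCommGroup V] {π : R → V}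
  (hX : ES0 e X) (hq : Quo X S π)
include hX hq

theorem map_e : π e = 0 := by
  have := hq.hom e hX.one_mem e hX.one_mem
  rwa [hX.ee, left_eq_add] at this

theorem map_iv {x : R} (hx : x ∈ X) : π (iv x) = -π x := by
  rw [eq_neg_iff_add_eq_zero, ← hq.hom _ (hX.iv_mem hx) _ hx, hX.iv_mul hx, hq.map_e hX]

theorem eq_iff {x y : R} (hx : x ∈ X) (hy : y ∈ X) : π x = π y ↔ x * iv y ∈ S := by
  rw [← hq.ker _ (hX.mul_mem _ hx _ (hX.iv_mem hy)), hq.hom _ hx _ (hX.iv_mem hy), hq.map_iv hX hy,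
    add_neg_eq_zero]

theorem fin : Finite V := by
  choose s hs hs' using hq.surj
  exact Finite.of_injective (fun v => (⟨s v, hs v⟩ : X)) fun v w h => by
    rw [← hs' v, ← hs' w, show s v = s w from congrArg Subtype.val h]

theorem lin {M : Type*} [AddCommGroup M] (f : R → M)
    (h1 : ∀ x ∈ X, ∀ y ∈ X, f (x * y) = f x + f y) (h2 : ∀ x ∈ X, x ∈ S → f x = 0) :
    ∃ φ : V →+ M, ∀ x ∈ X, φ (π x) = f x := by
  choose s hs hs' using hq.surj
  have wd : ∀ x ∈ X, ∀ y ∈ X, π x = π y → f x = f y := fun x hx y hy h => by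
    have hm := hX.mul_mem _ hx _ (hX.iv_mem hy)
    have := h1 _ hm _ hy
    rwa [h2 _ hm ((hq.eq_iff hX hx hy).1 h), zero_add, mul_assoc, hX.iv_mul hy, hX.mul_one x hx]
      at this
  exact ⟨AddMonoidHom.mk' (fun v => f (s v)) fun v w => by
    rw [← h1 _ (hs v) _ (hs w)]
    exact wd _ (hs _) _ (hX.mul_mem _ (hs v) _ (hs w)) (by rw [hq.hom _ (hs v) _ (hs w), hs', hs', hs']),
    fun x hx => wd _ (hs _) _ hx (hs' _)⟩

end Quo

theorem ES0.mul_iv_eq {e : R} {X : Finset R} (hX : ES0 e X) {x y c : R} (hx : x ∈ X) (hy : y ∈ X)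
    (h : x * iv y = c) : x = c * y := by
  rw [← h, mul_assoc, hX.iv_mul hy, hX.mul_one x hx]

variable [Algebra ℂ R] {G : Type*} [Group G] [MulSemiringAction G R]

theorem exists_iso [Finite G] {e : R} {Y : Finset R} (hY : ES0 e Y)
    (hc : ∀ x ∈ Y, ∀ y ∈ Y, x * y = y * x) {K : Subgroup G} (hK : ∀ g ∈ K, ∀ x ∈ Y, g • x ∈ Y)
    (hKo : Odd (Nat.card K)) (fpf : ∀ x ∈ Y, (∀ k ∈ K, k • x = x) → x = e ∨ x = -e) :
    ∃ B : Finset R, B ⊆ Y ∧ e ∈ B ∧ -e ∉ B ∧ (∀ x ∈ B, ∀ y ∈ B, x * y ∈ B) ∧ (∀ b ∈ B, b * b = e) ∧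
      (∀ y ∈ Y, y ∈ B ∨ -y ∈ B) ∧ ∀ g : G, (∀ x ∈ Y, g • x ∈ Y) → (∀ k, g⁻¹ * k * g ∈ K ↔ k ∈ K) →
        ∀ b ∈ B, g • b ∈ B := by
  classical
  have := Fintype.ofFinite K
  obtain ⟨W, _, π, hq⟩ := exists_quo hY {e} rfl (by rintro _ rfl _ rfl; exact hY.ee)
    (by rintro _ rfl; exact hY.iv_e) fun x hx y hy => by
      rw [hc y hy x hx]; exact hY.iv_mul (hY.mul_mem _ hx _ hy)
  have hb : ∀ g : G, (∀ x ∈ Y, g • x ∈ Y) → ∃ φ : W →+ W, ∀ x ∈ Y, φ (π x) = π (g • x) :=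
    fun g hg => hq.lin hY _ (fun x hx y hy => by rw [smul_mul', hq.hom _ (hg x hx) _ (hg y hy)])
      fun x hx h => by rw [show x = e from h, hY.smul_e (hg e hY.one_mem), hq.map_e hY]
  let N : R → W := fun y => ∑ k : K, π ((k : G) • y)
  have Nm : ∀ x ∈ Y, ∀ y ∈ Y, N (x * y) = N x + N y := fun x hx y hy => by
    simp only [N, ← sum_add_distrib, smul_mul']
    exact sum_congr rfl fun k _ => hq.hom _ (hK k k.2 x hx) _ (hK k k.2 y hy)
  have h2 : π (-e) + π (-e) = 0 := by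
    rw [← hq.hom _ hY.neg_mem _ hY.neg_mem, neg_mul_neg, hY.ee, hq.map_e hY]
  have Ne : N (-e) = π (-e) := by
    simp only [N, smul_neg, fun k : K => hY.smul_e (hK k k.2 e hY.one_mem), sum_const, card_univ,
      ← Nat.card_eq_fintype_card]
    obtain ⟨m, hm⟩ := hKo
    rw [hm, add_nsmul, mul_nsmul, two_nsmul, h2, nsmul_zero, zero_add, one_nsmul]
  have Ne0 : N (-e) ≠ 0 := fun h => hY.ne_neg hY.one_mem ((hq.ker _ hY.neg_mem).1 (Ne ▸ h)).symm
  have Nv : ∀ y ∈ Y, N y = 0 ∨ N y = π (-e) := fun y hy => by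
    obtain ⟨z, hz, hz'⟩ := hq.surj (N y)
    have := fpf z hz fun k hk => by
      obtain ⟨φ, hφ⟩ := hb k (hK k hk)
      have e1 : π (k • z) = π z := by
        rw [← hφ z hz, hz', map_sum]
        refine Fintype.sum_equiv (Equiv.mulLeft (⟨k, hk⟩ : K)) _ _ fun l => ?_
        rw [hφ _ (hK l l.2 y hy), smul_smul]; rfl
      rw [hY.mul_iv_eq (hK k hk z hz) hz ((hq.eq_iff hY (hK k hk z hz) hz).1 e1), hY.one_mul z hz]
    rw [← hz']
    rcases this with rfl | rfl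
    · exact Or.inl (hq.map_e hY)
    · exact Or.inr rfl
  refine ⟨Y.filter fun y => N y = 0, filter_subset _ _, mem_filter.2 ⟨hY.one_mem, ?_⟩,
    fun h => Ne0 (mem_filter.1 h).2, fun x hx y hy => ?_, fun b hb => ?_, fun y hy => ?_,
    fun g hg hgK y hy => ?_⟩
  · have := Nm e hY.one_mem e hY.one_mem
    rwa [hY.ee, left_eq_add] at this
  · rw [mem_filter] at *
    exact ⟨hY.mul_mem _ hx.1 _ hy.1, by rw [Nm _ hx.1 _ hy.1, hx.2, hy.2, add_zero]⟩
  · rw [mem_filter] at hb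
    refine (hY.sq b hb.1).resolve_right fun h => Ne0 ?_
    rw [← h, Nm _ hb.1 _ hb.1, hb.2, add_zero]
  · simp only [mem_filter, hy, hY.neg_mem' hy, true_and]
    refine (Nv y hy).imp_right fun h => ?_
    rw [← hY.one_mul y hy, ← neg_mul, Nm _ hY.neg_mem _ hy, Ne, h, h2]
  · rw [mem_filter] at *
    refine ⟨hg y hy.1, ?_⟩
    obtain ⟨φ, hφ⟩ := hb g hg
    rw [← map_zero φ, ← hy.2, map_sum]
    refine Fintype.sum_equiv ((MulAut.conj g⁻¹).toEquiv.subtypeEquiv fun k => by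
      simpa using (hgK k).symm) _ _ fun l => ?_
    rw [hφ _ (hK _ (Subtype.prop _) y hy.1), smul_smul, smul_smul]
    congr 2
    simp [mul_assoc]

/-- the subgroup of elements stabilizing `X` -/
def stabX (G : Type*) [Group G] [MulSemiringAction G R] (X : Finset R) : Subgroup G where
  carrier := {g | (∀ x ∈ X, g • x ∈ X) ∧ ∀ x ∈ X, g⁻¹ • x ∈ X}
  one_mem' := by simp
  mul_mem' := fun {a b} ha hb => ⟨fun x hx => by rw [mul_smul]; exact ha.1 _ (hb.1 x hx),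
    fun x hx => by rw [mul_inv_rev, mul_smul]; exact hb.2 _ (ha.2 x hx)⟩
  inv_mem' := fun {a} ha => ⟨ha.2, by simpa using ha.1⟩

structure Sp (e : R) (X : Finset R) {V : Type*} [AddCommGroup V] [Module (ZMod 2) V] (π : R → V)
    (β : LinearMap.BilinForm (ZMod 2) V) (a : G → Module.End (ZMod 2) V) : Prop where
  quo : Quo X {x | x = e ∨ x = -e} π
  form : ∀ x ∈ X, ∀ y ∈ X, (β (π x) (π y) = 0 ↔ x * y = y * x)
  act : ∀ g ∈ stabX G X, ∀ x ∈ X, a g (π x) = π (g • x)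

theorem exists_sp {e : R} {X : Finset R} (hX : ES0 e X) :
    ∃ (V : Type u) (_ : AddCommGroup V) (_ : Module (ZMod 2) V) (π : R → V)
      (β : LinearMap.BilinForm (ZMod 2) V) (a : G → Module.End (ZMod 2) V), Sp e X π β a := by
  classical
  obtain ⟨V, _, π, hq⟩ := exists_quo hX {x | x = e ∨ x = -e} (Or.inl rfl)
    (by rintro _ (rfl | rfl) _ (rfl | rfl) <;> simp [hX.ee])
    (by rintro _ (rfl | rfl) <;> simp [hX.iv_e, hX.iv_neg_e]) fun x hx y hy => by
      rcases hX.comm hx hy with h | h <;> simp [h, hX.iv_mul (hX.mul_mem _ hy _ hx)]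
  letI : Module (ZMod 2) V := AddCommGroup.zmodModule fun v => by
    obtain ⟨x, hx, rfl⟩ := hq.surj v
    rw [two_nsmul, ← hq.hom _ hx _ hx, hq.ker _ (hX.mul_mem _ hx _ hx)]
    exact hX.sq x hx
  let sg : R → R → ZMod 2 := fun x y => if x * y = y * x then 0 else 1
  have sgc : ∀ x y, sg x y = sg y x := fun x y => by simp only [sg, eq_comm]
  have sgm : ∀ y ∈ X, ∀ x ∈ X, ∀ x' ∈ X, sg (x * x') y = sg x y + sg x' y := by
    intro y hy x hx x' hx'
    have hn := hX.ne_neg (hX.mul_mem _ hy _ (hX.mul_mem _ hx _ hx'))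
    have n1 := hX.ne_neg (hX.mul_mem _ hy _ hx)
    have n2 := hX.ne_neg (hX.mul_mem _ hy _ hx')
    rcases hX.comm hx hy with h | h <;> rcases hX.comm hx' hy with h' | h' <;>
      simp only [sg, mul_assoc x x' y, h', mul_neg, ← mul_assoc x y, h, neg_mul, mul_assoc y x x',
        neg_neg, n1.symm, n2.symm, hn.symm, if_true, if_false] <;> decide
  have sge : ∀ y ∈ X, ∀ x ∈ X, (x = e ∨ x = -e) → sg x y = 0 := by
    rintro y hy _ _ (rfl | rfl) <;> simp [sg, hX.one_mul y hy, hX.mul_one y hy]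
  choose! φ hφ using fun y (hy : y ∈ X) => hq.lin hX (fun x => sg x y) (sgm y hy) (sge y hy)
  obtain ⟨β, hβ⟩ := hq.lin hX (fun y => (φ y).toZModLinearMap 2) (fun y hy y' hy' => by
      ext v
      obtain ⟨x, hx, rfl⟩ := hq.surj v
      simp only [AddMonoidHom.coe_toZModLinearMap, LinearMap.add_apply]
      rw [hφ _ (hX.mul_mem _ hy _ hy') x hx, hφ _ hy x hx, hφ _ hy' x hx, sgc, sgm x hx y hy y' hy',
        sgc y, sgc y'])
    fun y hy h => by
      ext v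
      obtain ⟨x, hx, rfl⟩ := hq.surj v
      simp only [AddMonoidHom.coe_toZModLinearMap, LinearMap.zero_apply]
      rw [hφ _ hy x hx, sgc, sge x hx y hy h]
  have hb : ∀ g ∈ stabX G X, ∃ φ : V →+ V, ∀ x ∈ X, φ (π x) = π (g • x) :=
    fun g hg => hq.lin hX _ (fun x hx y hy => by rw [smul_mul', hq.hom _ (hg.1 x hx) _ (hg.1 y hy)])
      fun x hx h => by
        rw [hq.ker _ (hg.1 x hx)]
        rcases h with rfl | rfl <;> simp [hX.smul_e (hg.1 _ hX.one_mem)]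
  choose! a ha using hb
  refine ⟨V, inferInstance, inferInstance, π, β.toZModLinearMap 2,
    fun g => (a g).toZModLinearMap 2, hq, fun x hx y hy => ?_, ha⟩
  simp only [AddMonoidHom.coe_toZModLinearMap, hβ x hx, hφ x hx y hy, sg]
  rw [eq_comm (a := y * x)]
  simp

open Classical in
/-- preimage of a subspace -/
noncomputable def pre (X : Finset R) {V : Type*} [AddCommGroup V] [Module (ZMod 2) V] (π : R → V)
    (U : Submodule (ZMod 2) V) : Finset R := X.filter fun x => π x ∈ U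

namespace Sp
variable {e : R} {X : Finset R} {V : Type*} [AddCommGroup V] [Module (ZMod 2) V] {π : R → V}
  {β : LinearMap.BilinForm (ZMod 2) V} {a : G → Module.End (ZMod 2) V}

omit [Algebra ℂ R] in
theorem mem_pre {U : Submodule (ZMod 2) V} {x : R} : x ∈ pre X π U ↔ x ∈ X ∧ π x ∈ U := by
  simp [pre]

omit [Algebra ℂ R] in
theorem pre_sub {U : Submodule (ZMod 2) V} : pre X π U ⊆ X := fun _ h => (mem_pre.1 h).1

variable (hX : ES e X) (hs : Sp e X π β a)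
include hX hs
omit [Algebra ℂ R]

theorem eq_iff {x y : R} (hx : x ∈ X) (hy : y ∈ X) : π x = π y ↔ x = y ∨ x = -y := by
  rw [hs.quo.eq_iff hX.toES0 hx hy]
  constructor
  · rintro (h | h)
    · exact Or.inl (by rw [hX.mul_iv_eq hx hy h, hX.one_mul y hy])
    · exact Or.inr (by rw [hX.mul_iv_eq hx hy h, neg_mul, hX.one_mul y hy])
  · rintro (rfl | rfl) <;> simp [hX.mul_iv hy]

theorem isAct : Act (stabX G X) a := by
  refine ⟨LinearMap.ext fun v => ?_, fun g hg h hh => LinearMap.ext fun v => ?_⟩ <;>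
    obtain ⟨x, hx, rfl⟩ := hs.quo.surj v
  · rw [hs.act 1 (one_mem _) x hx, one_smul]; rfl
  · rw [Module.End.mul_apply, hs.act _ (mul_mem hg hh) x hx, hs.act h hh x hx,
      hs.act g hg _ (hh.1 x hx), mul_smul]

omit hX in
theorem refl : β.IsRefl := fun v w h => by
  obtain ⟨x, hx, rfl⟩ := hs.quo.surj v
  obtain ⟨y, hy, rfl⟩ := hs.quo.surj w
  exact (hs.form y hy x hx).2 ((hs.form x hx y hy).1 h).symm

theorem nd (v : V) (h : ∀ w, β v w = 0) : v = 0 := by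
  obtain ⟨x, hx, rfl⟩ := hs.quo.surj v
  exact (hs.quo.ker x hx).2 (hX.nd x hx fun y hy => (hs.form x hx y hy).1 (h _))

theorem nondeg : β.Nondegenerate :=
  ⟨fun v h => hs.nd hX v h, fun v h => hs.nd hX v fun w => hs.refl _ _ (h w)⟩

omit hX in
theorem inv {g : G} (hg : g ∈ stabX G X) (v w : V) : β (a g v) (a g w) = β v w := by
  obtain ⟨x, hx, rfl⟩ := hs.quo.surj v
  obtain ⟨y, hy, rfl⟩ := hs.quo.surj w
  have : ∀ s t : ZMod 2, (s = 0 ↔ t = 0) → s = t := by decide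
  apply this
  rw [hs.act g hg x hx, hs.act g hg y hy, hs.form _ (hg.1 x hx) _ (hg.1 y hy), hs.form x hx y hy,
    ← smul_mul', ← smul_mul', smul_left_cancel_iff]

theorem es0 (U : Submodule (ZMod 2) V) : ES0 e (pre X π U) :=
  ⟨hX.ne, mem_pre.2 ⟨hX.one_mem, by rw [(hs.quo.ker _ hX.one_mem).2 (Or.inl rfl)]; exact U.zero_mem⟩,
    mem_pre.2 ⟨hX.neg_mem, by rw [(hs.quo.ker _ hX.neg_mem).2 (Or.inr rfl)]; exact U.zero_mem⟩,
    fun x hx y hy => mem_pre.2 ⟨hX.mul_mem _ (pre_sub hx) _ (pre_sub hy), by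
      rw [hs.quo.hom _ (pre_sub hx) _ (pre_sub hy)]; exact add_mem (mem_pre.1 hx).2 (mem_pre.1 hy).2⟩,
    fun x hx => hX.one_mul x (pre_sub hx), fun x hx => hX.mul_one x (pre_sub hx),
    fun x hx => hX.sq x (pre_sub hx)⟩

omit hX in
theorem smul_pre {U U' : Submodule (ZMod 2) V} {g : G} (hg : g ∈ stabX G X)
    (h : ∀ v ∈ U, a g v ∈ U') : ∀ x ∈ pre X π U, g • x ∈ pre X π U' := fun x hx =>
  mem_pre.2 ⟨hg.1 x (pre_sub hx), by rw [← hs.act g hg x (pre_sub hx)]; exact h _ (mem_pre.1 hx).2⟩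

omit hX in
theorem card_pre {U : Submodule (ZMod 2) V} (hU : U ≠ ⊤) : (pre X π U).card < X.card :=
  card_lt_card ⟨pre_sub, fun h => hU (eq_top_iff.2 fun v _ => by
    obtain ⟨x, hx, rfl⟩ := hs.quo.surj v
    exact (mem_pre.1 (h hx)).2)⟩

theorem orth {U1 U2 : Submodule (ZMod 2) V} (h1 : ∀ v ∈ U1, ∀ w ∈ U2, β v w = 0)
    (h2 : ∀ v, ∃ x ∈ U1, ∃ y ∈ U2, v = x + y) : ES e (pre X π U1) ∧
      (∀ x ∈ pre X π U1, ∀ y ∈ pre X π U2, x * y = y * x) ∧
      ∀ x ∈ X, ∃ b ∈ pre X π U1, ∃ c ∈ pre X π U2, x = b * c := by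
  refine ⟨⟨hs.es0 hX U1, fun x hx h => (hs.quo.ker x (pre_sub hx)).1 (hs.nd hX _ fun w => ?_)⟩,
    fun x hx y hy => (hs.form x (pre_sub hx) y (pre_sub hy)).1
      (h1 _ (mem_pre.1 hx).2 _ (mem_pre.1 hy).2), fun x hx => ?_⟩
  · obtain ⟨v, hv, w, hw, rfl⟩ := h2 w
    obtain ⟨y, hy, rfl⟩ := hs.quo.surj v
    rw [map_add, h1 _ (mem_pre.1 hx).2 _ hw, add_zero, hs.form x (pre_sub hx) y hy]
    exact h y (mem_pre.2 ⟨hy, hv⟩)
  · obtain ⟨v, hv, w, hw, h⟩ := h2 (π x)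
    obtain ⟨b, hb, rfl⟩ := hs.quo.surj v
    refine ⟨b, mem_pre.2 ⟨hb, hv⟩, iv b * x, mem_pre.2 ⟨hX.mul_mem _ (hX.iv_mem hb) _ hx, ?_⟩, ?_⟩
    · rwa [hs.quo.hom _ (hX.iv_mem hb) _ hx, hs.quo.map_iv hX.toES0 hb, h, neg_add_cancel_left]
    · rw [← mul_assoc, hX.mul_iv hb, hX.one_mul x hx]

end Sp

theorem main [Finite G] [SMulCommClass G ℂ R] (n : ℕ) : ∀ (e : R) (X : Finset R) (K T : Subgroup G),
    X.card + Nat.card K + Nat.card T ≤ n → ES e X → (∀ g ∈ K, ∀ x ∈ X, g • x ∈ X) →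
    (∀ g ∈ T, ∀ x ∈ X, g • x ∈ X) → Odd (Nat.card K) → IsPGroup 2 T →
    (∀ t ∈ T, ∀ k ∈ K, t * k * t⁻¹ ∈ K) →
    (∀ x ∈ X, (∀ k ∈ K, k • x = x ∨ k • x = -x) → x = e ∨ x = -e) → ∃ u, Impl e X T u := by
  induction n with
  | zero => intro e X K T hn hX; have := hX.card_pos; omega
  | succ n ih =>
  intro e X K T hn hX hKX hTX hKo hT2 hTK fpf
  obtain ⟨V, _, _, π, β, a, hs⟩ := exists_sp (G := G) hX.toES0
  have := hs.quo.fin hX.toES0
  have := Fintype.ofFinite K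
  have hK : K ≤ stabX G X := fun g hg => ⟨hKX g hg, hKX _ (inv_mem hg)⟩
  have hT : T ≤ stabX G X := fun g hg => ⟨hTX g hg, hTX _ (inv_mem hg)⟩
  have ha := hs.isAct hX
  have fpfi : ∀ L : Subgroup G, L ≤ K → ((∀ v, (∀ k ∈ L, a k v = v) → v = 0) ↔
      ∀ x ∈ X, (∀ k ∈ L, k • x = x ∨ k • x = -x) → x = e ∨ x = -e) := fun L hL => by
    have : ∀ x ∈ X, ∀ k ∈ L, (a k (π x) = π x ↔ k • x = x ∨ k • x = -x) := fun x hx k hk => by
      rw [hs.act k (hK (hL hk)) x hx, hs.eq_iff hX (hKX k (hL hk) x hx) hx]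
    refine ⟨fun h x hx h' => (hs.quo.ker x hx).1 (h _ fun k hk => (this x hx k hk).2 (h' k hk)),
      fun h v hv => ?_⟩
    obtain ⟨x, hx, rfl⟩ := hs.quo.surj v
    exact (hs.quo.ker x hx).2 (h x hx fun k hk => (this x hx k hk).1 (hv k hk))
  have fpfV := (fpfi K le_rfl).2 fpf
  have hN : ∀ v, ∑ k : K, a k v = 0 := fun v => fpfV _ fun k hk => ha.norm_fixed hK v hk
  have const : ∀ L : Subgroup G, (∀ h ∈ L, ∀ x ∈ X, h • x = x) → Impl e X L fun _ => e :=
    fun L h => ⟨fun _ _ => Submodule.subset_span hX.one_mem, rfl, fun _ _ _ _ => hX.ee.symm,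
      fun g hg x hx => by rw [h g hg x hx, hX.one_mul x hx, hX.mul_one x hx]⟩
  rcases subsingleton_or_nontrivial V with hV | hV
  · refine ⟨_, const T fun h hh x hx => ?_⟩
    rcases (hs.quo.ker x hx).1 (Subsingleton.elim _ _) with rfl | rfl <;>
      simp [hX.smul_e (hTX h hh _ hX.one_mem)]
  rcases dicho hK hT ha β (fun g hg => hs.inv hg) hKo hT2 hTK fpfV with
    ⟨U, hU0, hU1, hKU, hTU⟩ | ⟨K1, hlt, h1, h2⟩ | ⟨T0, hT0, t, ht, h1, h2, h3⟩ |
    ⟨T1, hlt, hi, t, ht, htn, U, hKU, hTU, h1, h2⟩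
  · have oinv : ∀ g ∈ stabX G X, (∀ v ∈ U, a g⁻¹ v ∈ U) → ∀ v ∈ β.orthogonal U,
        a g v ∈ β.orthogonal U := fun g hg h v hv w hw => by
      have := hv _ (h w hw)
      rwa [← hs.inv hg, ha.app_inv hg] at this
    have hKU' := fun g hg => oinv g (hK hg) (hKU _ (inv_mem hg))
    have hTU' := fun g hg => oinv g (hT hg) (hTU _ (inv_mem hg))
    by_cases hd : U ⊓ β.orthogonal U = ⊥
    · have hc := (LinearMap.BilinForm.isCompl_orthogonal_iff_disjoint hs.refl).2 (disjoint_iff.2 hd)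
      have h2 : ∀ v, ∃ x ∈ U, ∃ y ∈ β.orthogonal U, v = x + y := fun v => by
        obtain ⟨x, hx, y, hy, h⟩ := Submodule.mem_sup.1 (hc.sup_eq_top ▸ Submodule.mem_top (x := v))
        exact ⟨x, hx, y, hy, h.symm⟩
      obtain ⟨e1, e2, e3⟩ := hs.orth hX (U2 := β.orthogonal U) (fun v hv w hw => hw v hv) h2
      obtain ⟨e4, -⟩ := hs.orth hX (U1 := β.orthogonal U) (U2 := U)
        (fun v hv w hw => hs.refl _ _ (hv w hw)) fun v => by
        obtain ⟨x, hx, y, hy, h⟩ := h2 v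
        exact ⟨y, hy, x, hx, h.trans (add_comm _ _)⟩
      have c1 := hs.card_pre hU1
      have c2 := hs.card_pre (U := β.orthogonal U) fun h => hU0 (by rwa [h, inf_top_eq] at hd)
      obtain ⟨u1, hu1⟩ := ih e _ K T (by omega) e1 (fun g hg => hs.smul_pre (hK hg) (hKU g hg))
        (fun g hg => hs.smul_pre (hT hg) (hTU g hg)) hKo hT2 hTK fun x hx => fpf x (Sp.pre_sub hx)
      obtain ⟨u2, hu2⟩ := ih e _ K T (by omega) e4 (fun g hg => hs.smul_pre (hK hg) (hKU' g hg))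
        (fun g hg => hs.smul_pre (hT hg) (hTU' g hg)) hKo hT2 hTK fun x hx => fpf x (Sp.pre_sub hx)
      exact ⟨_, Impl.prod hX.toES0 Sp.pre_sub Sp.pre_sub e2 e3
        (fun g hg => hs.smul_pre (hT hg) (hTU' g hg)) hu1 hu2⟩
    · set W := U ⊓ β.orthogonal U
      have hKW : ∀ g ∈ K, ∀ x ∈ pre X π W, g • x ∈ pre X π W := fun g hg =>
        hs.smul_pre (hK hg) fun v hv => ⟨hKU g hg v hv.1, hKU' g hg v hv.2⟩
      have hTW : ∀ g ∈ T, ∀ x ∈ pre X π W, g • x ∈ pre X π W := fun g hg =>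
        hs.smul_pre (hT hg) fun v hv => ⟨hTU g hg v hv.1, hTU' g hg v hv.2⟩
      have hc : ∀ x ∈ pre X π W, ∀ y ∈ pre X π W, x * y = y * x := fun x hx y hy =>
        (hs.form x (Sp.pre_sub hx) y (Sp.pre_sub hy)).1 ((Sp.mem_pre.1 hy).2.2 _ (Sp.mem_pre.1 hx).2.1)
      obtain ⟨B, b1, b2, b3, b4, b5, b6, b7⟩ := exists_iso (hs.es0 hX W) hc hKW hKo
        fun x hx h => fpf x (Sp.pre_sub hx) fun k hk => Or.inl (h k hk)
      have b8 : ∀ x ∈ X, (x ∈ B ∨ -x ∈ B) → π x ∈ W := fun x hx h => by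
        rcases h with h | h
        · exact (Sp.mem_pre.1 (b1 h)).2
        · rw [(hs.eq_iff hX hx (hX.neg_mem' hx)).2 (Or.inr (neg_neg x).symm)]
          exact (Sp.mem_pre.1 (b1 h)).2
      have b9 : ∀ y ∈ X, π y ∈ β.orthogonal W ↔ ∀ b ∈ B, y * b = b * y := fun y hy => by
        refine ⟨fun h b hb => ((hs.form _ (Sp.pre_sub (b1 hb)) _ hy).1
          (h _ (Sp.mem_pre.1 (b1 hb)).2)).symm, fun h w hw => ?_⟩
        obtain ⟨x, hx, rfl⟩ := hs.quo.surj w
        refine (hs.form x hx y hy).2 ?_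
        rcases b6 x (Sp.mem_pre.2 ⟨hx, hw⟩) with k | k
        · exact (h x k).symm
        · simpa using (h _ k).symm
      have hB : Iso e X B := ⟨b1.trans Sp.pre_sub, b2, b3, b4, b5,
        fun x hx y hy => hc x (b1 hx) y (b1 hy), fun x hx h => b6 x (Sp.mem_pre.2 ⟨hx, by
          rw [← LinearMap.BilinForm.orthogonal_orthogonal (hs.nondeg hX) hs.refl W]
          intro w hw
          obtain ⟨y, hy, rfl⟩ := hs.quo.surj w
          exact (hs.form y hy x hx).2 (h y hy ((b9 y hy).1 hw)).symm⟩)⟩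
      have hKB : ∀ g ∈ K, ∀ x ∈ B, g • x ∈ B := fun g hg => b7 g (hKW g hg) fun k => by
        rw [K.mul_mem_cancel_right hg, K.mul_mem_cancel_left (inv_mem hg)]
      have hTB : ∀ g ∈ T, ∀ x ∈ B, g • x ∈ B := fun g hg => b7 g (hTW g hg) fun k =>
        ⟨fun h => by simpa [mul_assoc] using hTK g hg _ h,
          fun h => by simpa using hTK _ (inv_mem hg) _ h⟩
      have c1 : (red X B).card < X.card := by
        obtain ⟨v, hv, hv0⟩ := (Submodule.ne_bot_iff W).1 hd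
        obtain ⟨w, hw⟩ : ∃ w, β v w ≠ 0 := by
          by_contra h
          push Not at h
          exact hv0 (hs.nd hX v h)
        obtain ⟨y, hy, rfl⟩ := hs.quo.surj w
        exact Iso.card_lt hy fun h => hw ((b9 y hy).2 (mem_perp.1 h).2 v hv)
      obtain ⟨w, hw⟩ := ih _ _ K T (by omega) (hB.es hX) (fun g hg x => Iso.smul_red hKX hKB hg)
        (fun g hg x => Iso.smul_red hTX hTB hg) hKo hT2 hTK fun x hx h => by
        replace hx := mem_red.1 hx
        obtain ⟨x, hx, rfl⟩ := hx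
        have hx' := (mem_perp.1 hx).1
        refine hB.pm_of_mem hX (b6 x (Sp.mem_pre.2 ⟨hx', ?_⟩))
        have h1 : ∀ k : K, a k (π x) - π x ∈ W := fun k => by
          have hk := hKX k k.2 x hx'
          have hi : iv x ∈ perp X B := Iso.perp_mul hX (Iso.perp_mul hX hx hx) hx
          have := b8 _ (hX.mul_mem _ hk _ (hX.iv_mem hx')) (hB.mem_of_pm hX
            (Iso.perp_mul hX (Iso.smul_perp hKX hKB k.2 hx) hi) (by
              have := h k k.2
              rw [smul_mul', Iso.smul_idem hKB k.2] at this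
              rw [← mul_assoc]
              rcases this with l | l <;> rw [l] <;>
                simp [mul_assoc, hX.mul_iv hx', hB.idem_mul hX b2]))
          rwa [hs.quo.hom _ hk _ (hX.iv_mem hx'), hs.quo.map_iv hX.toES0 hx', ← sub_eq_add_neg,
            ← hs.act k (hK k.2) x hx'] at this
        have h2 := W.sum_mem fun k (_ : k ∈ univ) => h1 k
        rwa [sum_sub_distrib, hN, sum_const, card_univ, ← Nat.card_eq_fintype_card, odd_smul hKo,
          zero_sub, neg_mem_iff] at h2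
      exact hB.lift hX hTX hTB hw
  · have : Nat.card K1 < Nat.card K := Set.Finite.card_lt_card (Set.toFinite _) hlt
    exact ih e X K1 T (by omega) hX (fun g hg => hKX g (hlt.le hg)) hTX
      (hKo.of_dvd_nat (Subgroup.card_dvd_of_le hlt.le)) hT2 h1 ((fpfi K1 hlt.le).1 h2)
  · classical
    have pm : ∀ g ∈ stabX G X, a g = 1 → ∀ x ∈ X, g • x = x ∨ g • x = -x := fun g hg h x hx => by
      rw [← hs.eq_iff hX (hg.1 x hx) hx, ← hs.act g hg x hx, h]; rfl
    have odd : ∀ m ∈ K, a m = 1 → ∀ x ∈ X, m • x = x := fun m hm h x hx => by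
      obtain ⟨j, hj⟩ := hKo
      have e1 : m ^ Nat.card K = 1 := congrArg Subtype.val (pow_card_eq_one' (x := (⟨m, hm⟩ : K)))
      have e2 : m ^ 2 • x = x := by
        rcases pm m (hK hm) h x hx with l | l <;> simp [pow_two, mul_smul, l]
      have e3 : (m ^ 2) ^ j • x = x := (MulAction.stabilizer G x).pow_mem e2 j
      rw [← e3, smul_smul, ← pow_mul, ← pow_succ', ← hj, e1, one_smul, pow_mul, e3]
    refine cyc_ext hX hTX hT0 ht h1 h2 (const T0 fun h hh x hx => ?_)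
      fun _ _ => hX.smul_e (hTX t ht e hX.one_mem)
    have hH := hT (hT0 hh)
    obtain ⟨φ, hφ⟩ := hs.quo.lin hX.toES0 (fun x => if h • x = x then (0 : ZMod 2) else 1)
      (fun x hx y hy => by
        have n1 := (hX.ne_neg hx).symm
        have n2 := (hX.ne_neg hy).symm
        have n3 := (hX.ne_neg (hX.mul_mem _ hx _ hy)).symm
        rcases pm h hH (h3 h hh) x hx with l | l <;> rcases pm h hH (h3 h hh) y hy with l' | l' <;>
          simp only [smul_mul', l, l', mul_neg, neg_mul, neg_neg, n1, n2, n3, if_true, if_false] <;>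
          decide)
      (by rintro _ _ (rfl | rfl) <;> simp [hX.smul_e (hH.1 _ hX.one_mem)])
    have h4 : ∀ k : K, φ (a k (π x)) = φ (π x) := fun k => by
      have hm := hTK h (hT0 hh) k k.2
      have := odd _ (mul_mem (inv_mem k.2) hm) (by
        rw [ha.mul _ (hK (inv_mem k.2)) _ (hK hm), ha.mul _ (mul_mem hH (hK k.2)) _ (inv_mem hH),
          ha.mul _ hH _ (hK k.2), ha.inv_eq_one hH (h3 h hh), h3 h hh, one_mul, mul_one,
          ← ha.mul _ (hK (inv_mem k.2)) _ (hK k.2), inv_mul_cancel, ha.one]) _ (hH.1 x hx)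
      rw [mul_smul, inv_smul_eq_iff, smul_smul, inv_mul_cancel_right, mul_smul] at this
      rw [hs.act k (hK k.2) x hx, hφ _ (hKX k k.2 x hx), hφ x hx]
      simp only [this, smul_left_cancel_iff]
    have h5 := congrArg φ (hN (π x))
    rw [map_sum, map_zero, sum_congr rfl fun k _ => h4 k, sum_const, card_univ,
      ← Nat.card_eq_fintype_card, odd_smul hKo, hφ x hx] at h5
    simpa using h5
  · have : Nat.card T1 < Nat.card T := Set.Finite.card_lt_card (Set.toFinite _) hlt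
    obtain ⟨e1, e2, e3⟩ := hs.orth hX (U1 := U) (U2 := U.map (a t))
      (by rintro v hv _ ⟨w, hw, rfl⟩; exact h1 v hv w hw) fun v => by
        obtain ⟨x, hx, y, hy, h⟩ := h2 v
        exact ⟨x, hx, _, ⟨y, hy, rfl⟩, h⟩
    have c1 : (pre X π U).card ≤ X.card := card_le_card Sp.pre_sub
    have hT1 := fun g (hg : g ∈ T1) => hs.smul_pre (hT (hlt.le hg)) (hTU g hg)
    obtain ⟨u1, hu1⟩ := ih e _ K T1 (by omega) e1 (fun g hg => hs.smul_pre (hK hg) (hKU g hg)) hT1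
      hKo (hT2.to_le hlt.le) (fun s hs => hTK s (hlt.le hs)) fun x hx => fpf x (Sp.pre_sub hx)
    refine tensor_ext hX e1.toES0 Sp.pre_sub Sp.pre_sub e2 e3 hTX hlt.le ht (fun h hh => ?_)
      (fun h hh => ?_) (by rw [hi t ht t ht]) (fun s hs => ?_) hT1
      (hs.smul_pre (hT ht) fun v hv => ⟨v, hv, rfl⟩) (hs.smul_pre (hT (inv_mem ht)) ?_) hu1
    · rw [hi _ (mul_mem ht (hlt.le hh)) _ (inv_mem ht), hi _ ht _ (hlt.le hh)]; simp [hh]
    · rw [hi _ (mul_mem (inv_mem ht) (hlt.le hh)) _ ht, hi _ (inv_mem ht) _ (hlt.le hh)]; simp [hh]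
    · rw [hi _ hs _ (inv_mem ht)]; simp [htn, em]
    · rintro _ ⟨v, hv, rfl⟩
      rwa [ha.inv_app (hT ht)]

end H2.Xs
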